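import Mathlib

set_option autoImplicit false

namespace Cfsg.Agent.Helper76

open Matrix

theorem sou_fc3_core {F : Type*} [Field F] (A N : Matrix (Fin 3) (Fin 3) F) (κ : F)
    (hN : N.det = 1) (hcol : ∀ i, (A * N) i 0 = κ * N i 0 + N i 1) :
    ∃ P : Matrix (Fin 3) (Fin 3) F, P.det = 1 ∧
      (P * A * P⁻¹) 0 0 = κ ∧ (P * A * P⁻¹) 1 0 = 1 ∧ (P * A * P⁻¹) 2 0 = 0 := by
  have hu : IsUnit N.det := by rw [hN]; exact isUnit_one
  have key : ∀ i, (N⁻¹ * A * N) i 0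
      = κ * (1 : Matrix (Fin 3) (Fin 3) F) i 0 + (1 : Matrix (Fin 3) (Fin 3) F) i 1 := by
    intro i
    rw [Matrix.mul_assoc, Matrix.mul_apply]
    simp only [hcol]
    rw [← Matrix.nonsing_inv_mul N hu]
    simp only [Matrix.mul_apply, Fin.sum_univ_three]
    ring
  refine ⟨N⁻¹, ?_, ?_⟩
  · rw [Matrix.det_nonsing_inv, hN]; simp
  · rw [Matrix.nonsing_inv_nonsing_inv N hu]
    refine ⟨?_, ?_, ?_⟩
    · rw [key]; simp
    · rw [key]; simp
    · rw [key]; simp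

theorem sou_fc3_extend {F : Type*} [Field F] (v w : Fin 3 → F)
    (h : v 1 * w 2 - v 2 * w 1 ≠ 0 ∨ v 2 * w 0 - v 0 * w 2 ≠ 0 ∨ v 0 * w 1 - v 1 * w 0 ≠ 0) :
    ∃ N : Matrix (Fin 3) (Fin 3) F, N.det = 1 ∧ (∀ i, N i 0 = v i) ∧ (∀ i, N i 1 = w i) := by
  rcases h with h | h | h
  · refine ⟨!![v 0, w 0, (v 1 * w 2 - v 2 * w 1)⁻¹; v 1, w 1, 0; v 2, w 2, 0], ?_, ?_, ?_⟩
    · rw [Matrix.det_fin_three]
      simp
      field_simp
    · intro i; fin_cases i <;> rfl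
    · intro i; fin_cases i <;> rfl
  · refine ⟨!![v 0, w 0, 0; v 1, w 1, (v 2 * w 0 - v 0 * w 2)⁻¹; v 2, w 2, 0], ?_, ?_, ?_⟩
    · rw [Matrix.det_fin_three]
      simp
      field_simp
      ring
    · intro i; fin_cases i <;> rfl
    · intro i; fin_cases i <;> rfl
  · refine ⟨!![v 0, w 0, 0; v 1, w 1, 0; v 2, w 2, (v 0 * w 1 - v 1 * w 0)⁻¹], ?_, ?_, ?_⟩
    · rw [Matrix.det_fin_three]
      simp
      field_simp
    · intro i; fin_cases i <;> rfl
    · intro i; fin_cases i <;> rfl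

theorem sou_fc3_vec {F : Type*} [Field F] (A : Matrix (Fin 3) (Fin 3) F)
    (hns : ∀ c : F, A ≠ c • (1 : Matrix (Fin 3) (Fin 3) F)) :
    ∃ v : Fin 3 → F,
      v 1 * (A *ᵥ v) 2 - v 2 * (A *ᵥ v) 1 ≠ 0 ∨ v 2 * (A *ᵥ v) 0 - v 0 * (A *ᵥ v) 2 ≠ 0 ∨
        v 0 * (A *ᵥ v) 1 - v 1 * (A *ᵥ v) 0 ≠ 0 := by
  by_contra hno
  push Not at hno
  have hno' : ∀ (x y z : F),
      (y * (A 2 0 * x + A 2 1 * y + A 2 2 * z) - z * (A 1 0 * x + A 1 1 * y + A 1 2 * z) = 0) ∧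
      (z * (A 0 0 * x + A 0 1 * y + A 0 2 * z) - x * (A 2 0 * x + A 2 1 * y + A 2 2 * z) = 0) ∧
      (x * (A 1 0 * x + A 1 1 * y + A 1 2 * z) - y * (A 0 0 * x + A 0 1 * y + A 0 2 * z) = 0) := by
    intro x y z
    have := hno ![x, y, z]
    simpa [Matrix.mulVec, dotProduct, Fin.sum_univ_three] using this
  have a20 : A 2 0 = 0 := by have := (hno' 1 0 0).2.1; linear_combination (-1 : F) * this
  have a10 : A 1 0 = 0 := by have := (hno' 1 0 0).2.2; linear_combination this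
  have a21 : A 2 1 = 0 := by have := (hno' 0 1 0).1; linear_combination this
  have a01 : A 0 1 = 0 := by have := (hno' 0 1 0).2.2; linear_combination (-1 : F) * this
  have a12 : A 1 2 = 0 := by have := (hno' 0 0 1).1; linear_combination (-1 : F) * this
  have a02 : A 0 2 = 0 := by have := (hno' 0 0 1).2.1; linear_combination this
  have a11 : A 1 1 = A 0 0 := by
    have := (hno' 1 1 0).2.2; linear_combination this - a10 + a01
  have a22 : A 2 2 = A 0 0 := by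
    have := (hno' 1 0 1).2.1; linear_combination (-1 : F) * this + a02 - a20
  apply hns (A 0 0)
  ext i j
  fin_cases i <;> fin_cases j <;> simp [a10, a20, a01, a21, a02, a12, a11, a22]

theorem sou_first_col {F : Type*} [Field F] (A : Matrix (Fin 3) (Fin 3) F)
    (hns : ∀ c : F, A ≠ c • (1 : Matrix (Fin 3) (Fin 3) F)) (κ : F) :
    ∃ P : Matrix (Fin 3) (Fin 3) F, P.det = 1 ∧
      (P * A * P⁻¹) 0 0 = κ ∧ (P * A * P⁻¹) 1 0 = 1 ∧ (P * A * P⁻¹) 2 0 = 0 := by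
  obtain ⟨v, hv⟩ := sou_fc3_vec A hns
  obtain ⟨N, hN, hN0, hN1⟩ := sou_fc3_extend v (A *ᵥ v - κ • v) (by
    simp only [Pi.sub_apply, Pi.smul_apply, smul_eq_mul]
    rcases hv with h | h | h
    · left; intro h'; apply h; linear_combination h'
    · right; left; intro h'; apply h; linear_combination h'
    · right; right; intro h'; apply h; linear_combination h')
  apply sou_fc3_core A N κ hN
  intro i
  rw [hN1, Matrix.mul_apply]
  simp only [hN0, Pi.sub_apply, Pi.smul_apply, smul_eq_mul, Matrix.mulVec, dotProduct]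
  ring

end Cfsg.Agent.Helper76
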