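import Mathlib
import Cfsg.Agent.Helper76.SouFC3

set_option autoImplicit false

namespace Cfsg.Agent.Helper76

open Matrix

theorem sou3_lu_minors {F : Type*} [Field F] (M : Matrix (Fin 3) (Fin 3) F)
    (b1 b2 b3 c1 c2 c3 : F) (hb1 : b1 ≠ 0) (hb2 : b2 ≠ 0) (hc1 : c1 ≠ 0) (hc2 : c2 ≠ 0)
    (h00 : M 0 0 = b1 * c1)
    (hmin : M 0 0 * M 1 1 - M 0 1 * M 1 0 = b1 * c1 * (b2 * c2))
    (hdet : M.det = b1 * b2 * b3 * (c1 * c2 * c3)) :
    ∃ l1 l2 l3 u1 u2 u3 : F,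
      M = !![b1, 0, 0; l1, b2, 0; l2, l3, b3] * !![c1, u1, u2; 0, c2, u3; 0, 0, c3] := by
  obtain ⟨u1, hu1⟩ : ∃ u1, u1 = M 0 1 / b1 := ⟨_, rfl⟩
  obtain ⟨u2, hu2⟩ : ∃ u2, u2 = M 0 2 / b1 := ⟨_, rfl⟩
  obtain ⟨l1, hl1⟩ : ∃ l1, l1 = M 1 0 / c1 := ⟨_, rfl⟩
  obtain ⟨l2, hl2⟩ : ∃ l2, l2 = M 2 0 / c1 := ⟨_, rfl⟩
  obtain ⟨u3, hu3⟩ : ∃ u3, u3 = (M 1 2 - l1 * u2) / b2 := ⟨_, rfl⟩
  obtain ⟨l3, hl3⟩ : ∃ l3, l3 = (M 2 1 - l2 * u1) / c2 := ⟨_, rfl⟩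
  refine ⟨l1, l2, l3, u1, u2, u3, ?_⟩
  have e01 : b1 * u1 = M 0 1 := by rw [hu1]; field_simp
  have e02 : b1 * u2 = M 0 2 := by rw [hu2]; field_simp
  have e10 : l1 * c1 = M 1 0 := by rw [hl1]; field_simp
  have e20 : l2 * c1 = M 2 0 := by rw [hl2]; field_simp
  have e12 : l1 * u2 + b2 * u3 = M 1 2 := by rw [hu3]; field_simp; ring
  have e21 : l2 * u1 + l3 * c2 = M 2 1 := by rw [hl3]; field_simp; ring
  have hbc : b1 * c1 ≠ 0 := mul_ne_zero hb1 hc1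
  have hbc2 : b1 * c1 * (b2 * c2) ≠ 0 := mul_ne_zero hbc (mul_ne_zero hb2 hc2)
  have e11 : l1 * u1 + b2 * c2 = M 1 1 := by
    have h : b1 * c1 * (l1 * u1 + b2 * c2 - M 1 1) = 0 := by
      linear_combination (-1 : F) * hmin + M 0 1 * e10 + (l1 * c1) * e01 + M 1 1 * h00
    have h' := (mul_eq_zero.mp h).resolve_left hbc
    linear_combination h'
  have e22 : l2 * u2 + l3 * u3 + b3 * c3 = M 2 2 := by
    have hdet3 := Matrix.det_fin_three M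
    rw [hdet] at hdet3
    rw [← e01, ← e02, ← e10, ← e20, ← e12, ← e21, ← e11, h00] at hdet3
    have h : b1 * c1 * (b2 * c2) * (l2 * u2 + l3 * u3 + b3 * c3 - M 2 2) = 0 := by
      linear_combination hdet3
    have h' := (mul_eq_zero.mp h).resolve_left hbc2
    linear_combination h'
  ext i j
  fin_cases i <;> fin_cases j <;> simp [Matrix.mul_apply, Fin.sum_univ_three]
  · exact h00
  · exact e01.symm
  · exact e02.symm
  · exact e10.symm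
  · exact e11.symm
  · exact e12.symm
  · exact e20.symm
  · exact e21.symm
  · exact e22.symm

theorem sou3_lu_stage2 {F : Type*} [Field F] (κ r1 r2 a b c d κ2 : F) (hκ : κ ≠ 0)
    (hdet : (!![κ, r1, r2; 1, a, b; 0, c, d] : Matrix (Fin 3) (Fin 3) F).det ≠ 0) :
    ∃ N M' : Matrix (Fin 3) (Fin 3) F, N.det ≠ 0 ∧
      !![κ, r1, r2; 1, a, b; 0, c, d] * N = N * M' ∧ M' 0 0 = κ ∧
      M' 0 0 * M' 1 1 - M' 0 1 * M' 1 0 = κ * κ2 := by
  by_cases hc : c = 0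
  · subst hc
    have hd : d ≠ 0 := by
      intro hd; apply hdet; rw [Matrix.det_fin_three]; simp [hd]
    obtain ⟨t, ht⟩ : ∃ t : F, κ * b - r2 + t * d ≠ 0 := by
      by_cases h0 : κ * b - r2 = 0
      · exact ⟨1, by rw [h0]; simpa using hd⟩
      · exact ⟨0, by simpa using h0⟩
    obtain ⟨σ, hσ⟩ : ∃ σ, σ = κ * b - r2 + t * d := ⟨_, rfl⟩
    rw [← hσ] at ht
    refine ⟨!![1, t, κ * (d - κ2) * t; 0, 0, σ; 0, 1, κ * (d - κ2)],
      !![κ, r2 + t * κ - t * d, σ * r1 + κ * (d - κ2) * (r2 + t * κ - t * d);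
         -κ * (d - κ2) / σ, d - (b + t) * κ * (d - κ2) / σ,
           -a * κ * (d - κ2) + κ * (d - κ2) * (d - (b + t) * κ * (d - κ2) / σ);
         1 / σ, (b + t) / σ, a + κ * (d - κ2) * (b + t) / σ], ?_, ?_, ?_, ?_⟩
    · rw [Matrix.det_fin_three]; simpa using ht
    · ext i j
      fin_cases i <;> fin_cases j <;> simp [Matrix.mul_apply, Fin.sum_univ_three] <;>
        field_simp <;> ring
    · simp
    · simp
      field_simp
      rw [hσ]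
      ring
  · refine ⟨!![1, 0, r1; 0, 1, a - κ2; 0, 0, c],
      !![κ, 0, κ * r1 + c * r2 - d * r1; 1, κ2, r1 + c * b + (a - κ2) * (κ2 - d);
         0, 1, a - κ2 + d], ?_, ?_, ?_, ?_⟩
    · rw [Matrix.det_fin_three]; simpa using hc
    · ext i j
      fin_cases i <;> fin_cases j <;> simp [Matrix.mul_apply, Fin.sum_univ_three] <;> ring
    · simp
    · simp

theorem sou3_lu {F : Type*} [Field F] (A : Matrix (Fin 3) (Fin 3) F) (hA : A.det ≠ 0)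
    (hns : ∀ c : F, A ≠ c • (1 : Matrix (Fin 3) (Fin 3) F)) (b1 b2 b3 c1 c2 c3 : F)
    (hdet : b1 * b2 * b3 * (c1 * c2 * c3) = A.det) :
    ∃ (P : Matrix (Fin 3) (Fin 3) F) (l1 l2 l3 u1 u2 u3 : F), P.det ≠ 0 ∧
      P * A * P⁻¹ = !![b1, 0, 0; l1, b2, 0; l2, l3, b3] * !![c1, u1, u2; 0, c2, u3; 0, 0, c3] := by
  have hprod : b1 * b2 * b3 * (c1 * c2 * c3) ≠ 0 := by rw [hdet]; exact hA
  have hb1 : b1 ≠ 0 := by rintro rfl; simp at hprod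
  have hb2 : b2 ≠ 0 := by rintro rfl; simp at hprod
  have hc1 : c1 ≠ 0 := by rintro rfl; simp at hprod
  have hc2 : c2 ≠ 0 := by rintro rfl; simp at hprod
  obtain ⟨P1, hP1, h00, h10, h20⟩ := sou_first_col A hns (b1 * c1)
  obtain ⟨M, hM⟩ : ∃ M, M = P1 * A * P1⁻¹ := ⟨_, rfl⟩
  rw [← hM] at h00 h10 h20
  have hMdet : M.det = A.det := by
    rw [hM, Matrix.det_mul, Matrix.det_mul, Matrix.det_nonsing_inv, hP1]; simp
  have hMeta : M = !![b1 * c1, M 0 1, M 0 2; 1, M 1 1, M 1 2; 0, M 2 1, M 2 2] := by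
    have := Matrix.eta_fin_three M
    rw [h00, h10, h20] at this
    exact this
  obtain ⟨N, M', hN, hcomm, hM'00, hM'min⟩ := sou3_lu_stage2 (b1 * c1) (M 0 1) (M 0 2) (M 1 1)
    (M 1 2) (M 2 1) (M 2 2) (b2 * c2) (mul_ne_zero hb1 hc1) (by rw [← hMeta, hMdet]; exact hA)
  rw [← hMeta] at hcomm
  have hNu : IsUnit N.det := isUnit_iff_ne_zero.mpr hN
  have hconj : N⁻¹ * P1 * A * (N⁻¹ * P1)⁻¹ = M' := by
    rw [Matrix.mul_inv_rev, Matrix.nonsing_inv_nonsing_inv N hNu]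
    calc N⁻¹ * P1 * A * (P1⁻¹ * N) = N⁻¹ * (P1 * A * P1⁻¹ * N) := by
          simp only [Matrix.mul_assoc]
      _ = N⁻¹ * (N * M') := by rw [← hM, hcomm]
      _ = M' := by rw [← Matrix.mul_assoc, Matrix.nonsing_inv_mul N hNu, Matrix.one_mul]
  have hM'det : M'.det = b1 * b2 * b3 * (c1 * c2 * c3) := by
    rw [hdet, ← hMdet]
    have := congrArg Matrix.det hcomm
    rw [Matrix.det_mul, Matrix.det_mul] at this
    exact mul_left_cancel₀ hN (this.symm.trans (mul_comm _ _))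
  obtain ⟨l1, l2, l3, u1, u2, u3, hLU⟩ := sou3_lu_minors M' b1 b2 b3 c1 c2 c3 hb1 hb2 hc1 hc2
    hM'00 hM'min hM'det
  refine ⟨N⁻¹ * P1, l1, l2, l3, u1, u2, u3, ?_, ?_⟩
  · rw [Matrix.det_mul, Matrix.det_nonsing_inv, hP1, mul_one, Ring.inverse_eq_inv']
    exact inv_ne_zero hN
  · rw [hconj, hLU]

end Cfsg.Agent.Helper76
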