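import Mathlib
import Cfsg.Agent.Helper40.KGLDefs
import Cfsg.Agent.Helper40.KSLDefs
import Cfsg.Agent.Helper40.KPSLDefs

/-!
# CALL S2480, piece V4 (helper76): `finrank ker p(φ)^k = deg p * ∑ min(k, e_i)`
-/

set_option autoImplicit false

namespace Cfsg.Agent.Helper76

open Polynomial Cfsg.Agent.Helper40.KGL Cfsg.Agent.Helper40.KSL Cfsg.Agent.Helper40.KPSL
open scoped DirectSum
open Classical

universe u v

/-- PIECE V4 -/
theorem finrank_ker_aeval_pow {F : Type u} [Field F] {V : Type v} [AddCommGroup V]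
    [Module F V] [FiniteDimensional F V]
    (hV1 : ∀ (p : F[X]), p.Monic → ∀ e k : ℕ,
      Module.finrank F (LinearMap.ker (mulQ (p ^ e) (p ^ k))) = p.natDegree * min k e)
    (hV2 : ∀ (f h : F[X]), IsCoprime h f → LinearMap.ker (mulQ f h) = ⊥)
    (hV3 : ∀ (φ : Module.End F V) (ι : Type u) [Fintype ι] (p : ι → F[X]) (e : ι → ℕ),
      (∀ i, (p i).Monic) →
      ∀ (_ψ : Module.AEval' φ ≃ₗ[F[X]] ⨁ i, F[X] ⧸ Submodule.span F[X] {p i ^ e i}) (h : F[X]),
      Module.finrank F (LinearMap.ker (Polynomial.aeval φ h)) =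
        ∑ i, Module.finrank F (LinearMap.ker (mulQ (p i ^ e i) h)))
    (φ : Module.End F V) (n : ℕ) (M : Multiset (F[X] × ℕ)) (hM : IsDat n M)
    (hdec : HasDecomp φ M) (p : F[X]) (hp : Irreducible p) (hpm : p.Monic) (k : ℕ) :
    Module.finrank F (LinearMap.ker (Polynomial.aeval φ (p ^ k))) =
      p.natDegree * minSum M p k := by
  obtain ⟨ι, hι, p', e', rfl, ⟨ψ⟩⟩ := hdec
  have hirr : ∀ i, Irreducible (p' i) ∧ (p' i).Monic := by
    intro i
    have := hM.1 (p' i, e' i) (Multiset.mem_map.mpr ⟨i, Finset.mem_univ_val i, rfl⟩)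
    exact ⟨this.1, this.2.1⟩
  rw [hV3 φ ι p' e' (fun i => (hirr i).2) ψ (p ^ k)]
  have key : ∀ i, Module.finrank F (LinearMap.ker (mulQ (p' i ^ e' i) (p ^ k))) =
      if p' i = p then p.natDegree * min k (e' i) else 0 := by
    intro i
    split_ifs with h
    · rw [h]; exact hV1 p hpm (e' i) k
    · have hcop : IsCoprime p (p' i) := by
        rw [hp.coprime_iff_not_dvd]
        intro hdvd
        have hassoc : Associated p (p' i) := hp.associated_of_dvd (hirr i).1 hdvd
        exact h (Polynomial.eq_of_monic_of_associated hpm (hirr i).2 hassoc).symm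
      rw [hV2 _ _ (hcop.pow), finrank_bot]
  simp only [key]
  unfold minSum
  rw [Multiset.filter_map, Multiset.map_map]
  have h2 : (∑ x, if p' x = p then p.natDegree * min k (e' x) else 0) =
      p.natDegree * ∑ i ∈ Finset.univ.filter (fun i => p' i = p), min k (e' i) := by
    rw [Finset.mul_sum, Finset.sum_filter]
  rw [h2, Finset.sum, Finset.filter_val]
  have h3 : ∀ (d1 d2 : DecidablePred fun i => p' i = p),
      @Multiset.filter ι (fun i => p' i = p) d1 Finset.univ.val =
      @Multiset.filter ι (fun i => p' i = p) d2 Finset.univ.val := by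
    intro d1 d2
    congr 1
  exact congrArg (fun A => p.natDegree * (Multiset.map (fun i => min k (e' i)) A).sum) (h3 _ _)

end Cfsg.Agent.Helper76
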