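import Mathlib
import Cfsg.Agent.Helper57.G3Defs

set_option autoImplicit false

namespace Cfsg.Agent.Helper76

open Cfsg.Agent.Helper57 Cfsg.Lie Matrix

theorem g3_getD_mem (Gs : List ℕ) (j : ℕ) (hj : j < Gs.length) : Gs.getD j 0 ∈ Gs := by
  rw [List.getD_eq_getElem?_getD, List.getElem?_eq_getElem hj]
  exact List.getElem_mem hj

theorem g3_word_good (H : Subgroup (Equiv.Perm (Fin 728))) (Gs : List ℕ)
    (hG : ∀ G ∈ Gs, g3Good H G) :
    ∀ w : List ℕ, w.all (fun j => Nat.blt j Gs.length) = true →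
      ∃ σ ∈ H, ∀ x : Fin 728, (σ x).val = g3WordAct Gs w x.val
  | [], _ => ⟨1, H.one_mem, fun _ => rfl⟩
  | j :: w, h => by
    rw [List.all_cons, Bool.and_eq_true] at h
    obtain ⟨hj, hw⟩ := h
    have hj' : j < Gs.length := Nat.le_of_ble_eq_true hj
    obtain ⟨σ, hσ, hσx⟩ := g3_word_good H Gs hG w hw
    obtain ⟨τ, hτ, hτx⟩ := hG _ (g3_getD_mem Gs j hj')
    refine ⟨τ * σ, H.mul_mem hτ hσ, fun x => ?_⟩
    rw [Equiv.Perm.mul_apply, hτx, hσx]
    rfl

theorem g3_wordchk_good (H : Subgroup (Equiv.Perm (Fin 728))) (Gs : List ℕ)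
    (hG : ∀ G ∈ Gs, g3Good H G) (w : List ℕ) (N : ℕ) (h : g3WordChk Gs w N = true) :
    g3Good H N := by
  unfold g3WordChk at h
  rw [Bool.and_eq_true] at h
  obtain ⟨h1, h2⟩ := h
  obtain ⟨σ, hσ, hσx⟩ := g3_word_good H Gs hG w h1
  refine ⟨σ, hσ, fun x => ?_⟩
  have := g3All_spec _ 728 h2 x.val x.isLt
  rw [hσx]
  exact (Nat.eq_of_beq_eq_true this).symm

theorem g3_good_words (H : Subgroup (Equiv.Perm (Fin 728))) (Gs : List ℕ)
    (hG : ∀ G ∈ Gs, g3Good H G) (Ns : List ℕ) (ws : List (List ℕ))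
    (h : g3WordsChk Gs Ns ws = true) : ∀ N ∈ Ns, g3Good H N := by
  induction Ns generalizing ws with
  | nil => intro N hN; simp at hN
  | cons N0 Ns ih =>
    cases ws with
    | nil => simp [g3WordsChk] at h
    | cons w ws =>
      simp only [g3WordsChk, Bool.and_eq_true] at h
      intro N hN
      rcases List.mem_cons.mp hN with rfl | hN'
      · exact g3_wordchk_good H Gs hG w _ h.1
      · exact ih ws h.2 N hN'

end Cfsg.Agent.Helper76
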