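import Mathlib
import Cfsg.Agent.Helper57.G3Defs

set_option autoImplicit false

namespace Cfsg.Agent.Helper76

open Cfsg.Agent.Helper57 Cfsg.Lie Matrix

theorem g3_mem_spec : ∀ (l : List ℕ) (x : ℕ), g3Mem l x = true → x ∈ l
  | [], x, h => by simp [g3Mem] at h
  | a :: l, x, h => by
    simp only [g3Mem, Bool.or_eq_true] at h
    rcases h with h | h
    · have := Nat.eq_of_beq_eq_true h
      subst this
      exact List.mem_cons_self
    · exact List.mem_cons_of_mem _ (g3_mem_spec l x h)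

theorem g3_getD_mem' (Gs : List ℕ) (j : ℕ) (hj : j < Gs.length) : Gs.getD j 0 ∈ Gs := by
  rw [List.getD_eq_getElem?_getD, List.getElem?_eq_getElem hj]
  exact List.getElem_mem hj

theorem g3_forest (H : Subgroup (Equiv.Perm (Fin 728))) (Gs : List ℕ)
    (hG : ∀ G ∈ Gs, g3Good H G) (roots : List ℕ) (parN ltN rkN : ℕ)
    (h : g3ForestChk Gs roots parN ltN rkN = true) :
    ∀ x : Fin 728, ∃ p : Fin 728, p.val ∈ roots ∧ ∃ σ ∈ H, σ p = x := by
  have hall := g3All_spec _ 728 h
  have key : ∀ n : ℕ, ∀ x : Fin 728, g3Ent rkN x.val = n →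
      ∃ p : Fin 728, p.val ∈ roots ∧ ∃ σ ∈ H, σ p = x := by
    intro n
    induction n using Nat.strong_induction_on with
    | _ n ih =>
      intro x hx
      have hx' := hall x.val x.isLt
      simp only [Bool.or_eq_true, Bool.and_eq_true] at hx'
      rcases hx' with hr | ⟨⟨⟨h1, h2⟩, h3⟩, h4⟩
      · exact ⟨x, g3_mem_spec _ _ hr, 1, H.one_mem, rfl⟩
      · have h1' : g3Ent rkN (g3Ent parN x.val) < g3Ent rkN x.val := Nat.le_of_ble_eq_true h1
        have h2' : g3Ent parN x.val < 728 := Nat.le_of_ble_eq_true h2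
        have h3' : g3Ent ltN x.val < Gs.length := Nat.le_of_ble_eq_true h3
        have h4' := Nat.eq_of_beq_eq_true h4
        obtain ⟨p, hp, σ, hσ, hσp⟩ := ih _ (hx ▸ h1') ⟨g3Ent parN x.val, h2'⟩ rfl
        obtain ⟨τ, hτ, hτx⟩ := hG _ (g3_getD_mem' Gs _ h3')
        refine ⟨p, hp, τ * σ, H.mul_mem hτ hσ, ?_⟩
        rw [Equiv.Perm.mul_apply, hσp]
        apply Fin.ext
        rw [hτx]
        exact h4'
  intro x
  exact key _ x rfl

end Cfsg.Agent.Helper76
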