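import Mathlib
import Cfsg.Agent.Helper9.BRDefs
import Cfsg.Agent.Helper9.BrauerP
import Cfsg.Agent.Helper9.OrdTools
import Cfsg.Agent.Helper75.BRNF
import Cfsg.Agent.Helper78.Counting
import Cfsg.Agent.Helper80.CharIrr
import Cfsg.Agent.Helper81.CharBasic
import Cfsg.Agent.Helper8.O5040Tools

/-!
# CALL S0984, piece DEG6 (helper76), core: a character of degree 6 from the block arithmetic
(DEG6A) and the structure-constant identity (SCB), both taken as hypotheses.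
-/

set_option autoImplicit false
set_option linter.style.haveILetI false
open Cfsg
open scoped ComplexConjugate

universe u

namespace Cfsg.Agent.Helper76

/-- a character value at an involution is real -/
theorem a7_real_at_invol {G : Type u} [Group G] [Finite G] (χ : Cfsg.IrrCharacter G) (t : G)
    (ht : orderOf t = 2) : ((χ : G → ℂ) t) = ((((χ : G → ℂ) t).re : ℝ) : ℂ) := by
  have hinv : t⁻¹ = t := by
    have h1 : t ^ 2 = 1 := by rw [← ht]; exact pow_orderOf_eq_one t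
    rw [inv_eq_iff_mul_eq_one, ← sq]; exact h1
  have hc : IsCharacter G (χ : G → ℂ) := by
    obtain ⟨n, ρ, -, hρ⟩ := χ.2
    exact ⟨n, ρ, hρ⟩
  have h := Cfsg.Agent.Helper80.isCharacter_inv hc t
  rw [hinv] at h
  exact (Complex.conj_eq_iff_re.mp h.symm).symm

/-- PIECE DEG6, core: DEG6A and SCB as hypotheses. -/
theorem a7_deg6_core {G : Type u} [Group G] [Fintype G] [IsSimpleGroup G]
    (hG : Nat.card G = 2520) {M : Ideal Cfsg.AlgInt} (P : Sylow 7 G)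
    (T : Cfsg.Agent.Helper9.BRTab 7 M P 3)
    (hA : (∃ χ ∈ T.X2, Cfsg.charDegree (χ : G → ℂ) = 6) ∨
      (T.ε = 1 ∧ T.X2 = ∅ ∧ ∃ χ₁ ∈ T.X1, ∃ χ₂ ∈ T.X1, Cfsg.charDegree (χ₁ : G → ℂ) = 8 ∧
        Cfsg.charDegree (χ₂ : G → ℂ) = 15 ∧ (∀ χ ∈ T.X1, χ = χ₁ ∨ χ = χ₂) ∧
        ∀ θ ∈ T.Y, Cfsg.charDegree (θ : G → ℂ) = 24) ∨
      (T.ε = -1 ∧ ∃ χ₁ ∈ T.X1, ∃ χ₂ ∈ T.X2, Cfsg.charDegree (χ₁ : G → ℂ) = 15 ∧
        Cfsg.charDegree (χ₂ : G → ℂ) = 20 ∧ (∀ χ ∈ T.X1, χ = χ₁) ∧ (∀ χ ∈ T.X2, χ = χ₂) ∧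
        ∀ θ ∈ T.Y, Cfsg.charDegree (θ : G → ℂ) = 4))
    (hS : ∀ (t : G), orderOf t = 2 → ∀ θ ∈ T.Y,
      1 + ∑ χ ∈ T.X1, (χ : G → ℂ) t ^ 2 / (χ : G → ℂ) 1
        - ∑ χ ∈ T.X2, (χ : G → ℂ) t ^ 2 / (χ : G → ℂ) 1
        - (T.ε : ℂ) * (θ : G → ℂ) t ^ 2 / (θ : G → ℂ) 1 = 0) :
    ∃ χ : Cfsg.IrrCharacter G, Cfsg.charDegree (χ : G → ℂ) = 6 := by
  classical
  haveI : Fact (Nat.Prime 2) := ⟨by norm_num⟩
  -- an involution
  obtain ⟨t, ht⟩ : ∃ t : G, orderOf t = 2 :=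
    exists_prime_orderOf_dvd_card' 2 (by rw [hG]; norm_num)
  have ht1 : t ≠ 1 := by
    intro h; rw [h, orderOf_one] at ht; norm_num at ht
  have ht7 : ¬ 7 ∣ orderOf t := by rw [ht]; norm_num
  -- an exceptional character
  have hYc : T.Y.card = 2 := by rw [T.hcardY]
  obtain ⟨θ, hθ⟩ : T.Y.Nonempty := by
    rw [← Finset.card_pos, hYc]; norm_num
  have hrel := T.hrel θ hθ t ht7
  have hsc := hS t ht θ hθ
  rcases hA with ⟨χ, -, hχ⟩ | ⟨hε, hX2, χ₁, h1, χ₂, h2, hd1, hd2, hall, hY⟩ |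
    ⟨hε, χ₁, h1, χ₂, h2, hd1, hd2, hall1, hall2, hY⟩
  · exact ⟨χ, hχ⟩
  · exfalso
    have hne : χ₁ ≠ χ₂ := by
      intro h; rw [h, hd2] at hd1; norm_num at hd1
    have hX1 : T.X1 = {χ₁, χ₂} := by
      ext χ
      simp only [Finset.mem_insert, Finset.mem_singleton]
      exact ⟨hall χ, fun h => by rcases h with rfl | rfl <;> assumption⟩
    have e1 : (χ₁ : G → ℂ) 1 = 8 := by
      rw [Helper81.irr_one_eq_charDegree, hd1]; norm_num
    have e2 : (χ₂ : G → ℂ) 1 = 15 := by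
      rw [Helper81.irr_one_eq_charDegree, hd2]; norm_num
    have e3 : (θ : G → ℂ) 1 = 24 := by
      rw [Helper81.irr_one_eq_charDegree, hY θ hθ]; norm_num
    have r1 := a7_real_at_invol χ₁ t ht
    have r2 := a7_real_at_invol χ₂ t ht
    rw [hε, hX1, hX2, Finset.sum_pair hne, Finset.sum_empty] at hrel
    rw [hε, hX1, hX2, Finset.sum_pair hne, Finset.sum_empty, e1, e2, e3] at hsc
    obtain ⟨a, ha⟩ : ∃ a : ℝ, a = ((χ₁ : G → ℂ) t).re := ⟨_, rfl⟩
    obtain ⟨b, hb⟩ : ∃ b : ℝ, b = ((χ₂ : G → ℂ) t).re := ⟨_, rfl⟩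
    rw [← ha] at r1
    rw [← hb] at r2
    have hτ : (θ : G → ℂ) t = ((1 + a + b : ℝ) : ℂ) := by
      push_cast
      rw [← r1, ← r2]
      linear_combination hrel
    rw [hτ, r1, r2] at hsc
    have hreal : (1 : ℝ) + a ^ 2 / 8 + b ^ 2 / 15 - (1 + a + b) ^ 2 / 24 = 0 := by
      have h := congrArg Complex.re hsc
      simp only [Int.cast_one, one_mul, sub_zero] at h
      norm_cast at h
      linarith
    have hb15 : b = 15 := by
      have h1' : 10 * (a - (b + 1) / 2) ^ 2 + (b - 15) ^ 2 / 2 = 0 := by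
        linear_combination 120 * hreal
      nlinarith [sq_nonneg (a - (b + 1) / 2), sq_nonneg (b - 15)]
    have hχ2 : χ₂ ≠ Helper81.trivIrr G := by
      intro h
      rw [h, Helper81.trivIrr_apply] at e2
      norm_num at e2
    apply ht1
    apply Cfsg.Agent.Helper8.o5040_ker χ₂ hχ2 t
    rw [r2, e2, hb15]; norm_num
  · exfalso
    have hne : χ₁ ≠ χ₂ := by
      intro h; rw [h, hd2] at hd1; norm_num at hd1
    have hX1 : T.X1 = {χ₁} := by
      ext χ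
      simp only [Finset.mem_singleton]
      exact ⟨hall1 χ, fun h => by rw [h]; exact h1⟩
    have hX2 : T.X2 = {χ₂} := by
      ext χ
      simp only [Finset.mem_singleton]
      exact ⟨hall2 χ, fun h => by rw [h]; exact h2⟩
    have e1 : (χ₁ : G → ℂ) 1 = 15 := by
      rw [Helper81.irr_one_eq_charDegree, hd1]; norm_num
    have e2 : (χ₂ : G → ℂ) 1 = 20 := by
      rw [Helper81.irr_one_eq_charDegree, hd2]; norm_num
    have e3 : (θ : G → ℂ) 1 = 4 := by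
      rw [Helper81.irr_one_eq_charDegree, hY θ hθ]; norm_num
    have r1 := a7_real_at_invol χ₁ t ht
    have r2 := a7_real_at_invol χ₂ t ht
    rw [hε, hX1, hX2, Finset.sum_singleton, Finset.sum_singleton] at hrel
    rw [hε, hX1, hX2, Finset.sum_singleton, Finset.sum_singleton, e1, e2, e3] at hsc
    obtain ⟨a, ha⟩ : ∃ a : ℝ, a = ((χ₁ : G → ℂ) t).re := ⟨_, rfl⟩
    obtain ⟨b, hb⟩ : ∃ b : ℝ, b = ((χ₂ : G → ℂ) t).re := ⟨_, rfl⟩
    rw [← ha] at r1
    rw [← hb] at r2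
    have hτ : (θ : G → ℂ) t = ((b - a - 1 : ℝ) : ℂ) := by
      push_cast
      rw [← r1, ← r2]
      push_cast at hrel
      linear_combination (-1 : ℂ) * hrel
    rw [hτ, r1, r2] at hsc
    have hreal : (1 : ℝ) + a ^ 2 / 15 - b ^ 2 / 20 + (b - a - 1) ^ 2 / 4 = 0 := by
      have h := congrArg Complex.re hsc
      simp only [Int.cast_neg, Int.cast_one, neg_mul, one_mul] at h
      norm_cast at h
      linarith
    have ha15 : a = 15 := by
      have h1' : 12 * (b - 5 * (a + 1) / 4) ^ 2 + (a - 15) ^ 2 / 4 = 0 := by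
        linear_combination 60 * hreal
      nlinarith [sq_nonneg (b - 5 * (a + 1) / 4), sq_nonneg (a - 15)]
    have hχ1 : χ₁ ≠ Helper81.trivIrr G := by
      intro h
      rw [h, Helper81.trivIrr_apply] at e1
      norm_num at e1
    apply ht1
    apply Cfsg.Agent.Helper8.o5040_ker χ₁ hχ1 t
    rw [r1, e1, ha15]; norm_num

end Cfsg.Agent.Helper76
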