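import Mathlib
import Cfsg.Agent.Helper76.A7DEG6Core
import Cfsg.Agent.Helper73.A7DEG6A
import Cfsg.Agent.Helper73.A7SCB

/-!
# CALL S0984, piece DEG6 (helper76): a simple group of order 2520 with `C(P₇) = P₇`,
`|N(P₇)| = 21` has an irreducible character of degree 6.
-/

set_option autoImplicit false
set_option linter.style.haveILetI false
open Cfsg
open scoped ComplexConjugate

universe u

namespace Cfsg.Agent.Helper76

open Cfsg.Agent.Helper9.OrdTools

/-- PIECE DEG6 (uses DEG6A, SCB) -/
theorem a7_deg6 {G : Type u} [Group G] [Finite G] [IsSimpleGroup G]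
    (hG : Nat.card G = 2520)
    (hC7 : ∀ P : Sylow 7 G, Nat.card (Subgroup.centralizer ((P : Subgroup G) : Set G)) = 7)
    (hN7 : ∀ P : Sylow 7 G, Nat.card (Subgroup.normalizer ((P : Subgroup G) : Set G)) = 21) :
    ∃ χ : Cfsg.IrrCharacter G, Cfsg.charDegree (χ : G → ℂ) = 6 := by
  classical
  haveI : Fintype G := Fintype.ofFinite G
  haveI : Fact (Nat.Prime 7) := ⟨by norm_num⟩
  obtain ⟨P⟩ : Nonempty (Sylow 7 G) := inferInstance
  have hP : Nat.card (P : Subgroup G) = 7 := by
    have := sylow_card (p := 7) 1 360 (hG.trans (by norm_num)) (by norm_num) P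
    simpa using this
  obtain ⟨M, hM⟩ := Helper78.exists_isPModular 7 (by norm_num)
  have hq : (Subgroup.centralizer ((P : Subgroup G) : Set G)).relIndex
      (Subgroup.normalizer ((P : Subgroup G) : Set G)) = 3 :=
    Helper9.BrauerP.relIndex_of_card (P : Subgroup G) (by rw [hN7 P, hC7 P])
  obtain ⟨T⟩ := Helper75.br_tab_exists 7 M hM (by norm_num) P hP 3 hq (by norm_num)
  exact a7_deg6_core hG P T (Cfsg.Agent.Helper73.a7_block_arith hG P T)
    (fun t ht θ hθ => Cfsg.Agent.Helper73.a7_struct_const hM P hP (hC7 P) (hN7 P) T t ht θ hθ)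

end Cfsg.Agent.Helper76
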