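import Cfsg.Agent.Helper76.SylowNormalizes

/-!
# Coprime action tools for Sylow subgroups (helper76)

* `exists_qpow_lift`: a `q`-element of `G ⧸ N` lifts to a `q`-element of `G`.
* `not_dvd_index_centralizer_quotient`: "no `q`-element has class size divisible by `p`" passes
  to quotients.
* `exists_sylow_le_normalizer_map_subtype`: if `N` is a normal `q'`-subgroup and `T` a Sylow
  `p`-subgroup of `N`, some Sylow `q`-subgroup of `G` normalizes `T`.
* `commute_of_mem_normalizer_of_sylow_le_centralizer`: a Glauberman-type lemma for a single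
  `q`-element `x` acting on a normal `q'`-subgroup `N`: if `x` centralizes some Sylow `p`-subgroup
  of `G` and normalizes the Sylow `p`-subgroup `T` of `N`, then `x` centralizes `T`.
* `index_normalizer_sup_eq_card_sylow_quotient`, `not_dvd_index_normalizer_of_sup`.
-/

set_option autoImplicit false

namespace Cfsg.Agent.Helper76

variable {G : Type*} [Group G]

/-- A `q`-element of `G ⧸ N` lifts to a `q`-element of `G`. -/
theorem exists_qpow_lift [Finite G] {q : ℕ} [hq : Fact q.Prime] (N : Subgroup G) [N.Normal]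
    (y : G ⧸ N) (hy : ∃ k : ℕ, orderOf y = q ^ k) :
    ∃ x : G, (x : G ⧸ N) = y ∧ ∃ k : ℕ, orderOf x = q ^ k := by
  obtain ⟨g, rfl⟩ := QuotientGroup.mk_surjective y
  obtain ⟨k, hk⟩ := hy
  rcases Nat.eq_zero_or_pos k with hk0 | hkpos
  · refine ⟨1, ?_, 0, by simp⟩
    rw [hk0, pow_zero, orderOf_eq_one_iff] at hk
    rw [hk]; rfl
  · have hn0 : orderOf g ≠ 0 := (orderOf_pos g).ne'
    obtain ⟨a, m, hm, hn⟩ := Nat.exists_eq_pow_mul_and_not_dvd hn0 q hq.out.ne_one
    have hcop : Nat.Coprime m (q ^ k) :=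
      Nat.Coprime.pow_right k ((Nat.Prime.coprime_iff_not_dvd hq.out).mpr hm).symm
    have h1 : 1 < q ^ k := Nat.one_lt_pow hkpos.ne' hq.out.one_lt
    obtain ⟨c, _, hc⟩ := Nat.exists_mul_mod_eq_one_of_coprime hcop h1
    refine ⟨g ^ (m * c), ?_, ?_⟩
    · have h2 : ((g ^ (m * c) : G) : G ⧸ N) = (g : G ⧸ N) ^ (m * c) := rfl
      rw [h2, ← pow_mod_orderOf, hk, hc, pow_one]
    · have h3 : (g ^ (m * c)) ^ (q ^ a) = 1 := by
        rw [← pow_mul, show m * c * q ^ a = (q ^ a * m) * c by ring, ← hn, pow_mul,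
          pow_orderOf_eq_one, one_pow]
      obtain ⟨j, _, hj⟩ := (Nat.dvd_prime_pow hq.out).mp (orderOf_dvd_of_pow_eq_one h3)
      exact ⟨j, hj⟩

/-- "No `q`-element has class size divisible by `p`" passes to quotients. -/
theorem not_dvd_index_centralizer_quotient [Finite G] {p q : ℕ} [Fact q.Prime] (N : Subgroup G)
    [N.Normal]
    (h : ∀ y : G, (∃ k : ℕ, orderOf y = q ^ k) →
      ¬ p ∣ (Subgroup.centralizer ({y} : Set G)).index) :
    ∀ y : G ⧸ N, (∃ k : ℕ, orderOf y = q ^ k) →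
      ¬ p ∣ (Subgroup.centralizer ({y} : Set (G ⧸ N))).index := by
  intro y hy
  obtain ⟨x, rfl, hx⟩ := exists_qpow_lift N y hy
  intro hdvd
  apply h x hx
  have h1 : (Subgroup.centralizer ({x} : Set G)).map (QuotientGroup.mk' N) ≤
      Subgroup.centralizer ({(x : G ⧸ N)} : Set (G ⧸ N)) := by
    rintro _ ⟨g, hg, rfl⟩
    rw [Subgroup.mem_centralizer_iff]
    intro z hz
    rw [Set.mem_singleton_iff] at hz
    subst hz
    have h2 := (Subgroup.mem_centralizer_iff.mp hg) x (Set.mem_singleton x)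
    show (x : G ⧸ N) * (g : G ⧸ N) = (g : G ⧸ N) * (x : G ⧸ N)
    rw [← QuotientGroup.mk_mul, ← QuotientGroup.mk_mul, h2]
  exact dvd_trans hdvd (dvd_trans (Subgroup.index_dvd_of_le h1)
    (Subgroup.index_map_dvd _ (QuotientGroup.mk'_surjective N)))

/-- If `N` is a normal `q'`-subgroup and `T` a Sylow `p`-subgroup of `N`, some Sylow
`q`-subgroup of `G` normalizes (the image of) `T`. -/
theorem exists_sylow_le_normalizer_map_subtype [Finite G] {p q : ℕ} [Fact p.Prime]
    [hq : Fact q.Prime] (N : Subgroup G) [N.Normal] (hNq : (Nat.card N).Coprime q)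
    (T : Sylow p N) :
    ∃ Q : Sylow q G, (Q : Subgroup G) ≤
      Subgroup.normalizer (((T : Subgroup N).map N.subtype : Subgroup G) : Set G) := by
  have h1 : Subgroup.normalizer (((T : Subgroup N).map N.subtype : Subgroup G) : Set G) ⊔ N = ⊤ :=
    Sylow.normalizer_sup_eq_top T
  have h2 := index_dvd_card_of_sup_eq_top _ N h1
  apply exists_sylow_le_of_not_dvd_index
  intro hdvd
  have h3 : q ∣ Nat.gcd (Nat.card N) q := Nat.dvd_gcd (dvd_trans hdvd h2) dvd_rfl
  rw [hNq] at h3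
  exact hq.out.one_lt.ne' (Nat.dvd_one.mp h3)

/-- Glauberman-type lemma for a single `q`-element `x` and a normal `q'`-subgroup `N`: if `x`
centralizes some Sylow `p`-subgroup of `G` and normalizes the Sylow `p`-subgroup `T` of `N`,
then `x` centralizes `T`. -/
theorem commute_of_mem_normalizer_of_sylow_le_centralizer [Finite G] {p q : ℕ}
    [hp : Fact p.Prime] [Fact q.Prime] (N : Subgroup G) [hN : N.Normal]
    (hNq : (Nat.card N).Coprime q) (T : Sylow p N) (x : G) (hxq : ∃ k : ℕ, orderOf x = q ^ k)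
    (hxT : x ∈ Subgroup.normalizer (((T : Subgroup N).map N.subtype : Subgroup G) : Set G))
    (P₁ : Sylow p G) (hP₁ : (P₁ : Subgroup G) ≤ Subgroup.centralizer ({x} : Set G)) :
    ∀ s ∈ (T : Subgroup N).map N.subtype, s * x = x * s := by
  classical
  set S₀ : Subgroup G := (T : Subgroup N).map N.subtype with hS₀
  -- the Sylow `p`-subgroup `P₁ ∩ N` of `N`
  have hT₁p : IsPGroup p ((P₁ : Subgroup G).subgroupOf N) := P₁.isPGroup'.comap_subtype
  have hT₁i : ¬ p ∣ ((P₁ : Subgroup G).subgroupOf N).index := by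
    intro hdvd
    exact P₁.not_dvd_index
      (dvd_trans hdvd (relIndex_dvd_index_of_normal_right (P₁ : Subgroup G) N))
  obtain ⟨n, hn⟩ := MulAction.exists_smul_eq N (hT₁p.toSylow hT₁i) T
  -- every element of `T` is `n t n⁻¹` with `t ∈ P₁`
  have h1 : ∀ s : N, s ∈ T → ((n : G)⁻¹ * (s : G) * (n : G)) ∈ (P₁ : Subgroup G) := by
    intro s hs
    rw [← hn] at hs
    have hs' : s ∈ ((n • hT₁p.toSylow hT₁i : Sylow p N) : Subgroup N) := hs
    rw [Sylow.coe_subgroup_smul, Subgroup.mem_pointwise_smul_iff_inv_smul_mem,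
      IsPGroup.toSylow_coe, Subgroup.mem_subgroupOf] at hs'
    simpa [MulAut.smul_def] using hs'
  have hνN : (n : G) ∈ N := n.2
  -- `x' = n x n⁻¹` centralizes `S₀`
  have h2 : ∀ s ∈ S₀, s * ((n : G) * x * (n : G)⁻¹) = ((n : G) * x * (n : G)⁻¹) * s := by
    intro s hs
    rw [hS₀, Subgroup.mem_map] at hs
    obtain ⟨s', hs', rfl⟩ := hs
    have h3 := (Subgroup.mem_centralizer_iff.mp (hP₁ (h1 s' hs'))) x (Set.mem_singleton x)
    simp only [Subgroup.coe_subtype]
    calc (s' : G) * ((n : G) * x * (n : G)⁻¹)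
        = (n : G) * (((n : G)⁻¹ * (s' : G) * (n : G)) * x) * (n : G)⁻¹ := by group
      _ = (n : G) * (x * ((n : G)⁻¹ * (s' : G) * (n : G))) * (n : G)⁻¹ := by rw [h3]
      _ = ((n : G) * x * (n : G)⁻¹) * (s' : G) := by group
  have hx'C : (n : G) * x * (n : G)⁻¹ ∈ Subgroup.centralizer (S₀ : Set G) := by
    rw [Subgroup.mem_centralizer_iff]
    intro s hs
    exact h2 s hs
  have hx'N : (n : G) * x * (n : G)⁻¹ ∈ Subgroup.normalizer (S₀ : Set G) :=
    Subgroup.centralizer_le_normalizer _ hx'C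
  -- the homomorphism `N(S₀) → Aut(S₀)`
  have hφX' : S₀.normalizerMonoidHom ⟨(n : G) * x * (n : G)⁻¹, hx'N⟩ = 1 := by
    rw [← MonoidHom.mem_ker, Subgroup.normalizerMonoidHom_ker, Subgroup.mem_subgroupOf]
    exact hx'C
  have hM : (((⟨(n : G) * x * (n : G)⁻¹, hx'N⟩ : Subgroup.normalizer (S₀ : Set G))⁻¹ *
      (⟨x, hxT⟩ : Subgroup.normalizer (S₀ : Set G)) : Subgroup.normalizer (S₀ : Set G)) : G)
      ∈ N := by
    show ((n : G) * x * (n : G)⁻¹)⁻¹ * x ∈ N
    have e : ((n : G) * x * (n : G)⁻¹)⁻¹ * x = (n : G) * (x⁻¹ * (n : G)⁻¹ * x⁻¹⁻¹) := by group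
    rw [e]
    exact N.mul_mem hνN (hN.conj_mem _ (N.inv_mem hνN) _)
  have hφX : S₀.normalizerMonoidHom ⟨x, hxT⟩ =
      S₀.normalizerMonoidHom ((⟨(n : G) * x * (n : G)⁻¹, hx'N⟩ :
        Subgroup.normalizer (S₀ : Set G))⁻¹ * ⟨x, hxT⟩) := by
    rw [map_mul, map_inv, hφX', inv_one, one_mul]
  obtain ⟨k, hk⟩ := hxq
  have ho1 : orderOf (S₀.normalizerMonoidHom ⟨x, hxT⟩) ∣ q ^ k := by
    have h4 : orderOf (⟨x, hxT⟩ : Subgroup.normalizer (S₀ : Set G)) = orderOf x :=
      Subgroup.orderOf_mk x hxT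
    rw [← hk, ← h4]
    exact orderOf_map_dvd _ _
  have ho2 : orderOf (S₀.normalizerMonoidHom ⟨x, hxT⟩) ∣ Nat.card N := by
    rw [hφX]
    refine dvd_trans (orderOf_map_dvd _ _) ?_
    rw [← Subgroup.orderOf_coe]
    have h5 : orderOf (⟨_, hM⟩ : N) ∣ Nat.card N := orderOf_dvd_natCard _
    rwa [Subgroup.orderOf_mk] at h5
  have ho3 : orderOf (S₀.normalizerMonoidHom ⟨x, hxT⟩) = 1 := by
    have h6 := Nat.dvd_gcd ho2 ho1
    have hc : Nat.gcd (Nat.card N) (q ^ k) = 1 := Nat.Coprime.pow_right k hNq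
    rw [hc] at h6
    exact Nat.dvd_one.mp h6
  have hxC : x ∈ Subgroup.centralizer (S₀ : Set G) := by
    have h7 : (⟨x, hxT⟩ : Subgroup.normalizer (S₀ : Set G)) ∈ S₀.normalizerMonoidHom.ker :=
      orderOf_eq_one_iff.mp ho3
    rw [Subgroup.normalizerMonoidHom_ker, Subgroup.mem_subgroupOf] at h7
    exact h7
  intro s hs
  exact (Subgroup.mem_centralizer_iff.mp hxC) s hs

/-- `[G : N_G(QN)]` is the number of Sylow `q`-subgroups of `G ⧸ N`. -/
theorem index_normalizer_sup_eq_card_sylow_quotient [Finite G] {q : ℕ} [Fact q.Prime]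
    (N : Subgroup G) [N.Normal] (Q : Sylow q G) :
    (Subgroup.normalizer (((Q : Subgroup G) ⊔ N : Subgroup G) : Set G)).index =
      Nat.card (Sylow q (G ⧸ N)) := by
  have hsurj := QuotientGroup.mk'_surjective N
  have h0 : Nat.card (Sylow q (G ⧸ N)) = (Subgroup.normalizer
      (((Q : Subgroup G).map (QuotientGroup.mk' N) : Subgroup (G ⧸ N)) : Set (G ⧸ N))).index :=
    Sylow.card_eq_index_normalizer (Q.mapSurjective hsurj)
  rw [h0, ← Subgroup.index_comap_of_surjective _ hsurj,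
    Subgroup.comap_normalizer_eq_of_surjective _ hsurj, Subgroup.comap_map_eq,
    QuotientGroup.ker_mk']

/-- `N_G(Q) ≤ N_G(QN)` for `N` normal. -/
theorem normalizer_le_normalizer_sup (N : Subgroup G) [N.Normal] (Q : Subgroup G) :
    Subgroup.normalizer (Q : Set G) ≤ Subgroup.normalizer ((Q ⊔ N : Subgroup G) : Set G) := by
  have hsurj := QuotientGroup.mk'_surjective N
  have h1 : Subgroup.normalizer ((Q ⊔ N : Subgroup G) : Set G) =
      (Subgroup.normalizer ((Q.map (QuotientGroup.mk' N) : Subgroup (G ⧸ N)) : Set (G ⧸ N))).comap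
        (QuotientGroup.mk' N) := by
    rw [Subgroup.comap_normalizer_eq_of_surjective _ hsurj, Subgroup.comap_map_eq,
      QuotientGroup.ker_mk']
  rw [h1, ← Subgroup.map_le_iff_le_comap]
  exact Subgroup.le_normalizer_map _

/-- Frattini: `N_G(QN) = N_G(Q) N` for a Sylow subgroup `Q` and a normal subgroup `N`. -/
theorem normalizer_sup_eq [Finite G] {q : ℕ} [Fact q.Prime] (N : Subgroup G) [N.Normal]
    (Q : Sylow q G) :
    Subgroup.normalizer (((Q : Subgroup G) ⊔ N : Subgroup G) : Set G) =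
      Subgroup.normalizer ((Q : Subgroup G) : Set G) ⊔ N := by
  set M : Subgroup G := (Q : Subgroup G) ⊔ N with hM
  set X : Subgroup G := Subgroup.normalizer (M : Set G) with hX
  have hHX : Subgroup.normalizer ((Q : Subgroup G) : Set G) ≤ X :=
    normalizer_le_normalizer_sup N (Q : Subgroup G)
  have hMX : M ≤ X := Subgroup.le_normalizer
  have hQX : (Q : Subgroup G) ≤ X := le_trans le_sup_left hMX
  have hNX : N ≤ X := le_trans le_sup_right hMX
  apply le_antisymm
  · have hnorm : (M.subgroupOf X).Normal := Subgroup.normal_in_normalizer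
    have hle : ((Q.subtype hQX : Sylow q X) : Subgroup X) ≤ M.subgroupOf X := by
      rw [Sylow.coe_subtype]
      intro z hz
      rw [Subgroup.mem_subgroupOf] at hz ⊢
      exact (le_sup_left : (Q : Subgroup G) ≤ M) hz
    have h1 : Subgroup.normalizer (((Q : Subgroup G).subgroupOf X : Subgroup X) : Set X) ⊔
        M.subgroupOf X = ⊤ := Sylow.normalizer_sup_eq_top' (Q.subtype hQX) hle
    rw [← Subgroup.subgroupOf_normalizer_eq hQX,
      ← Subgroup.subgroupOf_sup hHX hMX, Subgroup.subgroupOf_eq_top] at h1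
    refine le_trans h1 ?_
    rw [hM, ← sup_assoc]
    exact sup_le_sup_right (sup_le le_rfl Subgroup.le_normalizer) N
  · exact sup_le hHX hNX

/-- The inductive step for a normal subgroup `N`: if `S ≤ N ∩ N_G(Q)` has index prime to `p` in
`N` and `p ∤ [G : N_G(QN)]`, then `p ∤ [G : N_G(Q)]`. -/
theorem not_dvd_index_normalizer_of_sup [Finite G] {p q : ℕ} [hp : Fact p.Prime] [Fact q.Prime]
    (N : Subgroup G) [N.Normal] (Q : Sylow q G) (S : Subgroup G)
    (hSQ : S ≤ Subgroup.normalizer ((Q : Subgroup G) : Set G)) (hS : ¬ p ∣ S.relIndex N)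
    (hX : ¬ p ∣ (Subgroup.normalizer (((Q : Subgroup G) ⊔ N : Subgroup G) : Set G)).index) :
    ¬ p ∣ (Subgroup.normalizer ((Q : Subgroup G) : Set G)).index := by
  have hHX : Subgroup.normalizer ((Q : Subgroup G) : Set G) ≤
      Subgroup.normalizer (((Q : Subgroup G) ⊔ N : Subgroup G) : Set G) :=
    normalizer_le_normalizer_sup N (Q : Subgroup G)
  rw [← Subgroup.relIndex_mul_index hHX]
  refine Nat.Prime.not_dvd_mul hp.out ?_ hX
  rw [normalizer_sup_eq, relIndex_sup_of_normal]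
  exact fun hdvd => hS (dvd_trans hdvd (Subgroup.relIndex_dvd_of_le_left N hSQ))

end Cfsg.Agent.Helper76
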