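import Cfsg.Agent.Helper76.ItoDefect
import Cfsg.Agent.Helper32.PPrime
import Cfsg.Agent.Helper32.PConstrained
import Cfsg.Agent.Helper32.HallHigman
import Cfsg.Agent.Helper32.PSolvable

/-!
# Characters of defect zero when there are no elements of order `pq` (helper76)

* `exists_hom_pPrimePCore`: for `G` `p`-solvable of order divisible by `p`, the subgroup
  `O_{p',p}(G)` has a nontrivial linear character of `p`-power order.
* `not_dvd_card_inertia_of_hom`: if no element of order `p` commutes with an element of order `q`,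
  `U` is a normal `q'`-subgroup and `f` a nontrivial linear character of `U` of `p`-power order, then
  the inertia group of `f` has order prime to `q`.
* `exists_qdefect_zero_of_pSolvable`, `exists_defect_zero_of_no_pq`: `G` `p`-solvable without
  elements of order `pq` (`p`, `q` dividing `|G|`) has a character of `p`-defect zero or of
  `q`-defect zero.
* `not_dvd_card_centralizer_symm`: the hypothesis is symmetric in `p` and `q`.
-/

set_option autoImplicit false
set_option linter.style.haveILetI false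

namespace Cfsg.Agent.Helper76

open Cfsg

/-- For `G` `p`-solvable of order divisible by `p`, `O_{p',p}(G)` has a nontrivial linear
character of `p`-power order. -/
theorem exists_hom_pPrimePCore {G : Type*} [Group G] [Finite G] (p : ℕ) [hp : Fact p.Prime]
    (hs : IsPSolvable p G) (hpG : p ∣ Nat.card G) :
    ∃ (k : ℕ) (f : ↥(pPrimePCore p G) →* ℂˣ), (∃ u, f u ≠ 1) ∧ (∀ u, f u ^ p ^ k = 1) ∧
      Nat.card ↥(pPrimePCore p G) = Nat.card ↥(pPrimeCore p G) * p ^ k := by
  set N := pPrimeCore p G with hN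
  set Ubar := pCore p (G ⧸ N) with hUbar
  have hUp : IsPGroup p Ubar := Helper32.pCore_isPGroup' p (G ⧸ N)
  have hsq : IsPSolvable p (G ⧸ N) := Helper32.isPSolvable_quotient hp.out hs N
  have hred : pPrimeCore p (G ⧸ N) = ⊥ := Helper32.pPrimeCore_quotient_eq_bot' p G
  have hcent := Helper32.centralizer_pCore_le_of_isPSolvable hsq hred
  have hne : Ubar ≠ ⊥ := by
    intro h0
    rw [← hUbar, h0] at hcent
    have htop : ∀ x : G ⧸ N, x = 1 := by
      intro x
      have hx : x ∈ Subgroup.centralizer (((⊥ : Subgroup (G ⧸ N)) : Subgroup (G ⧸ N)) : Set (G ⧸ N)) := by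
        rw [Subgroup.mem_centralizer_iff]
        intro h hh
        have hh' : h = 1 := Subgroup.mem_bot.mp hh
        rw [hh', one_mul, mul_one]
      exact Subgroup.mem_bot.mp (hcent hx)
    have hNtop : N = ⊤ := by
      rw [eq_top_iff]
      intro g _
      exact (QuotientGroup.eq_one_iff g).mp (htop _)
    have hcop : (Nat.card N).Coprime p := Helper32.card_pPrimeCore_coprime' p G
    rw [hNtop, Subgroup.card_top] at hcop
    exact (Nat.Prime.coprime_iff_not_dvd hp.out).mp hcop.symm hpG
  obtain ⟨k, hk⟩ := (IsPGroup.iff_card).1 hUp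
  haveI : Nontrivial Ubar := (Subgroup.nontrivial_iff_ne_bot Ubar).mpr hne
  haveI : Group.IsNilpotent Ubar := hUp.isNilpotent
  have hlt : commutator Ubar < ⊤ := Group.IsSolvable.commutator_lt_top_of_nontrivial Ubar
  obtain ⟨a, -, ha⟩ := SetLike.exists_of_lt hlt
  obtain ⟨fbar, hf⟩ := Helper79.exists_hom_apply_ne_one ha
  let π : ↥(pPrimePCore p G) →* ↥Ubar := (QuotientGroup.mk' N).subgroupComap Ubar
  have hπ : Function.Surjective π :=
    MonoidHom.subgroupComap_surjective_of_surjective _ _ (QuotientGroup.mk'_surjective N)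
  obtain ⟨u₀, hu₀⟩ := hπ a
  refine ⟨k, fbar.comp π, ⟨u₀, ?_⟩, ?_, ?_⟩
  · rw [MonoidHom.comp_apply, hu₀]
    exact hf
  · intro u
    rw [MonoidHom.comp_apply, ← map_pow, ← hk, pow_card_eq_one', map_one]
  · rw [← hk]
    exact Helper32.card_comap_mk' N Ubar

/-- If no element of order `p` commutes with an element of order `q`, `U` is a normal
`q'`-subgroup and `f` a nontrivial linear character of `U` of `p`-power order, then the inertia
group of `f` has order prime to `q`. -/
theorem not_dvd_card_inertia_of_hom {G : Type*} [Group G] [Fintype G] (p q : ℕ)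
    [hp : Fact p.Prime] [hq : Fact q.Prime] (U : Subgroup G) [hU : U.Normal]
    (hqU : ¬ q ∣ Nat.card U) (k : ℕ) (f : U →* ℂˣ) (hf1 : ∃ u, f u ≠ 1)
    (hfk : ∀ u, f u ^ p ^ k = 1)
    (hC : ∀ g : G, g ≠ 1 → (∃ k : ℕ, orderOf g = p ^ k) →
      ¬ q ∣ Nat.card ↥(Subgroup.centralizer ({g} : Set G))) :
    ¬ q ∣ Nat.card (Helper75.inertia U (fun u : U => (f u : ℂ))) := by
  classical
  intro hdvd
  obtain ⟨g, hg⟩ := exists_prime_orderOf_dvd_card' q hdvd
  set g₀ : G := (g : G) with hg₀def
  have hg₀ : orderOf g₀ = q := by rw [hg₀def, Subgroup.orderOf_coe]; exact hg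
  have hinv : ∀ u : U, f ⟨g₀ * u * g₀⁻¹, hU.conj_mem u u.2 g₀⟩ = f u := by
    intro u
    have h := congrFun ((Helper75.mem_inertia U _ g₀).mp g.2) u
    rw [Helper75.conjFun_apply] at h
    exact Units.ext h
  obtain ⟨u₀, hu₀⟩ := hf1
  let A := {u : U // f u = f u₀}
  let e : Function.End A := fun a =>
    ⟨⟨g₀ * (a.1 : G) * g₀⁻¹, hU.conj_mem _ a.1.2 g₀⟩, (hinv a.1).trans a.2⟩
  have hepow : ∀ n : ℕ, ∀ a : A, (((e ^ n) a).1 : G) = g₀ ^ n * (a.1 : G) * (g₀ ^ n)⁻¹ := by
    intro n
    induction n with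
    | zero =>
      intro a
      rw [pow_zero, pow_zero, one_mul, inv_one, mul_one]
      rfl
    | succ n ih =>
      intro a
      have h1 : (e ^ (n + 1)) a = e ((e ^ n) a) := by rw [pow_succ']; rfl
      have h2 : ((e ((e ^ n) a)).1 : G) = g₀ * (((e ^ n) a).1 : G) * g₀⁻¹ := rfl
      rw [h1, h2, ih a]
      group
  have he : e ^ q ^ 1 = 1 := by
    funext a
    apply Subtype.ext
    apply Subtype.ext
    rw [hepow, pow_one, ← hg₀, pow_orderOf_eq_one, one_mul, inv_one, mul_one]
    rfl
  have hmod := Equiv.Perm.card_fixedPoints_modEq (p := q) (n := 1) he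
  have hA : Fintype.card A ∣ Nat.card U := by
    have hAk : Nat.card A = Nat.card f.ker := by
      refine Nat.card_congr
        { toFun := fun a => ⟨u₀⁻¹ * a.1, ?_⟩
          invFun := fun x => ⟨u₀ * x.1, ?_⟩
          left_inv := ?_
          right_inv := ?_ }
      · rw [MonoidHom.mem_ker, map_mul, map_inv, a.2, inv_mul_cancel]
      · rw [map_mul, MonoidHom.mem_ker.mp x.2, mul_one]
      · intro a
        apply Subtype.ext
        simp
      · intro x
        apply Subtype.ext
        simp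
    rw [← Nat.card_eq_fintype_card, hAk]
    exact Subgroup.card_subgroup_dvd_card f.ker
  have hqA : ¬ q ∣ Fintype.card A := fun h => hqU (h.trans hA)
  have hfix : Fintype.card (Function.fixedPoints e) ≠ 0 := by
    intro h0
    rw [h0] at hmod
    exact hqA ((Nat.modEq_zero_iff_dvd).mp hmod)
  obtain ⟨⟨a, ha⟩⟩ := Fintype.card_pos_iff.mp (Nat.pos_of_ne_zero hfix)
  have hcomm : g₀ * (a.1 : G) * g₀⁻¹ = (a.1 : G) :=
    congrArg (fun b : A => ((b.1 : U) : G)) ha
  set c : G := (a.1 : G) with hcdef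
  have hfc : f a.1 ≠ 1 := by rw [a.2]; exact hu₀
  have hp_dvd : p ∣ orderOf c := by
    have h1 : orderOf (f a.1) ∣ p ^ k := orderOf_dvd_of_pow_eq_one (hfk a.1)
    have h2 : orderOf (f a.1) ∣ orderOf c := by
      rw [hcdef, Subgroup.orderOf_coe]
      exact orderOf_map_dvd f a.1
    obtain ⟨j, -, hj⟩ := (Nat.dvd_prime_pow hp.out).1 h1
    have hj0 : j ≠ 0 := by
      intro h0
      rw [h0, pow_zero] at hj
      exact hfc (orderOf_eq_one_iff.mp hj)
    rw [hj] at h2
    exact (dvd_pow_self p hj0).trans h2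
  have hc0 : orderOf c ≠ 0 := (orderOf_pos c).ne'
  set c' := c ^ (orderOf c / p) with hc'def
  have hc' : orderOf c' = p := orderOf_pow_orderOf_div hc0 hp_dvd
  have hc'1 : c' ≠ 1 := by
    intro h
    rw [h, orderOf_one] at hc'
    exact hp.out.ne_one hc'.symm
  have hcomm' : Commute g₀ c := mul_inv_eq_iff_eq_mul.mp hcomm
  have hgc : g₀ ∈ Subgroup.centralizer ({c'} : Set G) := by
    rw [Subgroup.mem_centralizer_iff]
    intro h hh
    rw [Set.mem_singleton_iff] at hh
    rw [hh]
    exact ((hcomm'.pow_right _).eq).symm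
  have hqC : q ∣ Nat.card (Subgroup.centralizer ({c'} : Set G)) := by
    have h1 := orderOf_dvd_natCard (⟨g₀, hgc⟩ : Subgroup.centralizer ({c'} : Set G))
    rwa [Subgroup.orderOf_mk, hg₀] at h1
  exact hC c' hc'1 ⟨1, by rw [hc', pow_one]⟩ hqC

/-- `G` `p`-solvable, `p ∣ |G|`, `q ∤ |O_{p'}(G)|`, no element of order `p` commuting with an
element of order `q`: `G` has an irreducible character of `q`-defect zero. -/
theorem exists_qdefect_zero_of_pSolvable {G : Type*} [Group G] [Fintype G] (p q : ℕ)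
    [hp : Fact p.Prime] [hq : Fact q.Prime] (hpq : p ≠ q) (hs : IsPSolvable p G)
    (hpG : p ∣ Nat.card G) (hqN : ¬ q ∣ Nat.card (pPrimeCore p G))
    (hC : ∀ g : G, g ≠ 1 → (∃ k : ℕ, orderOf g = p ^ k) →
      ¬ q ∣ Nat.card ↥(Subgroup.centralizer ({g} : Set G))) :
    ∃ χ : IrrCharacter G,
      (charDegree (χ : G → ℂ)).factorization q = (Nat.card G).factorization q := by
  classical
  obtain ⟨k, f, hf1, hfk, hcard⟩ := exists_hom_pPrimePCore p hs hpG
  haveI hUn : (pPrimePCore p G).Normal := Helper32.pPrimePCore_normal' p G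
  letI : Fintype ↥(pPrimePCore p G) := Fintype.ofFinite _
  have hqU : ¬ q ∣ Nat.card ↥(pPrimePCore p G) := by
    rw [hcard]
    intro h
    rcases (Nat.Prime.dvd_mul hq.out).mp h with h | h
    · exact hqN h
    · exact hpq ((Nat.prime_dvd_prime_iff_eq hq.out hp.out).mp (hq.out.dvd_of_dvd_pow h)).symm
  have hθ := Helper79.isIrrCharacter_of_hom f
  obtain ⟨χ, hχ, hne⟩ := Helper79.exists_irr_over_normal (pPrimePCore p G) hθ
  have hdvd := inertia_index_mul_dvd (pPrimePCore p G) hθ hχ hne
  have hT := not_dvd_card_inertia_of_hom p q (pPrimePCore p G) hqU k f hf1 hfk hC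
  refine ⟨⟨χ, hχ⟩, ?_⟩
  set T := Helper75.inertia (pPrimePCore p G) (fun u : ↥(pPrimePCore p G) => (f u : ℂ))
    with hTdef
  have h1 : T.index ∣ charDegree χ := (Dvd.intro _ rfl).trans hdvd
  have h2 : charDegree χ ∣ Nat.card G := Helper79.isIrrCharacter_charDegree_dvd_card hχ
  have hG0 : Nat.card G ≠ 0 := Nat.card_pos.ne'
  have hd0 : charDegree χ ≠ 0 := by
    intro h0
    rw [h0] at h2
    exact hG0 (Nat.eq_zero_of_zero_dvd h2)
  have hidx0 : T.index ≠ 0 := Subgroup.index_ne_zero_of_finite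
  have h3 : T.index.factorization q ≤ (charDegree χ).factorization q :=
    (Nat.factorization_le_iff_dvd hidx0 hd0).mpr h1 q
  have h4 : (charDegree χ).factorization q ≤ (Nat.card G).factorization q :=
    (Nat.factorization_le_iff_dvd hd0 hG0).mpr h2 q
  have h5 : (Nat.card G).factorization q = T.index.factorization q := by
    rw [← Subgroup.index_mul_card T, Nat.factorization_mul hidx0 Nat.card_pos.ne',
      Finsupp.add_apply, Nat.factorization_eq_zero_of_not_dvd hT, add_zero]
  show (charDegree χ).factorization q = _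
  omega

/-- `G` `p`-solvable without elements of order `pq`, `p` dividing `|G|`: `G` has an irreducible
character of `p`-defect zero or one of `q`-defect zero. -/
theorem exists_defect_zero_of_no_pq {G : Type*} [Group G] [Finite G] (p q : ℕ)
    [hp : Fact p.Prime] [hq : Fact q.Prime] (hpq : p ≠ q) (hpG : p ∣ Nat.card G)
    (hs : IsPSolvable p G)
    (hC : ∀ g : G, g ≠ 1 → (∃ k : ℕ, orderOf g = p ^ k) →
      ¬ q ∣ Nat.card ↥(Subgroup.centralizer ({g} : Set G)))
    (hC' : ∀ g : G, g ≠ 1 → (∃ k : ℕ, orderOf g = q ^ k) →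
      ¬ p ∣ Nat.card ↥(Subgroup.centralizer ({g} : Set G))) :
    (∃ χ : IrrCharacter G,
      (charDegree (χ : G → ℂ)).factorization p = (Nat.card G).factorization p) ∨
    (∃ χ : IrrCharacter G,
      (charDegree (χ : G → ℂ)).factorization q = (Nat.card G).factorization q) := by
  letI := Fintype.ofFinite G
  by_cases hqN : q ∣ Nat.card (pPrimeCore p G)
  · left
    obtain ⟨y, hy⟩ := exists_prime_orderOf_dvd_card' q hqN
    have hy0 : orderOf (y : G) = q := by rw [Subgroup.orderOf_coe]; exact hy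
    have hy1 : (y : G) ≠ 1 := by
      intro h
      rw [h, orderOf_one] at hy0
      exact hq.out.ne_one hy0.symm
    exact exists_defect_zero_of_normal_pPrime p (pPrimeCore p G)
      ((Nat.Prime.coprime_iff_not_dvd hp.out).mp (Helper32.card_pPrimeCore_coprime' p G).symm)
      (y : G) y.2 (hC' _ hy1 ⟨1, by rw [hy0, pow_one]⟩)
  · right
    exact exists_qdefect_zero_of_pSolvable p q hpq hs hpG hqN hC

/-- "No element of order `p` commutes with an element of order `q`" is symmetric. -/
theorem not_dvd_card_centralizer_symm {G : Type*} [Group G] [Finite G] (p q : ℕ)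
    [hp : Fact p.Prime]
    (hC : ∀ g : G, g ≠ 1 → (∃ k : ℕ, orderOf g = p ^ k) →
      ¬ q ∣ Nat.card ↥(Subgroup.centralizer ({g} : Set G))) :
    ∀ g : G, g ≠ 1 → (∃ k : ℕ, orderOf g = q ^ k) →
      ¬ p ∣ Nat.card ↥(Subgroup.centralizer ({g} : Set G)) := by
  rintro g hg1 ⟨k, hk⟩ hdvd
  obtain ⟨x, hx⟩ := exists_prime_orderOf_dvd_card' p hdvd
  have hx0 : orderOf (x : G) = p := by rw [Subgroup.orderOf_coe]; exact hx
  have hx1 : (x : G) ≠ 1 := by
    intro h
    rw [h, orderOf_one] at hx0
    exact hp.out.ne_one hx0.symm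
  have hcomm : g * (x : G) = (x : G) * g :=
    Subgroup.mem_centralizer_iff.mp x.2 g (Set.mem_singleton g)
  have hgx : g ∈ Subgroup.centralizer ({(x : G)} : Set G) := by
    rw [Subgroup.mem_centralizer_iff]
    intro h hh
    rw [Set.mem_singleton_iff] at hh
    rw [hh]
    exact hcomm.symm
  have hk0 : k ≠ 0 := by
    intro h0
    rw [h0, pow_zero] at hk
    exact hg1 (orderOf_eq_one_iff.mp hk)
  have hq_dvd : q ∣ Nat.card (Subgroup.centralizer ({(x : G)} : Set G)) := by
    have h1 := orderOf_dvd_natCard (⟨g, hgx⟩ : Subgroup.centralizer ({(x : G)} : Set G))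
    rw [Subgroup.orderOf_mk, hk] at h1
    exact (dvd_pow_self q hk0).trans h1
  exact hC x hx1 ⟨1, by rw [hx0, pow_one]⟩ hq_dvd

end Cfsg.Agent.Helper76
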