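import Cfsg.Agent.Helper76.PQOver
import Cfsg.Agent.Helper80.CharOrtho
import Cfsg.Agent.Helper81.ClassAlgebra
import Cfsg.Agent.Helper81.BlockDefect
import Cfsg.Agent.Helper76.CharInt

/-!
# Ito's theorem on characters of defect zero (helper76)

* `isIntegral_of_coprime_mul`: if `m z` and `n z` are algebraic integers with `m`, `n` coprime then
  so is `z`.
* `sum_card_conj_normal`: `∑_g #{n ∈ N | n (g y g⁻¹) n⁻¹ = y} = |N| |C_G(y)|`.
* `exists_defect_zero_of_normal_pPrime` (Ito): if `N` is a normal `p'`-subgroup of `G` and some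
  `y ∈ N` has `p ∤ |C_G(y)|`, then `G` has an irreducible character of `p`-defect zero.
-/

set_option autoImplicit false
set_option linter.style.haveILetI false

namespace Cfsg.Agent.Helper76

open Cfsg

open scoped ComplexConjugate

/-- If `m z` and `n z` are algebraic integers with `m`, `n` coprime, then `z` is one. -/
theorem isIntegral_of_coprime_mul {m n : ℕ} (h : Nat.Coprime m n) {z : ℂ}
    (hm : IsIntegral ℤ ((m : ℂ) * z)) (hn : IsIntegral ℤ ((n : ℂ) * z)) : IsIntegral ℤ z := by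
  obtain ⟨u, v, huv⟩ := Nat.isCoprime_iff_coprime.mpr h
  have h1 : ((u * (m : ℤ) + v * (n : ℤ) : ℤ) : ℂ) = 1 := by rw [huv]; simp
  push_cast at h1
  have h2 : z = (u : ℂ) * ((m : ℂ) * z) + (v : ℂ) * ((n : ℂ) * z) := by
    linear_combination (-z) * h1
  rw [h2]
  exact ((isIntegral_intCast u).mul hm).add ((isIntegral_intCast v).mul hn)

open scoped Classical in
/-- `∑_g #{n ∈ N | n (g y g⁻¹) n⁻¹ = y} = |N| |C_G(y)|`. -/
theorem sum_card_conj_normal {G : Type*} [Group G] [Fintype G] (N : Subgroup G)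
    [hN : N.Normal] [Fintype N] (y : G) (hy : y ∈ N) :
    ∑ g : G, ((Finset.univ.filter (fun n : N =>
        n * (⟨g * y * g⁻¹, hN.conj_mem y hy g⟩ : N) * n⁻¹ = ⟨y, hy⟩)).card : ℂ) =
      (Nat.card N : ℂ) * (Nat.card (Subgroup.centralizer ({y} : Set G)) : ℂ) := by
  have h1 : ∀ g : G, ((Finset.univ.filter (fun n : N =>
        n * (⟨g * y * g⁻¹, hN.conj_mem y hy g⟩ : N) * n⁻¹ = ⟨y, hy⟩)).card : ℂ) =
      ∑ n : N, if ((n : G) * g) * y * ((n : G) * g)⁻¹ = y then (1 : ℂ) else 0 := by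
    intro g
    rw [Finset.natCast_card_filter]
    apply Finset.sum_congr rfl
    intro n _
    have hiff : (n * (⟨g * y * g⁻¹, hN.conj_mem y hy g⟩ : N) * n⁻¹ = ⟨y, hy⟩) ↔
        ((n : G) * g) * y * ((n : G) * g)⁻¹ = y := by
      rw [Subtype.ext_iff]
      simp only [Subgroup.coe_mul, Subgroup.coe_inv, mul_inv_rev, mul_assoc]
    by_cases hc : ((n : G) * g) * y * ((n : G) * g)⁻¹ = y
    · rw [if_pos hc, if_pos (hiff.mpr hc)]
    · rw [if_neg hc, if_neg (fun h => hc (hiff.mp h))]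
  simp only [h1]
  rw [Finset.sum_comm]
  have h2 : ∀ n : N, (∑ g : G, if ((n : G) * g) * y * ((n : G) * g)⁻¹ = y then (1 : ℂ) else 0) =
      (Nat.card (Subgroup.centralizer ({y} : Set G)) : ℂ) := by
    intro n
    have h3 : (∑ g : G, if ((n : G) * g) * y * ((n : G) * g)⁻¹ = y then (1 : ℂ) else 0) =
        ∑ g' : G, if g' * y * g'⁻¹ = y then (1 : ℂ) else 0 :=
      Equiv.sum_comp (Equiv.mulLeft (n : G))
        (fun g' : G => if g' * y * g'⁻¹ = y then (1 : ℂ) else 0)
    rw [h3, ← Finset.natCast_card_filter, Helper80.card_conj_eq y y, if_pos (IsConj.refl y)]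
  simp only [h2]
  rw [Finset.sum_const, Finset.card_univ, nsmul_eq_mul, ← Nat.card_eq_fintype_card]

/-- **Ito.** If `N` is a normal `p'`-subgroup of `G` and some `y ∈ N` has a centralizer of order
prime to `p`, then `G` has an irreducible character of `p`-defect zero. -/
theorem exists_defect_zero_of_normal_pPrime {G : Type*} [Group G] [Fintype G] (p : ℕ)
    [hp : Fact p.Prime] (N : Subgroup G) [hN : N.Normal] (hNp : ¬ p ∣ Nat.card N) (y : G)
    (hy : y ∈ N) (hC : ¬ p ∣ Nat.card (Subgroup.centralizer ({y} : Set G))) :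
    ∃ χ : IrrCharacter G,
      (charDegree (χ : G → ℂ)).factorization p = (Nat.card G).factorization p := by
  classical
  letI : Fintype N := Fintype.ofFinite _
  letI : Fintype (IrrCharacter N) := Fintype.ofFinite _
  by_contra hcon
  push Not at hcon
  set C : Subgroup G := Subgroup.centralizer ({y} : Set G) with hCdef
  have hCpos : (Nat.card C : ℂ) ≠ 0 := by exact_mod_cast (Nat.card_pos (α := C)).ne'
  have hGC : C.index * Nat.card C = Nat.card G := Subgroup.index_mul_card C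
  have hp0 : (p : ℂ) ≠ 0 := by exact_mod_cast hp.out.ne_zero
  -- Step 1: all central character values at `y` are divisible by `p`.
  have step1 : ∀ χ : IrrCharacter G, IsIntegral ℤ (centralChar (χ : G → ℂ) y / (p : ℂ)) := by
    intro χ
    have hχc := Helper79.isCharacter_of_irr χ.2
    set d := charDegree (χ : G → ℂ) with hd
    have hd1 : (χ : G → ℂ) 1 = (d : ℂ) := Helper79.isCharacter_one_eq_charDegree hχc
    have hd0 : d ≠ 0 := by
      intro h0
      have h := Helper81.irr_one_ne_zero χ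
      rw [hd1, h0] at h
      simp at h
    have hdG : d ∣ Nat.card G := Helper79.isIrrCharacter_charDegree_dvd_card χ.2
    set b := d.factorization p with hb
    have hG0 : Nat.card G ≠ 0 := Nat.card_pos.ne'
    have hble : b ≤ (Nat.card G).factorization p :=
      (Nat.factorization_le_iff_dvd hd0 hG0).mpr hdG p
    have hblt : b + 1 ≤ (Nat.card G).factorization p := by
      have h : b ≠ (Nat.card G).factorization p := hcon χ
      omega
    have hpb : p ^ (b + 1) ∣ Nat.card G := (pow_dvd_pow p hblt).trans (Nat.ordProj_dvd _ p)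
    have hcop : Nat.Coprime (p ^ (b + 1)) (Nat.card C) :=
      Nat.Coprime.pow_left _ ((Nat.Prime.coprime_iff_not_dvd hp.out).mpr hC)
    have hpc : p ^ (b + 1) ∣ C.index := by
      rw [← hGC] at hpb
      exact hcop.dvd_of_dvd_mul_right hpb
    obtain ⟨c₁, hc₁⟩ := hpc
    set d₀ := d / p ^ b with hd₀
    have hdd : p ^ b * d₀ = d := Nat.ordProj_mul_ordCompl_eq_self d p
    have hd₀p : ¬ p ∣ d₀ := Nat.not_dvd_ordCompl hp.out hd0
    have hd₀0 : (d₀ : ℂ) ≠ 0 := by
      intro h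
      apply hd0
      have h' : d₀ = 0 := by exact_mod_cast h
      rw [← hdd, h', mul_zero]
    apply isIntegral_of_coprime_mul ((Nat.Prime.coprime_iff_not_dvd hp.out).mpr hd₀p)
    · have h : (p : ℂ) * (centralChar (χ : G → ℂ) y / (p : ℂ)) = centralChar (χ : G → ℂ) y := by
        field_simp
      rw [h]
      exact Helper81.centralChar_isIntegral χ y
    · have h : (d₀ : ℂ) * (centralChar (χ : G → ℂ) y / (p : ℂ)) = (c₁ : ℂ) * (χ : G → ℂ) y := by
        unfold centralChar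
        rw [← hCdef, hc₁, hd1, ← hdd]
        push_cast
        field_simp
        ring
      rw [h]
      exact (isIntegral_natCast c₁).mul (Helper81.irr_isIntegral χ y)
  -- Step 2: the averaged central character of `θ ∈ Irr(N)` is a central character of `G`.
  have step2 : ∀ θ : IrrCharacter N, ∃ χ : IrrCharacter G,
      (∑ g : G, (θ : N → ℂ) ⟨g * y * g⁻¹, hN.conj_mem y hy g⟩) /
        ((Nat.card C : ℂ) * (θ : N → ℂ) 1) = centralChar (χ : G → ℂ) y := by
    intro θ
    obtain ⟨χ, hχ, hne⟩ := Helper79.exists_irr_over_normal N θ.2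
    refine ⟨⟨χ, hχ⟩, ?_⟩
    have hcl := Helper75.clifford_restrict N hχ θ.2 hne
    have hs := Helper75.sum_conjFun_eq N (θ : N → ℂ)
    have hS1 := Helper75.orbitSum_one N (θ : N → ℂ)
    set S : N → ℂ := ∑ᶠ ψ ∈ {ψ : N → ℂ | ∃ g : G, ψ = Helper75.conjFun N g θ}, ψ with hS
    set m := classInner (fun n : N => χ n) (θ : N → ℂ) with hm
    set t : ℂ := (Nat.card {g : G // Helper75.conjFun N g (θ : N → ℂ) = θ} : ℂ) with ht
    have hy1 : χ y = m * S ⟨y, hy⟩ := by
      have h := congrFun hcl ⟨y, hy⟩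
      rw [Pi.smul_apply, smul_eq_mul] at h
      exact h
    have h11 : χ 1 = m * S 1 := by
      have h := congrFun hcl 1
      rw [Pi.smul_apply, smul_eq_mul] at h
      exact h
    have hsy : ∑ g : G, (θ : N → ℂ) ⟨g * y * g⁻¹, hN.conj_mem y hy g⟩ = t * S ⟨y, hy⟩ := by
      have h := congrFun hs ⟨y, hy⟩
      rw [Finset.sum_apply, Pi.smul_apply, smul_eq_mul] at h
      exact h
    have ht0 : t ≠ 0 := by
      have : Nonempty {g : G // Helper75.conjFun N g (θ : N → ℂ) = θ} :=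
        ⟨⟨1, Helper75.conjFun_one N θ⟩⟩
      rw [ht]
      exact_mod_cast (Nat.card_pos (α := {g : G // Helper75.conjFun N g (θ : N → ℂ) = θ})).ne'
    have hθ1 : (θ : N → ℂ) 1 ≠ 0 := Helper81.irr_one_ne_zero θ
    have hm0 : m ≠ 0 := hne
    show (∑ g : G, (θ : N → ℂ) ⟨g * y * g⁻¹, hN.conj_mem y hy g⟩) /
        ((Nat.card C : ℂ) * (θ : N → ℂ) 1) = centralChar χ y
    unfold centralChar
    rw [hsy, hy1, h11, hS1, ← hCdef, ← hGC]
    have hidx : (C.index : ℂ) ≠ 0 := by
      have : C.index ≠ 0 := Subgroup.index_ne_zero_of_finite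
      exact_mod_cast this
    push_cast
    field_simp
  -- Step 3: column orthogonality in `N`.
  have step3 : (Nat.card N : ℂ) = (p : ℂ) * ∑ θ : IrrCharacter N,
      (θ : N → ℂ) 1 * conj ((θ : N → ℂ) ⟨y, hy⟩) *
        ((∑ g : G, (θ : N → ℂ) ⟨g * y * g⁻¹, hN.conj_mem y hy g⟩) /
          ((Nat.card C : ℂ) * (θ : N → ℂ) 1) / (p : ℂ)) := by
    have h1 : ∀ θ : IrrCharacter N, (θ : N → ℂ) 1 * conj ((θ : N → ℂ) ⟨y, hy⟩) *
        ((∑ g : G, (θ : N → ℂ) ⟨g * y * g⁻¹, hN.conj_mem y hy g⟩) /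
          ((Nat.card C : ℂ) * (θ : N → ℂ) 1) / (p : ℂ)) =
        (1 / ((p : ℂ) * (Nat.card C : ℂ))) *
          ∑ g : G, (θ : N → ℂ) ⟨g * y * g⁻¹, hN.conj_mem y hy g⟩ *
            conj ((θ : N → ℂ) ⟨y, hy⟩) := by
      intro θ
      have hθ1 : (θ : N → ℂ) 1 ≠ 0 := Helper81.irr_one_ne_zero θ
      rw [← Finset.sum_mul]
      field_simp
    rw [Finset.sum_congr rfl (fun θ _ => h1 θ), ← Finset.mul_sum, Finset.sum_comm]
    have h2 : ∀ g : G, ∑ θ : IrrCharacter N,
        (θ : N → ℂ) ⟨g * y * g⁻¹, hN.conj_mem y hy g⟩ * conj ((θ : N → ℂ) ⟨y, hy⟩) =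
        ((Finset.univ.filter (fun n : N =>
          n * (⟨g * y * g⁻¹, hN.conj_mem y hy g⟩ : N) * n⁻¹ = ⟨y, hy⟩)).card : ℂ) :=
      fun g => by
        rw [Helper80.irr_sum_mul_conj (G := N) ⟨g * y * g⁻¹, hN.conj_mem y hy g⟩ ⟨y, hy⟩]
        congr!
    rw [Finset.sum_congr rfl (fun g _ => h2 g), sum_card_conj_normal N y hy, ← hCdef]
    field_simp
  have hint : IsIntegral ℤ (∑ θ : IrrCharacter N,
      (θ : N → ℂ) 1 * conj ((θ : N → ℂ) ⟨y, hy⟩) *
        ((∑ g : G, (θ : N → ℂ) ⟨g * y * g⁻¹, hN.conj_mem y hy g⟩) /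
          ((Nat.card C : ℂ) * (θ : N → ℂ) 1) / (p : ℂ))) := by
    apply IsIntegral.sum
    intro θ _
    obtain ⟨χ, hχ⟩ := step2 θ
    rw [hχ]
    refine ((Helper81.irr_isIntegral θ 1).mul ?_).mul (step1 χ)
    exact map_isIntegral_int (starRingEnd ℂ) (Helper81.irr_isIntegral θ ⟨y, hy⟩)
  exact hNp (dvd_of_natCast_eq_mul_isIntegral _ p hp.out.ne_zero _ hint step3)

end Cfsg.Agent.Helper76
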