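import Cfsg.Agent.Helper77.ResField
import Mathlib.FieldTheory.IsAlgClosed.Basic
import Mathlib.Algebra.Polynomial.Lifts
import Mathlib.RingTheory.IntegralClosure.IsIntegralClosure.Basic
import Mathlib.Analysis.Complex.Polynomial.Basic

/-!
# The residue field of the local ring of algebraic integers is algebraically closed
(piece E of the S4607 call)
-/

set_option autoImplicit false

namespace Cfsg.Agent.Helper76

theorem k2_resField_isAlgClosed (M : Ideal Cfsg.AlgInt) (hM : M.IsMaximal) :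
    IsAlgClosed (Cfsg.Agent.Helper77.ResField M hM) := by
  let ι : Cfsg.AlgInt →+* ↥(Helper77.localSubring M hM) :=
    (algebraMap Cfsg.AlgInt ℂ).codRestrict (Helper77.localSubring M hM)
      (fun a => Helper77.memLocalRing_algInt hM a)
  let ρ : Cfsg.AlgInt →+* Helper77.ResField M hM := (Helper77.resHom M hM).comp ι
  have hρ : Function.Surjective ρ := by
    intro y
    obtain ⟨z, rfl⟩ := Helper77.resHom_surjective M hM y
    obtain ⟨a, b, hb, hab⟩ := z.2
    obtain ⟨c, i, hi, hci⟩ := hM.exists_inv hb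
    refine ⟨a * c, ?_⟩
    show Helper77.resHom M hM (ι (a * c)) = Helper77.resHom M hM z
    rw [← sub_eq_zero, ← map_sub, Helper77.resHom_eq_zero_iff]
    refine ⟨- (a * i), b, M.neg_mem (M.mul_mem_left _ hi), hb, ?_⟩
    have hb0 := Helper77.coe_ne_zero hb
    have h1 : (c : ℂ) * (b : ℂ) + (i : ℂ) = 1 := by
      have := congrArg (fun x : Cfsg.AlgInt => (x : ℂ)) hci
      simpa using this
    show ((-(a * i) : Cfsg.AlgInt) : ℂ) / (b : ℂ) = ((a * c : Cfsg.AlgInt) : ℂ) - (z : ℂ)
    rw [← hab]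
    push_cast
    field_simp
    linear_combination (-(a : ℂ)) * h1
  apply IsAlgClosed.of_exists_root
  intro p hp hirr
  obtain ⟨F, hF, hdeg, hFm⟩ := Polynomial.lifts_and_degree_eq_and_monic
      ((Polynomial.mem_lifts _).mpr (Polynomial.map_surjective ρ hρ p)) hp
  have hdeg' : (F.map (algebraMap Cfsg.AlgInt ℂ)).degree ≠ 0 := by
    rw [hFm.degree_map, hdeg]
    exact (Polynomial.degree_pos_of_irreducible hirr).ne'
  obtain ⟨α, hα⟩ := IsAlgClosed.exists_root (F.map (algebraMap Cfsg.AlgInt ℂ)) hdeg'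
  have hα0 : Polynomial.eval₂ (algebraMap Cfsg.AlgInt ℂ) α F = 0 := by
    rw [← Polynomial.eval_map]; exact hα
  have hα' : IsIntegral Cfsg.AlgInt α := ⟨F, hFm, hα0⟩
  have hα'' : IsIntegral ℤ α := isIntegral_trans α hα'
  have hz : F.eval (⟨α, hα''⟩ : Cfsg.AlgInt) = 0 := by
    have h2 : algebraMap Cfsg.AlgInt ℂ (F.eval (⟨α, hα''⟩ : Cfsg.AlgInt)) = 0 := by
      rw [← Polynomial.eval₂_hom]; exact hα0
    exact Subtype.ext h2
  refine ⟨ρ ⟨α, hα''⟩, ?_⟩
  rw [← hF, Polynomial.eval_map, Polynomial.eval₂_hom, hz, map_zero]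

end Cfsg.Agent.Helper76
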