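import Cfsg.Agent.Helper76.Cover2
import Cfsg.Agent.Helper75.ThirdMain

/-!
# Principal `2`-blocks and normal subgroups of odd index (helper76)

* `eq_one_of_conj_eq_inv_of_odd`: in a group of odd order only the identity is conjugate to its
  inverse.
* `mem_principalBlock_of_odd_index`: let `N` be normal of odd index in `G`, `χ` an irreducible
  character of `G` with `χ(g⁻¹) = χ(g)` for `g` of odd order, lying over `θ` in the principal
  `2`-block of `N`.  Then `χ` lies in the principal `2`-block of `G`.
* `mem_principalBlock_of_constituent`: (any prime, any normal subgroup) every irreducible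
  constituent of the restriction to `N` of a character in the principal block of `G` lies in the
  principal block of `N`.
-/

set_option autoImplicit false
set_option linter.style.haveILetI false

namespace Cfsg.Agent.Helper76

open scoped ComplexConjugate

universe u

/-- In a group of odd order, only the identity is conjugate to its inverse. -/
theorem eq_one_of_conj_eq_inv_of_odd {Q : Type*} [Group Q] [Finite Q] (hQ : Odd (Nat.card Q))
    {x y : Q} (h : y * x * y⁻¹ = x⁻¹) : x = 1 := by
  have hy : Odd (orderOf y) := Odd.of_dvd_nat hQ (orderOf_dvd_natCard y)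
  obtain ⟨m, hm⟩ := hy
  have hc2 : Commute (y ^ 2) x := by
    have h3 : y * x⁻¹ * y⁻¹ = x := by
      have h4 : y * x⁻¹ * y⁻¹ = (y * x * y⁻¹)⁻¹ := by group
      rw [h4, h, inv_inv]
    have e1 : y * x = x⁻¹ * y := mul_inv_eq_iff_eq_mul.mp h
    have e2 : y * x⁻¹ = x * y := mul_inv_eq_iff_eq_mul.mp h3
    show y ^ 2 * x = x * y ^ 2
    calc y ^ 2 * x = y * (y * x) := by rw [pow_two, mul_assoc]
      _ = y * (x⁻¹ * y) := by rw [e1]
      _ = (y * x⁻¹) * y := by rw [mul_assoc]
      _ = x * y * y := by rw [e2]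
      _ = x * y ^ 2 := by rw [pow_two, mul_assoc]
  have hc : Commute y x := by
    have h5 : y = (y ^ 2) ^ (m + 1) := by
      rw [← pow_mul, show 2 * (m + 1) = orderOf y + 1 by omega, pow_succ, pow_orderOf_eq_one,
        one_mul]
    rw [h5]
    exact hc2.pow_left _
  have h6 : x = x⁻¹ := by
    rw [← h, hc.eq, mul_inv_cancel_right]
  have h7 : x ^ 2 = 1 := by
    rw [pow_two]
    nth_rewrite 2 [h6]
    exact mul_inv_cancel x
  have h8 : Odd (orderOf x) := Odd.of_dvd_nat hQ (orderOf_dvd_natCard x)
  rcases (Nat.dvd_prime Nat.prime_two).mp (orderOf_dvd_of_pow_eq_one h7) with h9 | h9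
  · exact orderOf_eq_one_iff.mp h9
  · rw [h9] at h8
    exact absurd h8 (by decide)

section oddIndex

variable {G : Type u} [Group G] [Fintype G] {M : Ideal Cfsg.AlgInt}

/-- Let `N` be a normal subgroup of odd index, `χ` an irreducible character of `G` which is real
on the elements of odd order and lies over an irreducible character `θ` in the principal
`2`-block of `N`.  Then `χ` lies in the principal `2`-block of `G`. -/
theorem mem_principalBlock_of_odd_index (hM : Cfsg.IsPModular 2 M) (N : Subgroup G)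
    [hN : N.Normal] [Fintype N] (hidx : Odd N.index) (χ : Cfsg.IrrCharacter G)
    (hreal : ∀ g : G, Odd (orderOf g) → (χ : G → ℂ) g⁻¹ = (χ : G → ℂ) g)
    (θ : Cfsg.IrrCharacter N) (hθ : θ ∈ Cfsg.principalBlock M N)
    (hover : Cfsg.classInner (fun n : N => (χ : G → ℂ) n) (θ : N → ℂ) ≠ 0) :
    χ ∈ Cfsg.principalBlock M G := by
  classical
  haveI : Fact (Nat.Prime 2) := ⟨Nat.prime_two⟩
  have hMm := hM.2.1
  rw [Helper75.mem_principalBlock_iff_omega hM] at hθ ⊢
  have hQ : Odd (Nat.card (G ⧸ N)) := by rwa [← Subgroup.index_eq_card]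
  -- elements outside `N` are not conjugate to their inverses
  have hnc : ∀ g : G, g ∉ N → ConjClasses.mk g ≠ ConjClasses.mk g⁻¹ := by
    intro g hg hc
    rw [ConjClasses.mk_eq_mk_iff_isConj, isConj_iff] at hc
    obtain ⟨h, hh⟩ := hc
    apply hg
    have h1 : (h : G ⧸ N) * (g : G ⧸ N) * (h : G ⧸ N)⁻¹ = (g : G ⧸ N)⁻¹ := by
      rw [← QuotientGroup.mk_inv, ← QuotientGroup.mk_mul, ← QuotientGroup.mk_mul, hh,
        QuotientGroup.mk_inv]
    exact (QuotientGroup.eq_one_iff g).mp (eq_one_of_conj_eq_inv_of_odd hQ h1)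
  have := Fintype.ofFinite (ConjClasses G)
  let ι : ConjClasses G → ℕ := fun c => ((Fintype.equivFin (ConjClasses G) c : Fin _) : ℕ)
  have hι : Function.Injective ι := fun c d h =>
    (Fintype.equivFin (ConjClasses G)).injective (Fin.ext h)
  let a : G → ℂ := fun g => if g ∈ N then Helper75.pregInd 2 G g else 0
  let y : G → ℂ := fun g =>
    if g ∉ N ∧ ¬ 2 ∣ orderOf g ∧ ι (ConjClasses.mk g) < ι (ConjClasses.mk g⁻¹) then 1 else 0
  have ha_def : ∀ g, a g = if g ∈ N then Helper75.pregInd 2 G g else 0 := fun g => rfl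
  have hy_def : ∀ g, y g = if g ∉ N ∧ ¬ 2 ∣ orderOf g ∧
      ι (ConjClasses.mk g) < ι (ConjClasses.mk g⁻¹) then 1 else 0 := fun g => rfl
  have hconjN : ∀ g h : G, h * g * h⁻¹ ∈ N ↔ g ∈ N := by
    intro g h
    constructor
    · intro hh
      have := hN.conj_mem _ hh h⁻¹
      simpa [mul_assoc] using this
    · intro hg
      exact hN.conj_mem g hg h
  have hacl : Cfsg.IsClassFunction G a := by
    intro g h
    rw [ha_def, ha_def, Helper75.pregInd_isClassFunction 2 g h]
    exact if_congr (hconjN g h) rfl rfl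
  have hycl : Cfsg.IsClassFunction G y := by
    intro g h
    rw [hy_def, hy_def]
    have h1 : ConjClasses.mk (h * g * h⁻¹) = ConjClasses.mk g :=
      (ConjClasses.mk_eq_mk_iff_isConj.mpr (isConj_iff.mpr ⟨h, rfl⟩)).symm
    have h2 : ConjClasses.mk (h * g * h⁻¹)⁻¹ = ConjClasses.mk g⁻¹ := by
      have : (h * g * h⁻¹)⁻¹ = h * g⁻¹ * h⁻¹ := by group
      rw [this]
      exact (ConjClasses.mk_eq_mk_iff_isConj.mpr (isConj_iff.mpr ⟨h, rfl⟩)).symm
    rw [h1, h2, Helper75.orderOf_conj']
    exact if_congr (and_congr (not_congr (hconjN g h)) Iff.rfl) rfl rfl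
  have hyloc : ∀ g, Cfsg.MemLocalRing M (y g) := by
    intro g
    rw [hy_def]
    split_ifs
    · exact Helper77.memLocalRing_one hMm
    · exact Helper77.memLocalRing_zero hMm
  have hsplit : ∀ g : G, Helper75.pregInd 2 G g = a g + y g + y g⁻¹ := by
    intro g
    have hpg : Helper75.pregInd 2 G g = if ¬ 2 ∣ orderOf g then 1 else 0 := rfl
    by_cases hg : g ∈ N
    · have hg' : g⁻¹ ∈ N := N.inv_mem hg
      have h1 : a g = Helper75.pregInd 2 G g := by
        rw [ha_def]
        exact if_pos hg
      have h2 : y g = 0 := by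
        rw [hy_def]
        exact if_neg (fun h => h.1 hg)
      have h3 : y g⁻¹ = 0 := by
        rw [hy_def]
        exact if_neg (fun h => h.1 hg')
      rw [h1, h2, h3, add_zero, add_zero]
    · have hg' : g⁻¹ ∉ N := fun h => hg (by simpa using N.inv_mem h)
      have h1 : a g = 0 := by
        rw [ha_def]
        exact if_neg hg
      by_cases ho : 2 ∣ orderOf g
      · have h2 : y g = 0 := by
          rw [hy_def]
          exact if_neg (fun h => h.2.1 ho)
        have h3 : y g⁻¹ = 0 := by
          rw [hy_def]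
          exact if_neg (fun h => h.2.1 (by rw [orderOf_inv]; exact ho))
        rw [h1, h2, h3, hpg, if_neg (not_not.mpr ho)]
        simp
      · have hne : ι (ConjClasses.mk g) ≠ ι (ConjClasses.mk g⁻¹) := fun h => hnc g hg (hι h)
        rcases lt_or_gt_of_ne hne with hlt | hgt
        · have h2 : y g = 1 := by
            rw [hy_def]
            exact if_pos ⟨hg, ho, hlt⟩
          have h3 : y g⁻¹ = 0 := by
            rw [hy_def]
            exact if_neg (fun h => absurd h.2.2 (by rw [inv_inv]; exact not_lt.mpr hlt.le))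
          rw [h1, h2, h3, hpg, if_pos ho]
          simp
        · have h2 : y g = 0 := by
            rw [hy_def]
            exact if_neg (fun h => absurd h.2.2 (not_lt.mpr hgt.le))
          have h3 : y g⁻¹ = 1 := by
            rw [hy_def]
            exact if_pos ⟨hg', by rw [orderOf_inv]; exact ho, by rw [inv_inv]; exact hgt⟩
          rw [h1, h2, h3, hpg, if_pos ho]
          simp
  -- the sum of `y(g⁻¹) χ(g)` equals the sum of `y(g) χ(g)`
  have hinv : ∑ g : G, y g⁻¹ * (χ : G → ℂ) g = ∑ g : G, y g * (χ : G → ℂ) g := by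
    rw [← Equiv.sum_comp (Equiv.inv G) (fun g => y g * (χ : G → ℂ) g)]
    refine Finset.sum_congr rfl fun g _ => ?_
    rw [Equiv.inv_apply]
    by_cases hy0 : y g⁻¹ = 0
    · rw [hy0, zero_mul, zero_mul]
    · have ho : Odd (orderOf g) := by
        rw [hy_def] at hy0
        by_contra hcon
        apply hy0
        rw [if_neg]
        intro h
        apply h.2.1
        rw [orderOf_inv]
        exact even_iff_two_dvd.mp (Nat.not_odd_iff_even.mp hcon)
      rw [hreal g ho]
  have hsum : Helper81.omega (χ : G → ℂ) (Helper75.pregInd 2 G)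
      = Helper81.omega (χ : G → ℂ) a + 2 * Helper81.omega (χ : G → ℂ) y := by
    unfold Helper81.omega
    have h1 : ∑ g : G, Helper75.pregInd 2 G g * (χ : G → ℂ) g
        = ∑ g : G, a g * (χ : G → ℂ) g
          + (∑ g : G, y g * (χ : G → ℂ) g + ∑ g : G, y g⁻¹ * (χ : G → ℂ) g) := by
      rw [← Finset.sum_add_distrib, ← Finset.sum_add_distrib]
      refine Finset.sum_congr rfl fun g _ => ?_
      rw [hsplit g]
      ring
    rw [h1, hinv]
    ring
  -- `Ω_χ(a) = Ω_θ(S_N)`
  have hsupp : ∀ g : G, g ∉ N → a g = 0 := fun g hg => by rw [ha_def, if_neg hg]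
  have hC := omega_eq_omega_res_of_constituent N hacl hsupp χ θ hover
  have hres : (fun n : N => a (n : G)) = Helper75.pregInd 2 N := by
    rw [← Helper75.pregInd_res 2 N]
    funext n
    rw [ha_def, if_pos n.2]
  rw [hres] at hC
  intro hcon
  apply hθ
  rw [← hC]
  have h2 : Cfsg.MemLocalIdeal M (2 * Helper81.omega (χ : G → ℂ) y) := by
    have h3 := Helper77.memLocalIdeal_prime hM
    exact Helper77.memLocalIdeal_mul' hMm (by exact_mod_cast h3)
      (Helper16.omega_memLocalRing hMm χ hycl hyloc)
  have h4 := Helper77.memLocalIdeal_sub hMm hcon h2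
  rw [hsum, add_sub_cancel_right] at h4
  exact h4

variable {p : ℕ} [Fact p.Prime]

omit [Fact p.Prime] in
/-- Every irreducible constituent of the restriction to a normal subgroup `N` of an irreducible
character in the principal block of `G` lies in the principal block of `N`. -/
theorem mem_principalBlock_of_constituent (hM : Cfsg.IsPModular p M) (N : Subgroup G)
    [hN : N.Normal] [Fintype N] (χ : Cfsg.IrrCharacter G) (hχ : χ ∈ Cfsg.principalBlock M G)
    (θ : Cfsg.IrrCharacter N)
    (hover : Cfsg.classInner (fun n : N => (χ : G → ℂ) n) (θ : N → ℂ) ≠ 0) :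
    θ ∈ Cfsg.principalBlock M N := by
  classical
  have hMm := hM.2.1
  have hb : Cfsg.IsPBlock M (Cfsg.principalBlock M N) := ⟨Helper79.trivIrr N, rfl⟩
  have h1 : Cfsg.classInner (fun n : N => (Helper79.trivIrr G : G → ℂ) n)
      (Helper79.trivIrr N : N → ℂ) ≠ 0 := by
    have h2 : (fun n : N => (Helper79.trivIrr G : G → ℂ) n) = (Helper79.trivIrr N : N → ℂ) := rfl
    rw [h2, Helper15.irr_inner_self (Helper79.trivIrr N).2]
    exact one_ne_zero
  obtain ⟨g, θ', hθ', hθeq⟩ := mem_blockOrbit_of_sameBlock hMm N hb (Helper79.trivIrr G) χ hχ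
    (Helper79.trivIrr N) (Helper16.sameBlock_refl hMm _) h1 θ hover
  have h3 := sameBlock_comp_mulEquiv (MulAut.conjNormal g : N ≃* N) hθ'
  rw [hθeq]
  exact h3

end oddIndex

end Cfsg.Agent.Helper76
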