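import Cfsg.Agent.Helper79.ItoMichler
import Cfsg.Agent.Helper79.Sep
import Cfsg.Agent.Helper15.Gallagher
import Cfsg.Agent.Helper74.PDeg

/-!
# Groups with a normal `p`-complement and a unique character of degree divisible by `p` (helper76)

* `invariant_of_over`: if `G/K` is a `p`-group and some irreducible character of `p'`-degree lies
  over `θ ∈ Irr(K)`, then `θ` is `G`-invariant.
* `quotient_comm_of_unique_pdvd`: if `N ≠ 1` is a normal `p'`-subgroup of `p`-power index and `G`
  has at most one irreducible character of degree divisible by `p`, then `G/N` is abelian.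
-/

set_option autoImplicit false
set_option linter.style.haveILetI false

namespace Cfsg.Agent.Helper76

open Cfsg
open scoped commutatorElement

universe u

section oneChar

/-- If `G/K` is a `p`-group and an irreducible character of `G` of `p'`-degree lies over the
irreducible character `θ` of `K`, then `θ` is `G`-invariant. -/
theorem invariant_of_over {p : ℕ} [Fact p.Prime] {G : Type*} [Group G] [Fintype G]
    (K : Subgroup G) [K.Normal] [Fintype K] (hidx : ∃ a : ℕ, K.index = p ^ a)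
    {θ : K → ℂ} (hθ : IsIrrCharacter K θ) {χ : G → ℂ} (hχ : IsIrrCharacter G χ)
    (hne : classInner (fun n : K => χ n) θ ≠ 0) (hdeg : ¬ p ∣ charDegree χ) (g : G) :
    Helper75.conjFun K g θ = θ := by
  classical
  have hcl := Helper75.clifford_restrict K hχ hθ hne
  have h1 := congrFun hcl 1
  rw [Pi.smul_apply, Helper75.orbitSum_one, smul_eq_mul] at h1
  set T : Subgroup G := Helper75.inertia K θ with hT
  have hTcard : Nat.card {g : G // Helper75.conjFun K g θ = θ} = Nat.card T := rfl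
  rw [hTcard] at h1
  obtain ⟨m, hm⟩ := Helper3.classInner_isCharacter_nat
    (Helper79.isCharacter_restrict (Helper79.isCharacter_of_irr hχ) K)
    (Helper79.isCharacter_of_irr hθ)
  rw [hm] at h1
  have hχ1 : χ ((1 : K) : G) = (charDegree χ : ℂ) := by
    rw [Subgroup.coe_one]
    exact Helper79.isCharacter_one_eq_charDegree (Helper79.isCharacter_of_irr hχ)
  rw [hχ1, Helper79.isCharacter_one_eq_charDegree (Helper79.isCharacter_of_irr hθ)] at h1
  have hT0 : (Nat.card T : ℂ) ≠ 0 := by exact_mod_cast (Nat.card_pos (α := T)).ne'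
  have h2 : (Nat.card G : ℂ) / (Nat.card T : ℂ) = (T.index : ℂ) := by
    rw [← Subgroup.index_mul_card T]; push_cast; field_simp
  rw [h2] at h1
  have h3 : charDegree χ = m * (T.index * charDegree θ) := by exact_mod_cast h1
  have h4 : T.index ∣ charDegree χ := ⟨m * charDegree θ, by rw [h3]; ring⟩
  have hKT : K ≤ T := Helper75.le_inertia K θ
    (Helper79.isCharacter_isClassFunction (Helper79.isCharacter_of_irr hθ))
  obtain ⟨a, ha⟩ := hidx
  have h5 : T.index ∣ p ^ a := ha ▸ Subgroup.index_dvd_of_le hKT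
  obtain ⟨b, -, hb⟩ := (Nat.dvd_prime_pow Fact.out).mp h5
  have hb0 : b = 0 := by
    by_contra hb0
    exact hdeg (dvd_trans (hb ▸ dvd_pow_self p hb0) h4)
  rw [hb0, pow_zero] at hb
  have hTtop : T = ⊤ := Subgroup.index_eq_one.mp hb
  have hg : g ∈ T := hTtop ▸ Subgroup.mem_top g
  exact (Helper75.mem_inertia K θ g).mp hg

/-- An irreducible constituent of a constant function is the trivial character. -/
theorem eq_one_of_classInner_const_ne_zero {K : Type*} [Group K] [Fintype K] (c : ℂ)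
    (θ : IrrCharacter K) (h : classInner (fun _ : K => c) (θ : K → ℂ) ≠ 0) :
    (θ : K → ℂ) = fun _ => 1 := by
  by_contra hne
  apply h
  have e : (fun _ : K => c) = c • (fun _ : K => (1 : ℂ)) := by
    funext x; simp
  rw [e, Helper15.classInner_smul_left,
    Helper75.classInner_irr_of_ne Helper79.isIrrCharacter_one θ.2 (fun h' => hne h'.symm),
    mul_zero]

/-- If `N ≠ 1` is a normal `p'`-subgroup of `p`-power index and at most one irreducible
character of `G` has degree divisible by `p`, then `G/N` is abelian. -/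
theorem quotient_comm_of_unique_pdvd {G : Type u} [Group G] [Fintype G] (p : ℕ) [Fact p.Prime]
    (N : Subgroup G) [hNn : N.Normal] [Fintype N] (hN1 : N ≠ ⊥) (hN : (Nat.card N).Coprime p)
    (hidx : ∃ k : ℕ, N.index = p ^ k)
    (hone : ∀ χ ψ : IrrCharacter G, p ∣ charDegree (χ : G → ℂ) →
      p ∣ charDegree (ψ : G → ℂ) → χ = ψ) :
    ∀ a b : G ⧸ N, a * b = b * a := by
  classical
  by_contra hcon
  have hp : p.Prime := Fact.out
  obtain ⟨k, hk⟩ := hidx
  have hQ : IsPGroup p (G ⧸ N) :=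
    IsPGroup.of_card (n := k) (by rw [← Subgroup.index_eq_card]; exact hk)
  have hc : commutator (G ⧸ N) ≠ ⊥ := by
    intro h0
    apply hcon
    intro a b
    have h1 : ⁅a, b⁆ ∈ commutator (G ⧸ N) :=
      Subgroup.commutator_mem_commutator (Subgroup.mem_top a) (Subgroup.mem_top b)
    rw [h0, Subgroup.mem_bot, commutatorElement_eq_one_iff_mul_comm] at h1
    exact h1
  obtain ⟨β, hβ⟩ := Helper79.exists_nonlinear_of_commutator_ne_bot hc
  have hβp : p ∣ charDegree (β : G ⧸ N → ℂ) :=
    (Helper79.irr_pgroup_dvd_degree_iff hQ β).mpr hβ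
  -- the inflation of `β`
  have hβt : IsIrrCharacter G (fun g : G => (β : G ⧸ N → ℂ) (QuotientGroup.mk' N g)) :=
    Helper79.isIrrCharacter_comp (QuotientGroup.mk' N) (QuotientGroup.mk'_surjective N) β.2
  obtain ⟨βt, hβtdef⟩ : ∃ βt : G → ℂ,
      βt = fun g : G => (β : G ⧸ N → ℂ) (QuotientGroup.mk' N g) := ⟨_, rfl⟩
  rw [← hβtdef] at hβt
  have hβt1 : βt 1 = (β : G ⧸ N → ℂ) 1 := by
    rw [hβtdef]
    show (β : G ⧸ N → ℂ) (QuotientGroup.mk' N 1) = _
    rw [map_one]
  have hβtdeg : charDegree βt = charDegree (β : G ⧸ N → ℂ) := by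
    unfold charDegree
    rw [hβt1]
  have hβtN : ∀ n : N, βt n = (β : G ⧸ N → ℂ) 1 := by
    intro n
    rw [hβtdef]
    show (β : G ⧸ N → ℂ) (QuotientGroup.mk' N (n : G)) = _
    have : QuotientGroup.mk' N (n : G) = 1 := (QuotientGroup.eq_one_iff _).mpr n.2
    rw [this]
  have hβ1 : (β : G ⧸ N → ℂ) 1 ≠ 0 := Helper3.irr_apply_one_ne_zero β.2
  have hβtp : p ∣ charDegree βt := hβtdeg ▸ hβp
  -- a nontrivial irreducible character of `N`
  obtain ⟨n, hn, hn1⟩ : ∃ n : G, n ∈ N ∧ n ≠ 1 := by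
    by_contra h
    push Not at h
    exact hN1 ((Subgroup.eq_bot_iff_forall N).mpr h)
  obtain ⟨θ, hθn⟩ : ∃ θ : IrrCharacter N, (θ : N → ℂ) ⟨n, hn⟩ ≠ (θ : N → ℂ) 1 := by
    by_contra h
    push Not at h
    have h1 := Helper79.isConj_of_forall_irr_eq h
    have h2 := isConj_one_left.mp h1
    exact hn1 (congrArg Subtype.val h2)
  obtain ⟨χ, hχ, hne⟩ := Helper79.exists_irr_over_normal N θ.2
  have hconst : (fun m : N => βt m) = fun _ : N => (β : G ⧸ N → ℂ) 1 := funext hβtN
  have hχβ : χ ≠ βt := by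
    intro h
    rw [h, hconst] at hne
    have h1 := eq_one_of_classInner_const_ne_zero _ θ hne
    apply hθn
    rw [h1]
  have hχdeg : ¬ p ∣ charDegree χ := by
    intro h
    have h1 := hone ⟨χ, hχ⟩ ⟨βt, hβt⟩ h hβtp
    exact hχβ (congrArg Subtype.val h1)
  have hinv : ∀ (g : G) (m : N),
      (θ : N → ℂ) ⟨g * m * g⁻¹, hNn.conj_mem (m : G) m.2 g⟩ = (θ : N → ℂ) m := by
    intro g m
    have h1 := invariant_of_over N ⟨k, hk⟩ θ.2 hχ hne hχdeg g
    exact congrFun h1 m
  have hcop : (Nat.card N).Coprime N.index := by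
    rw [hk]; exact Nat.Coprime.pow_right k hN
  obtain ⟨χe, hχe⟩ := Helper74.exists_ext_of_coprime N hcop θ hinv
  -- Gallagher
  have hprod : IsIrrCharacter N ((fun _ : N => (1 : ℂ)) * (θ : N → ℂ)) := by
    have e : ((fun _ : N => (1 : ℂ)) * (θ : N → ℂ)) = θ := by funext x; simp
    rw [e]; exact θ.2
  have hβφ : classInner (indFun N (fun _ : N => (1 : ℂ))) βt ≠ 0 := by
    rw [Helper3.frobenius_reciprocity N _ βt
      (Helper79.isCharacter_isClassFunction (Helper79.isCharacter_of_irr hβt)), hconst]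
    unfold classInner
    rw [Finset.sum_const, Finset.card_univ, nsmul_eq_mul, one_mul, Nat.card_eq_fintype_card,
      ← mul_assoc, inv_mul_cancel₀ (by exact_mod_cast Fintype.card_ne_zero), one_mul]
    exact (map_ne_zero _).mpr hβ1
  obtain ⟨hirr, -⟩ := Helper15.gallagher_mul_irr N (fun _ => 1) (θ : N → ℂ)
    Helper79.isIrrCharacter_one (fun _ _ => rfl) hprod (χe : G → ℂ) (Helper79.irr_isCharacter χe)
    hχe βt hβt hβφ
  have hχe1 : (χe : G → ℂ) 1 = (θ : N → ℂ) 1 := hχe 1
  have hdeg2 : p ∣ charDegree (βt * (χe : G → ℂ)) := by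
    have h1 : (βt * (χe : G → ℂ)) 1 =
        ((charDegree βt * charDegree (χe : G → ℂ) : ℕ) : ℂ) := by
      rw [Pi.mul_apply, Helper79.isCharacter_one_eq_charDegree (Helper79.isCharacter_of_irr hβt),
        Helper79.isCharacter_one_eq_charDegree (Helper79.irr_isCharacter χe)]
      push_cast
      rfl
    rw [Helper75.charDegree_of_one_eq_nat h1]
    exact Dvd.dvd.mul_right hβtp _
  have h5 := hone ⟨βt * (χe : G → ℂ), hirr⟩ ⟨βt, hβt⟩ hdeg2 hβtp
  have h6 : βt * (χe : G → ℂ) = βt := congrArg Subtype.val h5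
  have h7 := congrFun h6 n
  have h8 := congrFun h6 1
  rw [Pi.mul_apply] at h7 h8
  have e1 : βt n = (β : G ⧸ N → ℂ) 1 := hβtN ⟨n, hn⟩
  have e2 : (χe : G → ℂ) n = (θ : N → ℂ) ⟨n, hn⟩ := hχe ⟨n, hn⟩
  rw [e1, e2] at h7
  rw [hβt1, hχe1] at h8
  have h9 : (θ : N → ℂ) ⟨n, hn⟩ = 1 := by
    have := mul_left_cancel₀ hβ1 (h7.trans (mul_one _).symm)
    exact this
  have h10 : (θ : N → ℂ) 1 = 1 := by
    have := mul_left_cancel₀ hβ1 (h8.trans (mul_one _).symm)
    exact this
  exact hθn (h9.trans h10.symm)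

end oneChar

end Cfsg.Agent.Helper76
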