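import Cfsg.Agent.Helper76.OneChar
import Cfsg.Agent.Helper76.SylowTools
import Cfsg.Agent.Helper74.PDeg4

/-!
# Counting classes of `p'`-size when a Sylow subgroup is abelian with `N(P) = C(P)` (helper76)

* `card_carrier_eq_index_centralizer`: the size of a conjugacy class.
* `card_pPrime_classes`: if `N_G(P) ≤ C ≤ C_G(P)` then the conjugacy classes of `G` of size prime
  to `p` are in bijection with the conjugacy classes of `C` (Burnside's fusion theorem).
* `card_pdvd_classes_eq_one`: a non-nilpotent group with a normal `p`-complement and exactly one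
  irreducible character of degree divisible by `p` has exactly one class of size divisible by `p`.
-/

set_option autoImplicit false
set_option linter.style.haveILetI false

namespace Cfsg.Agent.Helper76

open Cfsg

universe u

section oneClass

variable {G : Type u} [Group G]

/-- The size of a conjugacy class is the index of the centralizer. -/
theorem card_carrier_eq_index_centralizer [Finite G] (x : G) :
    Nat.card (ConjClasses.mk x).carrier = (Subgroup.centralizer ({x} : Set G)).index := by
  rw [← ConjAct.orbit_eq_carrier_conjClasses, Nat.card_coe_set_eq, ← MulAction.index_stabilizer]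
  have h1 := Subgroup.index_mul_card (MulAction.stabilizer (ConjAct G) x)
  have h2 := Subgroup.index_mul_card (Subgroup.centralizer ({x} : Set G))
  rw [Subgroup.nat_card_centralizer_nat_card_stabilizer] at h2
  have h3 : Nat.card (ConjAct G) = Nat.card G := rfl
  rw [h3, ← h2] at h1
  have hpos : 0 < Nat.card (MulAction.stabilizer (ConjAct G) x) := by
    rw [← Subgroup.nat_card_centralizer_nat_card_stabilizer]; exact Nat.card_pos
  exact Nat.eq_of_mul_eq_mul_right hpos h1

/-- If `N_G(P) ≤ C ≤ C_G(P)` for a Sylow `p`-subgroup `P`, the conjugacy classes of `G` of size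
prime to `p` are in bijection with the conjugacy classes of `C`. -/
theorem card_pPrime_classes [Finite G] {p : ℕ} [Fact p.Prime] (P : Sylow p G) (C : Subgroup G)
    (hC1 : ∀ c ∈ C, ∀ x ∈ (P : Subgroup G), c * x = x * c)
    (hC2 : Subgroup.normalizer ((P : Subgroup G) : Set G) ≤ C) :
    Nat.card {K : ConjClasses G // ¬ p ∣ Nat.card K.carrier} = Nat.card (ConjClasses C) := by
  classical
  have hsize : ∀ c : C, ¬ p ∣ Nat.card (ConjClasses.mk (c : G)).carrier := by
    intro c
    rw [card_carrier_eq_index_centralizer]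
    have hle : (P : Subgroup G) ≤ Subgroup.centralizer ({(c : G)} : Set G) := by
      intro x hx
      rw [Subgroup.mem_centralizer_iff]
      intro y hy
      rw [Set.mem_singleton_iff] at hy
      subst hy
      exact hC1 c c.2 x hx
    exact fun h => P.not_dvd_index (dvd_trans h (Subgroup.index_dvd_of_le hle))
  let f : ConjClasses C → {K : ConjClasses G // ¬ p ∣ Nat.card K.carrier} := fun c =>
    ⟨ConjClasses.map C.subtype c, by
      obtain ⟨x, rfl⟩ := ConjClasses.exists_rep c
      exact hsize x⟩
  have hcent : ∀ c ∈ C, c ∈ Subgroup.centralizer ((P : Subgroup G) : Set G) := by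
    intro c hc
    rw [Subgroup.mem_centralizer_iff]
    intro z hz
    exact (hC1 c hc z hz).symm
  have hinj : Function.Injective f := by
    intro c c' h
    obtain ⟨x, rfl⟩ := ConjClasses.exists_rep c
    obtain ⟨y, rfl⟩ := ConjClasses.exists_rep c'
    have h1 : ConjClasses.mk (x : G) = ConjClasses.mk (y : G) := congrArg Subtype.val h
    rw [ConjClasses.mk_eq_mk_iff_isConj, isConj_iff] at h1
    obtain ⟨g, hg⟩ := h1
    have hx := hcent x x.2
    have hy : g⁻¹⁻¹ * (x : G) * g⁻¹ ∈ Subgroup.centralizer ((P : Subgroup G) : Set G) := by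
      rw [inv_inv, hg]; exact hcent y y.2
    obtain ⟨n, hn, hn2⟩ := P.conj_eq_normalizer_conj_of_mem_centralizer (x : G) g⁻¹ hx hy
    rw [inv_inv, hg] at hn2
    rw [ConjClasses.mk_eq_mk_iff_isConj, isConj_iff]
    refine ⟨⟨n⁻¹, C.inv_mem (hC2 hn)⟩, ?_⟩
    apply Subtype.ext
    simp only [Subgroup.coe_mul, Subgroup.coe_inv, inv_inv]
    exact hn2.symm
  have hsurj : Function.Surjective f := by
    rintro ⟨K, hK⟩
    obtain ⟨g, rfl⟩ := ConjClasses.exists_rep K
    rw [card_carrier_eq_index_centralizer] at hK
    obtain ⟨Q, hQ⟩ := exists_sylow_le_of_not_dvd_index _ hK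
    obtain ⟨t, ht⟩ := MulAction.exists_smul_eq G Q P
    have hmem : t * g * t⁻¹ ∈ C := by
      apply hC2
      apply Subgroup.centralizer_le_normalizer
      rw [Subgroup.mem_centralizer_iff]
      intro z hz
      have hz' : z ∈ ((t • Q : Sylow p G) : Subgroup G) := by rw [ht]; exact hz
      rw [Sylow.coe_subgroup_smul, Subgroup.mem_pointwise_smul_iff_inv_smul_mem] at hz'
      have h2 := hQ hz'
      rw [Subgroup.mem_centralizer_iff] at h2
      have h3 := h2 g rfl
      simp only [MulAut.smul_def, MulAut.conj_inv_apply] at h3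
      calc z * (t * g * t⁻¹) = t * (t⁻¹ * z * t * g) * t⁻¹ := by group
        _ = t * (g * (t⁻¹ * z * t)) * t⁻¹ := by rw [← h3]
        _ = t * g * t⁻¹ * z := by group
    refine ⟨ConjClasses.mk ⟨t * g * t⁻¹, hmem⟩, ?_⟩
    apply Subtype.ext
    show ConjClasses.mk (t * g * t⁻¹) = ConjClasses.mk g
    rw [ConjClasses.mk_eq_mk_iff_isConj, isConj_iff]
    exact ⟨t⁻¹, by group⟩
  exact (Nat.card_congr (Equiv.ofBijective f ⟨hinj, hsurj⟩)).symm

/-- Splitting a finite type along a predicate. -/
theorem card_subtype_add_card_subtype_not {α : Type*} [Finite α] (q : α → Prop) :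
    Nat.card {a : α // q a} + Nat.card {a : α // ¬ q a} = Nat.card α := by
  classical
  rw [← Nat.card_sum]
  exact Nat.card_congr (Equiv.sumCompl q)

/-- A non-nilpotent finite group with a normal `p`-complement and exactly one irreducible
character of degree divisible by `p` has exactly one conjugacy class of size divisible by `p`. -/
theorem card_pdvd_classes_eq_one [Finite G] (p : ℕ) [Fact p.Prime]
    (hnil : ¬ Group.IsNilpotent G) (N : Subgroup G) [N.Normal] (hN : (Nat.card N).Coprime p)
    (hidx : ∃ k : ℕ, N.index = p ^ k)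
    (hone : Nat.card {χ : IrrCharacter G // p ∣ charDegree (χ : G → ℂ)} = 1) :
    Nat.card {C : ConjClasses G // p ∣ Nat.card C.carrier} = 1 := by
  classical
  haveI : Fintype G := Fintype.ofFinite G
  haveI : Fintype N := Fintype.ofFinite N
  have hp : p.Prime := Fact.out
  obtain ⟨k, hk⟩ := hidx
  -- `N ≠ 1`
  have hN1 : N ≠ ⊥ := by
    intro h0
    apply hnil
    have hG : Nat.card G = p ^ k := by
      rw [← Subgroup.index_mul_card N, hk, h0, Subgroup.card_bot, mul_one]
    exact (IsPGroup.of_card hG).isNilpotent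
  -- uniqueness
  have hone' : ∀ χ ψ : IrrCharacter G, p ∣ charDegree (χ : G → ℂ) →
      p ∣ charDegree (ψ : G → ℂ) → χ = ψ := by
    intro χ ψ h1 h2
    have hs : Subsingleton {χ : IrrCharacter G // p ∣ charDegree (χ : G → ℂ)} :=
      (Nat.card_eq_one_iff_unique.mp hone).1
    exact congrArg Subtype.val (hs.elim ⟨χ, h1⟩ ⟨ψ, h2⟩)
  have hcomm := quotient_comm_of_unique_pdvd p N hN1 hN ⟨k, hk⟩ hone'
  -- the Sylow subgroup
  have P : Sylow p G := default
  obtain ⟨a, ha⟩ := IsPGroup.iff_card.mp P.isPGroup'
  have hcop : (Nat.card N).Coprime (Nat.card (P : Subgroup G)) := by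
    rw [ha]; exact Nat.Coprime.pow_right a hN
  have hbot : N ⊓ (P : Subgroup G) = ⊥ :=
    disjoint_iff.mp (Subgroup.disjoint_of_coprime_natCard hcop)
  have hPcomm : ∀ x ∈ (P : Subgroup G), ∀ y ∈ (P : Subgroup G), x * y = y * x := by
    intro x hx y hy
    have h1 := hcomm (x : G ⧸ N) (y : G ⧸ N)
    have h2 : ((x * y : G) : G ⧸ N) = ((y * x : G) : G ⧸ N) := h1
    rw [QuotientGroup.eq] at h2
    have h3 : (x * y)⁻¹ * (y * x) ∈ N ⊓ (P : Subgroup G) :=
      ⟨h2, (P : Subgroup G).mul_mem ((P : Subgroup G).inv_mem ((P : Subgroup G).mul_mem hx hy))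
        ((P : Subgroup G).mul_mem hy hx)⟩
    rw [hbot, Subgroup.mem_bot] at h3
    have h4 : y * x = (x * y) * ((x * y)⁻¹ * (y * x)) := by group
    rw [h4, h3, mul_one]
  have hsup : N ⊔ (P : Subgroup G) = ⊤ := by
    rw [← Subgroup.index_eq_one]
    have h1 : (N ⊔ (P : Subgroup G)).index ∣ p ^ k := hk ▸ Subgroup.index_dvd_of_le le_sup_left
    have h2 : (N ⊔ (P : Subgroup G)).index ∣ (P : Subgroup G).index :=
      Subgroup.index_dvd_of_le le_sup_right
    obtain ⟨j, -, hj⟩ := (Nat.dvd_prime_pow hp).mp h1
    by_contra hne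
    have hj0 : j ≠ 0 := by
      intro h0
      rw [h0, pow_zero] at hj
      exact hne hj
    exact P.not_dvd_index (dvd_trans (hj ▸ dvd_pow_self p hj0) h2)
  have hNC : ∀ g ∈ Subgroup.normalizer ((P : Subgroup G) : Set G), ∀ x ∈ (P : Subgroup G),
      g * x = x * g := by
    intro g hg x hx
    have hgt : g ∈ N ⊔ (P : Subgroup G) := by rw [hsup]; trivial
    obtain ⟨n, hn, y, hy, rfl⟩ := Subgroup.mem_sup_of_normal_left.mp hgt
    have hnN : n ∈ Subgroup.normalizer ((P : Subgroup G) : Set G) := by
      have e : n = (n * y) * y⁻¹ := by group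
      rw [e]
      exact Subgroup.mul_mem _ hg (Subgroup.inv_mem _ (Subgroup.le_normalizer hy))
    have h1 := Helper74.commute_of_mem_normalizer N (P : Subgroup G) hbot hn hnN hx
    have h2 := hPcomm y hy x hx
    calc n * y * x = n * (y * x) := by group
      _ = n * (x * y) := by rw [h2]
      _ = (n * x) * y := by group
      _ = (x * n) * y := by rw [h1]
      _ = x * (n * y) := by group
  -- `p` divides `|P|`
  have ha0 : a ≠ 0 := by
    intro h0
    have hχ : Nonempty {χ : IrrCharacter G // p ∣ charDegree (χ : G → ℂ)} :=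
      (Nat.card_eq_one_iff_unique.mp hone).2
    obtain ⟨χ, hχ⟩ := hχ
    have h1 : p ∣ Nat.card G := dvd_trans hχ (Helper79.irr_charDegree_dvd_card χ)
    have h2 : Nat.card (P : Subgroup G) = 1 := by rw [ha, h0, pow_zero]
    have h3 := P.card_eq_multiplicity
    rw [h2] at h3
    have h4 : (Nat.card G).factorization p = 0 := by
      by_contra hne
      have : 1 < p ^ (Nat.card G).factorization p := Nat.one_lt_pow hne hp.one_lt
      omega
    have h5 := (Nat.factorization_eq_zero_iff _ _).mp h4
    rcases h5 with h5 | h5 | h5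
    · exact h5 hp
    · exact h5 h1
    · exact (Nat.card_pos (α := G)).ne' h5
  have hiff : ∀ d : ℕ, d.Coprime (Nat.card (P : Subgroup G)) ↔ ¬ p ∣ d := by
    intro d
    rw [ha, Nat.coprime_pow_right_iff (Nat.pos_of_ne_zero ha0), Nat.coprime_comm,
      Nat.Prime.coprime_iff_not_dvd hp]
  -- the McKay count
  have hsolv : Group.IsSolvable (P : Subgroup G) := by
    haveI : Group.IsNilpotent (P : Subgroup G) := P.isPGroup'.isNilpotent
    infer_instance
  have hmk := Helper74.card_pdeg_normalizer N (P : Subgroup G) hsup hcop hsolv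
  have e1 : Nat.card {χ : IrrCharacter G // ¬ p ∣ charDegree (χ : G → ℂ)} =
      Nat.card {χ : IrrCharacter G //
        (charDegree (χ : G → ℂ)).Coprime (Nat.card (P : Subgroup G))} :=
    Nat.card_congr (Equiv.subtypeEquivRight (fun χ => (hiff _).symm))
  -- all characters of the normalizer have `p'`-degree
  have hNAS : Helper79.HasNormalAbelianSylow p
      (Subgroup.normalizer ((P : Subgroup G) : Set G)) := by
    refine ⟨(P : Subgroup G).subgroupOf (Subgroup.normalizer ((P : Subgroup G) : Set G)),
      inferInstance, ?_, ?_, ?_⟩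
    · exact P.isPGroup'.comap_of_injective _ (Subgroup.subtype_injective _)
    · intro h
      have h1 : (P : Subgroup G).relIndex (Subgroup.normalizer ((P : Subgroup G) : Set G)) ∣
          (P : Subgroup G).index := Subgroup.relIndex_dvd_index_of_le Subgroup.le_normalizer
      exact P.not_dvd_index (dvd_trans h h1)
    · intro x hx y hy
      apply Subtype.ext
      exact hPcomm _ (Subgroup.mem_subgroupOf.mp hx) _ (Subgroup.mem_subgroupOf.mp hy)
  have hdeg := Helper79.pPrimeDeg_of_hasNormalAbelianSylow p hNAS
  have e2 : Nat.card {η : IrrCharacter (Subgroup.normalizer ((P : Subgroup G) : Set G)) //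
      (charDegree (η : Subgroup.normalizer ((P : Subgroup G) : Set G) → ℂ)).Coprime
        (Nat.card (P : Subgroup G))} =
      Nat.card (IrrCharacter (Subgroup.normalizer ((P : Subgroup G) : Set G))) :=
    Nat.card_congr (Equiv.subtypeUnivEquiv (fun η => (hiff _).mpr (hdeg η.1 η.2)))
  have e3 : Nat.card (IrrCharacter (Subgroup.normalizer ((P : Subgroup G) : Set G))) =
      Nat.card (ConjClasses (Subgroup.normalizer ((P : Subgroup G) : Set G))) := by
    haveI : Fintype (Subgroup.normalizer ((P : Subgroup G) : Set G)) := Fintype.ofFinite _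
    haveI : Fintype (IrrCharacter (Subgroup.normalizer ((P : Subgroup G) : Set G))) :=
      Fintype.ofFinite _
    rw [Nat.card_eq_fintype_card]
    convert Helper80.card_irr_eq_card_conjClasses
      (G := Subgroup.normalizer ((P : Subgroup G) : Set G))
  have e4 : Nat.card (IrrCharacter G) = Nat.card (ConjClasses G) := by
    haveI : Fintype (IrrCharacter G) := Fintype.ofFinite _
    rw [Nat.card_eq_fintype_card]
    convert Helper80.card_irr_eq_card_conjClasses (G := G)
  have e5 := card_pPrime_classes P (Subgroup.normalizer ((P : Subgroup G) : Set G)) hNC le_rfl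
  have e6 := card_subtype_add_card_subtype_not
    (fun χ : IrrCharacter G => p ∣ charDegree (χ : G → ℂ))
  have e7 := card_subtype_add_card_subtype_not
    (fun K : ConjClasses G => p ∣ Nat.card K.carrier)
  rw [hone, e1, hmk, e2, e3] at e6
  rw [e5] at e7
  omega

end oneClass

end Cfsg.Agent.Helper76
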