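-- helper76: piece PLANE of CALL S0980 (helper8): a 2-(16,4,1) design (affine plane of order 4)
-- with a block-transitive group gives a proper subgroup of index ≤ 5 (stabiliser of a parallel class).
import Mathlib

set_option autoImplicit false
open scoped Pointwise

namespace Cfsg.Agent.Helper76

section Plane16

variable {G : Type*} [Group G] {Ω : Type*} [MulAction G Ω]

theorem pl16_card (L : Set Ω) (hLn : L.ncard = 4) (g : G) : (g • L).ncard = 4 := by
  rw [← Set.image_smul, Set.ncard_image_of_injective _ (MulAction.injective g), hLn]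

/-- At most five blocks through a point. -/
theorem pl16_c5 [Finite Ω] (hΩ : Nat.card Ω = 16) (L : Set Ω) (hLn : L.ncard = 4)
    (huniq : ∀ (g h : G) (a b : Ω), a ≠ b → a ∈ g • L → b ∈ g • L → a ∈ h • L → b ∈ h • L →
      g • L = h • L)
    (a : Ω) {ι : Type*} [Finite ι] (F : ι → G) (hinj : ∀ i j, F i • L = F j • L → i = j)
    (ha : ∀ i, a ∈ F i • L) : Nat.card ι ≤ 5 := by
  classical
  have : Fintype ι := Fintype.ofFinite ι
  have hf : Function.Injective
      (fun p : (Σ i : ι, ↥((F i • L) \ {a})) =>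
        (⟨(p.2 : Ω), ⟨Set.mem_univ _, p.2.2.2⟩⟩ : ↥((Set.univ : Set Ω) \ {a}))) := by
    rintro ⟨i, c, hc⟩ ⟨j, d, hd⟩ h
    have hcd : c = d := congrArg Subtype.val h
    subst hcd
    have hca : a ≠ c := fun e => hc.2 (by rw [e]; rfl)
    have hij : i = j := hinj i j (huniq (F i) (F j) a c hca (ha i) hc.1 (ha j) hd.1)
    subst hij
    rfl
  have h1 := Nat.card_le_card_of_injective _ hf
  rw [Nat.card_sigma] at h1
  have h2 : ∀ i : ι, Nat.card ↥((F i • L) \ {a}) = 3 := by
    intro i
    rw [Nat.card_coe_set_eq, Set.ncard_sdiff_singleton_of_mem (ha i), pl16_card L hLn]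
  have h3 : Nat.card ↥((Set.univ : Set Ω) \ {a}) = 15 := by
    rw [Nat.card_coe_set_eq, Set.ncard_sdiff_singleton_of_mem (Set.mem_univ a), Set.ncard_univ, hΩ]
  simp only [h2] at h1
  rw [Finset.sum_const, Finset.card_univ, smul_eq_mul, h3, ← Nat.card_eq_fintype_card] at h1
  omega

/-- Playfair, existence. -/
theorem pl16_exists_par [Finite Ω] (hΩ : Nat.card Ω = 16) (L : Set Ω) (hLn : L.ncard = 4)
    (hex : ∀ a b : Ω, a ≠ b → ∃ g : G, a ∈ g • L ∧ b ∈ g • L)
    (huniq : ∀ (g h : G) (a b : Ω), a ≠ b → a ∈ g • L → b ∈ g • L → a ∈ h • L → b ∈ h • L →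
      g • L = h • L)
    (b : G) (a : Ω) (ha : a ∉ b • L) : ∃ g : G, a ∈ g • L ∧ Disjoint (g • L) (b • L) := by
  classical
  by_contra hcon
  push Not at hcon
  have hJ : ∀ x : ↥(b • L), ∃ g : G, a ∈ g • L ∧ (x : Ω) ∈ g • L :=
    fun x => hex a x (by rintro rfl; exact ha x.2)
  choose J hJ1 hJ2 using hJ
  have hD : ∀ c : ↥((Set.univ : Set Ω) \ {a}), ∃ x : ↥(b • L), (c : Ω) ∈ J x • L := by
    intro c
    have hac : a ≠ (c : Ω) := fun e => c.2.2 (Set.mem_singleton_iff.mpr e.symm)
    obtain ⟨g, hg1, hg2⟩ := hex a c hac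
    obtain ⟨x, hx1, hx2⟩ := Set.not_disjoint_iff.mp (hcon g hg1)
    refine ⟨⟨x, hx2⟩, ?_⟩
    have hax : a ≠ x := by rintro rfl; exact ha hx2
    have e := huniq g (J ⟨x, hx2⟩) a x hax hg1 hx1 (hJ1 _) (hJ2 _)
    rw [← e]
    exact hg2
  choose xc hxc using hD
  have : Fintype ↥(b • L) := Fintype.ofFinite _
  have hf : Function.Injective
      (fun c : ↥((Set.univ : Set Ω) \ {a}) =>
        (⟨xc c, ⟨(c : Ω), hxc c, c.2.2⟩⟩ : Σ x : ↥(b • L), ↥((J x • L) \ {a}))) := by
    intro c d h
    have h' := congrArg (fun p : (Σ x : ↥(b • L), ↥((J x • L) \ {a})) => (p.2.1 : Ω)) h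
    exact Subtype.ext h'
  have h1 := Nat.card_le_card_of_injective _ hf
  rw [Nat.card_sigma] at h1
  have h2 : ∀ x : ↥(b • L), Nat.card ↥((J x • L) \ {a}) = 3 := by
    intro x
    rw [Nat.card_coe_set_eq, Set.ncard_sdiff_singleton_of_mem (hJ1 x), pl16_card L hLn]
  have h3 : Nat.card ↥((Set.univ : Set Ω) \ {a}) = 15 := by
    rw [Nat.card_coe_set_eq, Set.ncard_sdiff_singleton_of_mem (Set.mem_univ a), Set.ncard_univ, hΩ]
  have h4 : Fintype.card ↥(b • L) = 4 := by
    rw [← Nat.card_eq_fintype_card, Nat.card_coe_set_eq, pl16_card L hLn]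
  simp only [h2] at h1
  rw [Finset.sum_const, Finset.card_univ, smul_eq_mul, h3, h4] at h1
  omega

/-- Playfair, uniqueness. -/
theorem pl16_par_unique [Finite Ω] (hΩ : Nat.card Ω = 16) (L : Set Ω) (hLn : L.ncard = 4)
    (hex : ∀ a b : Ω, a ≠ b → ∃ g : G, a ∈ g • L ∧ b ∈ g • L)
    (huniq : ∀ (g h : G) (a b : Ω), a ≠ b → a ∈ g • L → b ∈ g • L → a ∈ h • L → b ∈ h • L →
      g • L = h • L)
    (b : G) (a : Ω) (ha : a ∉ b • L) (g h : G) (hg : a ∈ g • L) (hh : a ∈ h • L)
    (hgd : Disjoint (g • L) (b • L)) (hhd : Disjoint (h • L) (b • L)) : g • L = h • L := by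
  classical
  by_contra hne
  have hJ : ∀ x : ↥(b • L), ∃ k : G, a ∈ k • L ∧ (x : Ω) ∈ k • L :=
    fun x => hex a x (by rintro rfl; exact ha x.2)
  choose J hJ1 hJ2 using hJ
  have hgJ : ∀ x : ↥(b • L), g • L ≠ J x • L := by
    intro x e
    have : (x : Ω) ∈ g • L := by rw [e]; exact hJ2 x
    exact Set.disjoint_left.mp hgd this x.2
  have hhJ : ∀ x : ↥(b • L), h • L ≠ J x • L := by
    intro x e
    have : (x : Ω) ∈ h • L := by rw [e]; exact hJ2 x
    exact Set.disjoint_left.mp hhd this x.2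
  have hJJ : ∀ x y : ↥(b • L), J x • L = J y • L → x = y := by
    intro x y e
    by_contra hxy
    have hxy' : (x : Ω) ≠ (y : Ω) := fun e' => hxy (Subtype.ext e')
    have hy : (y : Ω) ∈ J x • L := by rw [e]; exact hJ2 y
    have e2 := huniq (J x) b x y hxy' (hJ2 x) hy x.2 y.2
    apply ha
    rw [← e2]
    exact hJ1 x
  have key := pl16_c5 hΩ L hLn huniq a
    (fun o : Option (Option ↥(b • L)) =>
      match o with
      | none => g
      | some none => h
      | some (some x) => J x)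
    (by
      rintro (_ | _ | x) (_ | _ | y) e
      · rfl
      · exact absurd e hne
      · exact absurd e (hgJ y)
      · exact absurd e.symm hne
      · rfl
      · exact absurd e (hhJ y)
      · exact absurd e.symm (hgJ x)
      · exact absurd e.symm (hhJ x)
      · rw [hJJ x y e])
    (by
      rintro (_ | _ | x)
      · exact hg
      · exact hh
      · exact hJ1 x)
  rw [Finite.card_option, Finite.card_option, Nat.card_coe_set_eq, pl16_card L hLn] at key
  omega

end Plane16

theorem plane16 {G : Type*} [Group G] [Finite G] {Ω : Type*} [MulAction G Ω]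
    (hΩ : Nat.card Ω = 16) (L : Set Ω) (hL : Nat.card L = 4)
    (hex : ∀ a b : Ω, a ≠ b → ∃ g : G, a ∈ g • L ∧ b ∈ g • L)
    (huniq : ∀ (g h : G) (a b : Ω), a ≠ b → a ∈ g • L → b ∈ g • L → a ∈ h • L → b ∈ h • L →
      g • L = h • L) :
    ∃ K : Subgroup G, K ≠ ⊤ ∧ K.index ≤ 5 := by
  classical
  have hfin : Finite Ω := Nat.finite_of_card_ne_zero (by omega)
  have hLn : L.ncard = 4 := by
    rw [← Nat.card_coe_set_eq]
    exact hL
  -- parallelism on blocks
  have hsymm : ∀ g h : G, (g • L = h • L ∨ Disjoint (g • L) (h • L)) →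
      (h • L = g • L ∨ Disjoint (h • L) (g • L)) := by
    rintro g h (e | d)
    · exact Or.inl e.symm
    · exact Or.inr d.symm
  have hcompat : ∀ x g h : G, (g • L = h • L ∨ Disjoint (g • L) (h • L)) →
      ((x * g) • L = (x * h) • L ∨ Disjoint ((x * g) • L) ((x * h) • L)) := by
    intro x g h hp
    rw [mul_smul, mul_smul]
    rcases hp with e | d
    · left
      rw [e]
    · right
      exact Set.disjoint_smul_set.mpr d
  have htrans : ∀ g h k : G, (g • L = h • L ∨ Disjoint (g • L) (h • L)) →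
      (h • L = k • L ∨ Disjoint (h • L) (k • L)) →
      (g • L = k • L ∨ Disjoint (g • L) (k • L)) := by
    intro g h k h1 h2
    rcases h1 with e1 | d1
    · rw [e1]
      exact h2
    rcases h2 with e2 | d2
    · rw [← e2]
      exact Or.inr d1
    by_contra hn
    push Not at hn
    obtain ⟨hne, hnd⟩ := hn
    obtain ⟨a, ha1, ha2⟩ := Set.not_disjoint_iff.mp hnd
    have hah : a ∉ h • L := fun hm => Set.disjoint_left.mp d1 ha1 hm
    exact hne (pl16_par_unique hΩ L hLn hex huniq h a hah g k ha1 ha2 d1 d2.symm)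
  -- the subgroup
  let K : Subgroup G :=
    { carrier := {g | g • L = (1 : G) • L ∨ Disjoint (g • L) ((1 : G) • L)}
      one_mem' := Or.inl rfl
      mul_mem' := by
        intro g h hg hh
        have h1 := hcompat g h 1 hh
        rw [mul_one] at h1
        exact htrans (g * h) g 1 h1 hg
      inv_mem' := by
        intro g hg
        have h1 := hcompat g⁻¹ g 1 hg
        rw [inv_mul_cancel, mul_one] at h1
        exact hsymm 1 g⁻¹ h1 }
  have hKmem : ∀ g : G, g ∈ K ↔ (g • L = (1 : G) • L ∨ Disjoint (g • L) ((1 : G) • L)) :=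
    fun g => Iff.rfl
  -- a point of L and a point outside L
  have hLne : L.Nonempty := by
    apply Set.nonempty_of_ncard_ne_zero
    rw [hLn]
    norm_num
  obtain ⟨a, haL⟩ := hLne
  obtain ⟨b, hbL⟩ : ∃ b : Ω, b ∉ L := by
    by_contra hcon
    push Not at hcon
    have : L = Set.univ := Set.eq_univ_of_forall hcon
    rw [this, Set.ncard_univ, hΩ] at hLn
    omega
  refine ⟨K, ?_, ?_⟩
  · intro htop
    have hab : a ≠ b := by
      rintro rfl
      exact hbL haL
    obtain ⟨g, hg1, hg2⟩ := hex a b hab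
    have hgK : g ∈ K := by
      rw [htop]
      exact Subgroup.mem_top g
    rcases (hKmem g).mp hgK with e | d
    · rw [one_smul] at e
      rw [e] at hg2
      exact hbL hg2
    · rw [one_smul] at d
      exact Set.disjoint_left.mp d hg1 haL
  · have hP1 : ∀ g : G, ∃ g' : G, a ∈ g' • L ∧ (g' • L = g • L ∨ Disjoint (g' • L) (g • L)) := by
      intro g
      by_cases hag : a ∈ g • L
      · exact ⟨g, hag, Or.inl rfl⟩
      · obtain ⟨g', h1, h2⟩ := pl16_exists_par hΩ L hLn hex huniq g a hag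
        exact ⟨g', h1, Or.inr h2⟩
    choose φ hφ1 hφ2 using hP1
    have key := pl16_c5 hΩ L hLn huniq a (fun q : G ⧸ K => φ q.out)
      (by
        intro i j e
        have h1 := hsymm _ _ (hφ2 i.out)
        rw [e] at h1
        have h2 := htrans _ _ _ h1 (hφ2 j.out)
        have h3 := hcompat (i.out)⁻¹ _ _ h2
        rw [inv_mul_cancel] at h3
        have h4 : (i.out)⁻¹ * j.out ∈ K := (hKmem _).mpr (hsymm _ _ h3)
        have h5 : ((i.out : G) : G ⧸ K) = ((j.out : G) : G ⧸ K) := QuotientGroup.eq.mpr h4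
        rw [QuotientGroup.out_eq', QuotientGroup.out_eq'] at h5
        exact h5)
      (fun q => hφ1 q.out)
    exact key

end Cfsg.Agent.Helper76
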