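import Cfsg.Agent.Helper76.PQSub
import Cfsg.Agent.Helper74.GlaubCount3
import Cfsg.Agent.Helper74.PDeg2
import Cfsg.Agent.Helper35.HallCoprime
import Cfsg.Agent.Helper21.Coprime
import Cfsg.Agent.Helper68.PComp

/-!
# `PQDeg` and coprime action (helper76)

Setting: `Γ = B Q P` with `B` a normal `{p,q}'`-subgroup, `Q` a `q`-subgroup normalized by the
`p`-subgroup `P`, `|Γ| = |B||Q||P|`, and `PQDeg p q Γ`.

* `invariant_of_pqDeg`: every `P`-invariant irreducible character of `B` is `Γ`-invariant.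
* `centralizer_le_of_pqDeg`: `C_B(P) ≤ C_B(Q)`.
-/

set_option autoImplicit false
set_option linter.style.haveILetI false

namespace Cfsg.Agent.Helper76

open Cfsg

universe u

section count

variable {p q : ℕ} [hp : Fact p.Prime] [hq : Fact q.Prime] {Γ : Type u} [Group Γ] [Finite Γ]

omit hq in
theorem isSolvable_of_isPGroup {P : Subgroup Γ} (hP : IsPGroup p P) : Group.IsSolvable P := by
  haveI := hP.isNilpotent
  infer_instance

omit hq in
theorem card_index_sup_eq (B P Q : Subgroup Γ) [hB : B.Normal]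
    (hBp : (Nat.card B).Coprime p) (hP : IsPGroup p P)
    (hcard : Nat.card Γ = Nat.card B * Nat.card Q * Nat.card P) :
    (B ⊔ P).index = Nat.card Q := by
  have hPB : P ≤ Subgroup.normalizer (B : Set Γ) := by
    rw [Subgroup.normalizer_eq_top]; exact le_top
  have hbot : B ⊓ P = ⊥ := by
    obtain ⟨k, hk⟩ := IsPGroup.iff_card.mp hP
    have hc : (Nat.card B).Coprime (Nat.card P) := by rw [hk]; exact Nat.Coprime.pow_right k hBp
    exact disjoint_iff.mp (Subgroup.disjoint_of_coprime_natCard hc)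
  have h1 := Helper35.card_sup_of_le_normalizer hPB hbot
  have h2 := (B ⊔ P).index_mul_card
  rw [hcard, h1] at h2
  have hpos : 0 < Nat.card B * Nat.card P := Nat.mul_pos Nat.card_pos Nat.card_pos
  have h3 : (B ⊔ P).index * (Nat.card B * Nat.card P) = Nat.card Q * (Nat.card B * Nat.card P) := by
    rw [h2]; ring
  exact Nat.eq_of_mul_eq_mul_right hpos h3

/-- Every `P`-invariant irreducible character of `B` is `Γ`-invariant. -/
theorem invariant_of_pqDeg (hpq : p ≠ q) (h : PQDeg p q Γ) (B P Q : Subgroup Γ) [hB : B.Normal]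
    [Fintype B]
    (hBp : (Nat.card B).Coprime p) (hP : IsPGroup p P) (hQ : IsPGroup q Q)
    (hcard : Nat.card Γ = Nat.card B * Nat.card Q * Nat.card P) (φ : IrrCharacter B)
    (hinv : ∀ s ∈ P, ∀ g g' : B, (g' : Γ) = s * g * s⁻¹ → (φ : B → ℂ) g' = (φ : B → ℂ) g) :
    ∀ s : Γ, ∀ g g' : B, (g' : Γ) = s * g * s⁻¹ → (φ : B → ℂ) g' = (φ : B → ℂ) g := by
  classical
  letI : Fintype Γ := Fintype.ofFinite Γ
  set X : Subgroup Γ := B ⊔ P with hXdef
  letI : Fintype X := Fintype.ofFinite X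
  have hBX : B ≤ X := le_sup_left
  have hPX : P ≤ X := le_sup_right
  have hidx : X.index = Nat.card Q := card_index_sup_eq B P Q hBp hP hcard
  obtain ⟨kP, hkP⟩ := IsPGroup.iff_card.mp hP
  obtain ⟨kQ, hkQ⟩ := IsPGroup.iff_card.mp hQ
  set e : ↥(B.subgroupOf X) ≃* ↥B := Subgroup.subgroupOfEquivOfLe hBX with he
  have hclass : IsClassFunction B (φ : B → ℂ) :=
    Helper79.isCharacter_isClassFunction (Helper79.irr_isCharacter φ)
  -- the character on `B.subgroupOf X`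
  let θ : IrrCharacter ↥(B.subgroupOf X) :=
    ⟨fun k => (φ : B → ℂ) (e k), (Helper79.isIrrCharacter_mulEquiv e).mpr φ.2⟩
  have hcop : (Nat.card ↥(B.subgroupOf X)).Coprime (B.subgroupOf X).index := by
    rw [Nat.card_congr e.toEquiv]
    have h1 : (B.subgroupOf X).index = B.relIndex (B ⊔ P) := rfl
    rw [h1, Subgroup.relIndex_sup_left]
    have h2 : B.relIndex P ∣ p ^ kP := hkP ▸ Subgroup.relIndex_dvd_card B P
    exact Nat.Coprime.coprime_dvd_right h2 (Nat.Coprime.pow_right kP hBp)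
  have hinvK : ∀ (g : X) (k : ↥(B.subgroupOf X)),
      (θ : ↥(B.subgroupOf X) → ℂ) ⟨g * k * g⁻¹,
        (inferInstance : (B.subgroupOf X).Normal).conj_mem (k : X) k.2 g⟩ =
      (θ : ↥(B.subgroupOf X) → ℂ) k := by
    intro g k
    obtain ⟨b, hb, s, hs, hbs⟩ := Subgroup.mem_sup_of_normal_left.mp g.2
    have hkB : ((k : X) : Γ) ∈ B := Subgroup.mem_subgroupOf.mp k.2
    have hsk : s * ((k : X) : Γ) * s⁻¹ ∈ B := hB.conj_mem _ hkB s
    have h1 := hinv s hs ⟨((k : X) : Γ), hkB⟩ ⟨s * ((k : X) : Γ) * s⁻¹, hsk⟩ rfl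
    have h2 := hclass ⟨s * ((k : X) : Γ) * s⁻¹, hsk⟩ ⟨b, hb⟩
    change (φ : B → ℂ) ⟨(g : Γ) * ((k : X) : Γ) * (g : Γ)⁻¹, _⟩ =
      (φ : B → ℂ) ⟨((k : X) : Γ), hkB⟩
    rw [← h1, ← h2]
    refine congrArg (φ : B → ℂ) (Subtype.ext ?_)
    change (g : Γ) * ((k : X) : Γ) * (g : Γ)⁻¹ = b * (s * ((k : X) : Γ) * s⁻¹) * b⁻¹
    rw [← hbs]
    group
  obtain ⟨ψ, hψ⟩ := Helper74.exists_ext_of_coprime (B.subgroupOf X) hcop θ hinvK
  have hres : Helper75.resTo hBX (ψ : X → ℂ) = (φ : B → ℂ) := by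
    funext b
    rw [Helper75.resTo_apply]
    have := hψ (e.symm b)
    have h2 : ((e.symm b : ↥(B.subgroupOf X)) : X) = ⟨(b : Γ), hBX b.2⟩ := rfl
    rw [h2] at this
    rw [this]
    change (φ : B → ℂ) (e (e.symm b)) = _
    rw [e.apply_symm_apply]
  have hne : classInner (Helper75.resTo hBX (ψ : X → ℂ)) (φ : B → ℂ) ≠ 0 := by
    have := Helper75.classInner_irr φ φ
    rw [if_pos rfl] at this
    rw [hres, this]
    exact one_ne_zero
  have hdegeq : charDegree (ψ : X → ℂ) = charDegree (φ : B → ℂ) := by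
    have := congrFun hres 1
    unfold charDegree
    rw [← this]
    rfl
  have hφdvd : charDegree (φ : B → ℂ) ∣ Nat.card B := Helper79.irr_charDegree_dvd_card φ
  have hdeg : ¬ p ∣ X.index * charDegree (ψ : X → ℂ) := by
    intro hd
    rcases (Nat.Prime.dvd_mul hp.out).mp hd with h1 | h1
    · rw [hidx, hkQ] at h1
      have := (Nat.prime_dvd_prime_iff_eq hp.out hq.out).mp (hp.out.dvd_of_dvd_pow h1)
      exact hpq this
    · rw [hdegeq] at h1
      have h2 : p ∣ Nat.card B := dvd_trans h1 hφdvd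
      have h3 : p ∣ Nat.gcd (Nat.card B) p := Nat.dvd_gcd h2 dvd_rfl
      rw [hBp] at h3
      exact hp.out.one_lt.ne' (Nat.dvd_one.mp h3)
  have hkey := h.not_dvd_of_over B hBX ψ.2 hdeg φ.2 hne
  set T : Subgroup Γ := Helper75.inertia B (φ : B → ℂ) with hT
  have hXT : X ≤ T := by
    apply sup_le
    · exact Helper75.le_inertia B _ hclass
    · intro s hs
      rw [hT, Helper75.mem_inertia]
      funext g
      rw [Helper75.conjFun_apply]
      exact hinv s hs g ⟨s * g * s⁻¹, hB.conj_mem g g.2 s⟩ rfl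
  have hTidx : T.index ∣ q ^ kQ := by
    rw [← hkQ, ← hidx]
    exact Subgroup.index_dvd_of_le hXT
  obtain ⟨i, -, hi⟩ := (Nat.dvd_prime_pow hq.out).mp hTidx
  have hi0 : i = 0 := by
    by_contra hi0
    apply hkey
    rw [hi]
    exact Dvd.dvd.mul_right (dvd_pow_self q hi0) _
  rw [hi0, pow_zero] at hi
  have hTtop : T = ⊤ := Subgroup.index_eq_one.mp hi
  intro s g g' hgg'
  have hs : s ∈ T := hTtop ▸ Subgroup.mem_top s
  rw [hT, Helper75.mem_inertia] at hs
  have := congrFun hs g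
  rw [Helper75.conjFun_apply] at this
  rw [← this]
  exact congrArg (φ : B → ℂ) (Subtype.ext hgg')

/-- `C_B(P) ≤ C_B(Q)`. -/
theorem centralizer_le_of_pqDeg (hpq : p ≠ q) (h : PQDeg p q Γ) (B P Q : Subgroup Γ)
    [hB : B.Normal]
    (hBp : (Nat.card B).Coprime p) (hBq : (Nat.card B).Coprime q)
    (hP : IsPGroup p P) (hQ : IsPGroup q Q) (hPQ : P ≤ Subgroup.normalizer (Q : Set Γ))
    (hcard : Nat.card Γ = Nat.card B * Nat.card Q * Nat.card P) :
    ∀ c ∈ B, (∀ x ∈ P, x * c = c * x) → ∀ y ∈ Q, y * c = c * y := by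
  classical
  letI : Fintype B := Fintype.ofFinite B
  set A : Subgroup Γ := Q ⊔ P with hA
  have hPA : P ≤ A := le_sup_right
  have hQA : Q ≤ A := le_sup_left
  obtain ⟨kP, hkP⟩ := IsPGroup.iff_card.mp hP
  obtain ⟨kQ, hkQ⟩ := IsPGroup.iff_card.mp hQ
  have hPsolv : Group.IsSolvable P := isSolvable_of_isPGroup hP
  have hQsolv : Group.IsSolvable Q := isSolvable_of_isPGroup hQ
  have hAsolv : Group.IsSolvable A := Helper21.isSolvable_sup hPQ hQsolv hPsolv
  have hcopP : (Nat.card B).Coprime (Nat.card P) := by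
    rw [hkP]; exact Nat.Coprime.pow_right kP hBp
  have hcopQ : (Nat.card B).Coprime (Nat.card Q) := by
    rw [hkQ]; exact Nat.Coprime.pow_right kQ hBq
  have hQPbot : Q ⊓ P = ⊥ :=
    disjoint_iff.mp (IsPGroup.disjoint_of_ne q p hpq.symm Q P hQ hP)
  have hcardA : Nat.card A = Nat.card Q * Nat.card P :=
    Helper35.card_sup_of_le_normalizer hPQ hQPbot
  have hcopA : (Nat.card B).Coprime (Nat.card A) := by
    rw [hcardA]; exact Nat.Coprime.mul_right hcopQ hcopP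
  have hnormB : ∀ (S : Subgroup Γ), ∀ s ∈ S, ∀ g ∈ B, s * g * s⁻¹ ∈ B :=
    fun S s _ g hg => hB.conj_mem g hg s
  have c1 := Helper74.solv_count_subgroup B P (hnormB P) hcopP hPsolv
  have c2 := Helper74.solv_count_subgroup B A (hnormB A) hcopA hAsolv
  have c3 : Nat.card {χ : IrrCharacter B // ∀ s ∈ P, ∀ g g' : B, (g' : Γ) = s * g * s⁻¹ →
        (χ : B → ℂ) g' = (χ : B → ℂ) g} =
      Nat.card {χ : IrrCharacter B // ∀ s ∈ A, ∀ g g' : B, (g' : Γ) = s * g * s⁻¹ →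
        (χ : B → ℂ) g' = (χ : B → ℂ) g} := by
    apply Nat.card_congr
    apply Equiv.subtypeEquivRight
    intro φ
    constructor
    · intro hφ s _
      exact invariant_of_pqDeg hpq h B P Q hBp hP hQ hcard φ hφ s
    · intro hφ s hs
      exact hφ s (hPA hs)
  rw [c1, c2] at c3
  have hcls : ∀ K : ConjClasses B,
      (∀ s ∈ P, ∀ g g' : B, (g' : Γ) = s * g * s⁻¹ →
        ConjClasses.mk g = K → ConjClasses.mk g' = K) →
      (∀ s ∈ A, ∀ g g' : B, (g' : Γ) = s * g * s⁻¹ →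
        ConjClasses.mk g = K → ConjClasses.mk g' = K) := by
    have hsub : {K : ConjClasses B | ∀ s ∈ A, ∀ g g' : B, (g' : Γ) = s * g * s⁻¹ →
          ConjClasses.mk g = K → ConjClasses.mk g' = K} ⊆
        {K : ConjClasses B | ∀ s ∈ P, ∀ g g' : B, (g' : Γ) = s * g * s⁻¹ →
          ConjClasses.mk g = K → ConjClasses.mk g' = K} :=
      fun K hK s hs => hK s (hPA hs)
    have heq := Set.eq_of_subset_of_ncard_le hsub (by
      rw [← Nat.card_coe_set_eq, ← Nat.card_coe_set_eq]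
      exact c3.le) (Set.toFinite _)
    intro K hK
    have hK' : K ∈ {K : ConjClasses B | ∀ s ∈ P, ∀ g g' : B, (g' : Γ) = s * g * s⁻¹ →
          ConjClasses.mk g = K → ConjClasses.mk g' = K} := hK
    rw [← heq] at hK'
    exact hK'
  have hconj : ∀ c ∈ B, (∀ x ∈ P, x * c = c * x) →
      ∃ d ∈ B ⊓ Subgroup.centralizer (P : Set Γ),
        ∃ s ∈ B ⊓ Subgroup.centralizer (A : Set Γ), d * s * d⁻¹ = c := by
    intro c hcB hc
    have hPinv : ∀ s ∈ P, ∀ g g' : B, (g' : Γ) = s * g * s⁻¹ →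
        ConjClasses.mk g = ConjClasses.mk (⟨c, hcB⟩ : B) →
        ConjClasses.mk g' = ConjClasses.mk (⟨c, hcB⟩ : B) := by
      intro s hs g g' hgg' hg
      rw [ConjClasses.mk_eq_mk_iff_isConj, isConj_iff] at hg ⊢
      obtain ⟨k, hk⟩ := hg
      refine ⟨⟨s * k * s⁻¹, hB.conj_mem k k.2 s⟩, ?_⟩
      apply Subtype.ext
      have hk' : (k : Γ) * g * (k : Γ)⁻¹ = c := congrArg Subtype.val hk
      change s * k * s⁻¹ * (g' : Γ) * (s * k * s⁻¹)⁻¹ = c
      rw [hgg']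
      have e1 : s * (k : Γ) * s⁻¹ * (s * (g : Γ) * s⁻¹) * (s * (k : Γ) * s⁻¹)⁻¹ =
          s * ((k : Γ) * (g : Γ) * (k : Γ)⁻¹) * s⁻¹ := by group
      rw [e1, hk', hc s hs]
      group
    have hAinv := hcls _ hPinv
    have hAc : ∀ a ∈ A, ∃ k ∈ B, k * (a * c * a⁻¹) * k⁻¹ = c := by
      intro a ha
      have h1 := hAinv a ha ⟨c, hcB⟩ ⟨a * c * a⁻¹, hB.conj_mem c hcB a⟩ rfl rfl
      rw [ConjClasses.mk_eq_mk_iff_isConj, isConj_iff] at h1
      obtain ⟨k, hk⟩ := h1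
      exact ⟨k, k.2, congrArg Subtype.val hk⟩
    set S : Set Γ := {t | ∃ b ∈ B, b * c * b⁻¹ = t} with hS
    have hSne : S.Nonempty := ⟨c, 1, B.one_mem, by simp⟩
    have hSA : ∀ a ∈ A, ∀ s ∈ S, a * s * a⁻¹ ∈ S := by
      rintro a ha s ⟨b, hb, rfl⟩
      obtain ⟨k, hk, hkc⟩ := hAc a ha
      refine ⟨a * b * a⁻¹ * k⁻¹, B.mul_mem (hB.conj_mem b hb a) (B.inv_mem hk), ?_⟩
      have h1 : k⁻¹ * c * k = a * c * a⁻¹ := by
        conv_lhs => rw [← hkc]
        group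
      calc a * b * a⁻¹ * k⁻¹ * c * (a * b * a⁻¹ * k⁻¹)⁻¹
          = a * b * a⁻¹ * (k⁻¹ * c * k) * (a * b⁻¹ * a⁻¹) := by group
        _ = a * (b * c * b⁻¹) * a⁻¹ := by rw [h1]; group
    have hSB : ∀ k ∈ B, ∀ s ∈ S, k * s * k⁻¹ ∈ S := by
      rintro k hk s ⟨b, hb, rfl⟩
      exact ⟨k * b, B.mul_mem hk hb, by group⟩
    have hStr : ∀ s ∈ S, ∀ t ∈ S, ∃ k ∈ B, k * s * k⁻¹ = t := by
      rintro s ⟨b, hb, rfl⟩ t ⟨b', hb', rfl⟩
      exact ⟨b' * b⁻¹, B.mul_mem hb' (B.inv_mem hb), by group⟩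
    have hAB : A ≤ Subgroup.normalizer (B : Set Γ) := by
      rw [Subgroup.normalizer_eq_top]; exact le_top
    have hPB : P ≤ Subgroup.normalizer (B : Set Γ) := by
      rw [Subgroup.normalizer_eq_top]; exact le_top
    obtain ⟨s, hsS, hsA⟩ :=
      Helper74.glauberman_conjAct hAB hcopA.symm (Or.inl hAsolv) hSne hSA hSB hStr
    obtain ⟨b, hb, hbs⟩ := hsS
    have hsB : s ∈ B := by rw [← hbs]; exact hB.conj_mem c hcB b
    have hks : b⁻¹ * s * b⁻¹⁻¹ = c := by rw [← hbs]; group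
    obtain ⟨d, hd, hds⟩ := Helper74.glauberman_conj_conjAct hPB hcopP.symm (Or.inl hPsolv)
      (s := s) (t := c) (fun a ha => hsA a (hPA ha))
      (fun a ha => by rw [hc a ha]; group) (B.inv_mem hb) hks
    refine ⟨d, hd, s, Subgroup.mem_inf.mpr ⟨hsB, ?_⟩, hds⟩
    rw [Subgroup.mem_centralizer_iff]
    intro a ha
    have h1 := hsA a ha
    calc a * s = a * s * a⁻¹ * a := by group
      _ = s * a := by rw [h1]
  set H : Subgroup Γ := B ⊓ Subgroup.centralizer (P : Set Γ) with hH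
  have htop : (B ⊓ Subgroup.centralizer (A : Set Γ)).subgroupOf H = ⊤ := by
    apply Helper68.eq_top_of_forall_conj_mem
    intro g
    have hg := g.2
    obtain ⟨d, hd, s, hs, hds⟩ := hconj (g : Γ) hg.1
      (fun x hx => Subgroup.mem_centralizer_iff.mp hg.2 x hx)
    refine ⟨⟨d, hd⟩, ?_⟩
    rw [Subgroup.mem_subgroupOf]
    change d⁻¹ * (g : Γ) * d ∈ _
    rw [← hds]
    have e1 : d⁻¹ * (d * s * d⁻¹) * d = s := by group
    rw [e1]
    exact hs
  intro c hcB hc y hy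
  have hcH : c ∈ H := ⟨hcB, Subgroup.mem_centralizer_iff.mpr hc⟩
  have hmem : (⟨c, hcH⟩ : H) ∈ (B ⊓ Subgroup.centralizer (A : Set Γ)).subgroupOf H := by
    rw [htop]; trivial
  rw [Subgroup.mem_subgroupOf] at hmem
  exact Subgroup.mem_centralizer_iff.mp hmem.2 y (hQA hy)

end count

end Cfsg.Agent.Helper76
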