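import Cfsg.Agent.Helper76.PQSylow
import Cfsg.Agent.Helper76.SylowTools
import Cfsg.Agent.Helper2.PGroup
import Cfsg.Agent.Helper35.Coprime

/-!
# The final step of the `PQDeg` argument (helper76)

Setting: `N` a normal `p`-subgroup of `G`, `Q` a `q`-subgroup, `S'` a `p`-subgroup normalizing `Q`
with `P = N S'` of index prime to `p`; in `G/N` a normal `{p,q}'`-subgroup `B'` with
`|G/N| = |B'| |QN/N| |P/N|` and `B' (QN/N)` normal; `C_N(Q) ≤ S'`; and `PQDeg p q G`.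

* `commutator_mem_of_pqDeg`: `[N, Q] ≤ P'`.
* `centralizes_of_pqDeg`: `Q` centralizes `N`.
-/

set_option autoImplicit false
set_option linter.style.haveILetI false

namespace Cfsg.Agent.Helper76

open Cfsg
open scoped Pointwise commutatorElement

universe u

section final

variable {p q : ℕ} [hp : Fact p.Prime] [hq : Fact q.Prime] {G : Type u} [Group G] [Finite G]

theorem commutator_mem_of_pqDeg (hpq : p ≠ q) (h : PQDeg p q G) (N : Subgroup G) [hN : N.Normal]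
    (Q S' : Subgroup G) (hQ : IsPGroup q Q) (hS' : IsPGroup p S')
    (hS'Q : S' ≤ Subgroup.normalizer (Q : Set G)) (hidx : ¬ p ∣ (N ⊔ S').index)
    (B' : Subgroup (G ⧸ N)) [hB' : B'.Normal] (hBp : (Nat.card B').Coprime p)
    (hBq : (Nat.card B').Coprime q)
    (hAn : (B' ⊔ Q.map (QuotientGroup.mk' N)).Normal)
    (hcard : Nat.card (G ⧸ N) = Nat.card B' * Nat.card (Q.map (QuotientGroup.mk' N)) *
      Nat.card ((N ⊔ S').map (QuotientGroup.mk' N)))
    (n y : G) (hn : n ∈ N) (hy : y ∈ Q) :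
    n * y * n⁻¹ * y⁻¹ ∈ ⁅N ⊔ S', N ⊔ S'⁆ := by
  classical
  letI : Fintype G := Fintype.ofFinite G
  have hπs : Function.Surjective (QuotientGroup.mk' N) := QuotientGroup.mk'_surjective N
  have hker : (QuotientGroup.mk' N).ker = N := QuotientGroup.ker_mk' N
  set π := QuotientGroup.mk' N with hπ
  set P : Subgroup G := N ⊔ S' with hPdef
  have hNP : N ≤ P := le_sup_left
  letI : Fintype P := Fintype.ofFinite P
  letI : Fintype N := Fintype.ofFinite N
  set Pb : Subgroup (G ⧸ N) := P.map π with hPb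
  set Qb : Subgroup (G ⧸ N) := Q.map π with hQb
  have hPbeq : Pb = S'.map π := by
    have h1 : N.map π = ⊥ := by rw [Subgroup.map_eq_bot_iff, hker]
    rw [hPb, hPdef, Subgroup.map_sup, h1, bot_sup_eq]
  have hPbp : IsPGroup p Pb := by rw [hPbeq]; exact hS'.map π
  have hQbq : IsPGroup q Qb := hQ.map π
  have hPbQb : Pb ≤ Subgroup.normalizer (Qb : Set (G ⧸ N)) := by
    rw [hPbeq]
    exact le_trans (Subgroup.map_mono hS'Q) (Subgroup.le_normalizer_map π)
  have hE := centralizer_le_of_pqDeg hpq (h.of_surjective π hπs) B' Pb Qb hBp hBq hPbp hQbq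
    hPbQb hcard
  by_contra hw
  set w := n * y * n⁻¹ * y⁻¹ with hwdef
  have hyn : y * n⁻¹ * y⁻¹ ∈ N := hN.conj_mem _ (N.inv_mem hn) y
  have hwN : w ∈ N := by
    have : w = n * (y * n⁻¹ * y⁻¹) := by rw [hwdef]; group
    rw [this]; exact N.mul_mem hn hyn
  have hwP : w ∈ P := hNP hwN
  have hwc : (⟨w, hwP⟩ : P) ∉ commutator P := by
    intro hc
    apply hw
    have h1 : w ∈ (commutator P).map P.subtype := ⟨⟨w, hwP⟩, hc, rfl⟩
    rw [commutator_def, Subgroup.map_commutator, ← MonoidHom.range_eq_map,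
      Subgroup.range_subtype] at h1
    exact h1
  obtain ⟨f, hf⟩ := Helper79.exists_hom_apply_ne_one hwc
  set fN : N →* ℂˣ := f.comp (Subgroup.inclusion hNP) with hfN
  have hμ : IsIrrCharacter P (fun x => (f x : ℂ)) := Helper79.isIrrCharacter_of_hom f
  have hlam : IsIrrCharacter N (fun x => (fN x : ℂ)) := Helper79.isIrrCharacter_of_hom fN
  have hres : Helper75.resTo hNP (fun x : P => (f x : ℂ)) = fun x : N => (fN x : ℂ) := rfl
  have hne : classInner (Helper75.resTo hNP (fun x : P => (f x : ℂ)))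
      (fun x : N => (fN x : ℂ)) ≠ 0 := by
    rw [hres]
    have := Helper75.classInner_irr (⟨_, hlam⟩ : IrrCharacter N) ⟨_, hlam⟩
    rw [if_pos rfl] at this
    rw [this]; exact one_ne_zero
  have hdegμ : charDegree (fun x : P => (f x : ℂ)) = 1 := by
    unfold charDegree; simp
  have hdeg : ¬ p ∣ P.index * charDegree (fun x : P => (f x : ℂ)) := by
    rw [hdegμ, mul_one]; exact hidx
  have key := h.not_dvd_of_over N hNP hμ hdeg hlam hne
  set I : Subgroup G := Helper75.inertia N (fun x : N => (fN x : ℂ)) with hI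
  have hIq : ¬ q ∣ I.index := fun hd => key (Dvd.dvd.mul_right hd _)
  have hPI : P ≤ I := by
    intro x hx
    rw [hI, Helper75.mem_inertia]
    funext m
    rw [Helper75.conjFun_apply]
    have e1 : (Subgroup.inclusion hNP ⟨x * (m : G) * x⁻¹, hN.conj_mem m m.2 x⟩ : P) =
        ⟨x, hx⟩ * Subgroup.inclusion hNP m * ⟨x, hx⟩⁻¹ := rfl
    change ((f (Subgroup.inclusion hNP ⟨x * (m : G) * x⁻¹, hN.conj_mem m m.2 x⟩) : ℂˣ) : ℂ) =
      ((f (Subgroup.inclusion hNP m) : ℂˣ) : ℂ)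
    rw [e1, map_mul, map_mul, map_inv, mul_comm, inv_mul_cancel_left]
  have hNI : N ≤ I := hNP.trans hPI
  set Ib : Subgroup (G ⧸ N) := I.map π with hIb
  have hIbidx : Ib.index = I.index := Subgroup.index_map_eq I hπs (by rw [hker]; exact hNI)
  have hPbIb : Pb ≤ Ib := Subgroup.map_mono hPI
  set Ab : Subgroup (G ⧸ N) := B' ⊔ Qb with hAb
  set Tb : Subgroup (G ⧸ N) := Ib ⊓ Ab with hTb
  have hPbTb : Pb ≤ Subgroup.normalizer (Tb : Set (G ⧸ N)) := by
    intro a ha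
    rw [Subgroup.mem_normalizer_iff]
    intro x
    have h1 := Subgroup.mem_normalizer_iff.mp (Subgroup.le_normalizer (hPbIb ha)) x
    have h2 : x ∈ Ab ↔ a * x * a⁻¹ ∈ Ab := ⟨fun hx => hAn.conj_mem x hx a, fun hx => by
      have h3 := hAn.conj_mem _ hx a⁻¹
      have e : a⁻¹ * (a * x * a⁻¹) * a⁻¹⁻¹ = x := by group
      rwa [e] at h3⟩
    constructor
    · rintro ⟨hx1, hx2⟩; exact ⟨h1.mp hx1, h2.mp hx2⟩
    · rintro ⟨hx1, hx2⟩; exact ⟨h1.mpr hx1, h2.mpr hx2⟩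
  obtain ⟨kP, hkP⟩ := IsPGroup.iff_card.mp hPbp
  obtain ⟨kQ, hkQ⟩ := IsPGroup.iff_card.mp hQbq
  have hQbB : Qb ≤ Subgroup.normalizer (B' : Set (G ⧸ N)) := by
    rw [Subgroup.normalizer_eq_top]; exact le_top
  have hcardAb : Nat.card Ab = Nat.card B' * Nat.card Qb :=
    Helper35.card_sup_of_le_normalizer hQbB (inf_eq_bot_of_coprime_isPGroup hBq hQbq)
  have hTbAb : Tb ≤ Ab := inf_le_right
  have hcop : (Nat.card Pb).Coprime (Nat.card Tb) := by
    apply Nat.Coprime.coprime_dvd_right (Subgroup.card_dvd_of_le hTbAb)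
    rw [hcardAb, hkP, hkQ]
    apply Nat.Coprime.pow_left
    apply Nat.Coprime.mul_right hBp.symm
    exact Nat.Coprime.pow_right kQ ((Nat.coprime_primes hp.out hq.out).mpr hpq)
  obtain ⟨Q₁, hQ₁mem, hQ₁P⟩ := Helper35.exists_invariant_sylow hPbTb hcop
    (Or.inl (isSolvable_of_isPGroup hPbp)) q
  have hQ₁Ab : Q₁ ≤ Ab := hQ₁mem.1.trans hTbAb
  have hrel : ¬ q ∣ Tb.relIndex Ab := by
    rw [hTb, Subgroup.inf_relIndex_right]
    intro hd
    apply hIq
    rw [← hIbidx]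
    exact dvd_trans hd (relIndex_dvd_index_of_normal_right Ib Ab)
  have hfact : (Nat.card Tb).factorization q = (Nat.card Ab).factorization q := by
    have h1 := Helper35.card_mul_relIndex_of_le hTbAb
    have hrel0 : Tb.relIndex Ab ≠ 0 := fun h0 => hrel (h0 ▸ dvd_zero q)
    rw [← h1, Nat.factorization_mul Nat.card_pos.ne' hrel0, Finsupp.add_apply,
      Nat.factorization_eq_zero_of_not_dvd hrel, add_zero]
  have hQbmem : Qb ∈ Helper35.sylowSet q Ab := mem_sylowSet_sup hBq hQbq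
  have hcardQ₁ : Nat.card Q₁ = Nat.card Qb := by rw [hQ₁mem.2, hfact, ← hQbmem.2]
  have hQ₁eq := sylow_unique_of_centralizer hpq B' Pb Qb Q₁ hBp hBq hPbp hQbq hPbQb hE hQ₁Ab
    hcardQ₁ hQ₁P
  have hQbIb : Qb ≤ Ib := by rw [← hQ₁eq]; exact hQ₁mem.1.trans inf_le_left
  have hyI : y ∈ I := by
    have h1 : π y ∈ I.map π := hQbIb (Subgroup.mem_map_of_mem π hy)
    have h2 : y ∈ (I.map π).comap π := h1
    rw [Subgroup.comap_map_eq, hker, sup_eq_left.mpr hNI] at h2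
    exact h2
  rw [hI, Helper75.mem_inertia] at hyI
  apply hf
  have e1 : (⟨w, hwP⟩ : P) =
      Subgroup.inclusion hNP (⟨n, hn⟩ * ⟨y * n⁻¹ * y⁻¹, hyn⟩) := by
    apply Subtype.ext
    change w = n * (y * n⁻¹ * y⁻¹)
    rw [hwdef]; group
  have e2 := congrFun hyI ⟨n⁻¹, N.inv_mem hn⟩
  rw [Helper75.conjFun_apply] at e2
  have e3 : fN ⟨y * n⁻¹ * y⁻¹, hyn⟩ = fN ⟨n⁻¹, N.inv_mem hn⟩ := Units.ext e2
  rw [e1]
  change fN (⟨n, hn⟩ * ⟨y * n⁻¹ * y⁻¹, hyn⟩) = 1
  rw [map_mul, e3, ← map_mul]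
  have e4 : (⟨n, hn⟩ * ⟨n⁻¹, N.inv_mem hn⟩ : N) = 1 := by
    apply Subtype.ext; simp
  rw [e4, map_one]

theorem centralizes_of_pqDeg (hpq : p ≠ q) (h : PQDeg p q G) (N : Subgroup G) [hN : N.Normal]
    (hNp : IsPGroup p N)
    (Q S' : Subgroup G) (hQ : IsPGroup q Q) (hS' : IsPGroup p S')
    (hS'Q : S' ≤ Subgroup.normalizer (Q : Set G)) (hidx : ¬ p ∣ (N ⊔ S').index)
    (hCS : ∀ c ∈ N, (∀ y ∈ Q, y * c = c * y) → c ∈ S')
    (B' : Subgroup (G ⧸ N)) [hB' : B'.Normal] (hBp : (Nat.card B').Coprime p)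
    (hBq : (Nat.card B').Coprime q)
    (hAn : (B' ⊔ Q.map (QuotientGroup.mk' N)).Normal)
    (hcard : Nat.card (G ⧸ N) = Nat.card B' * Nat.card (Q.map (QuotientGroup.mk' N)) *
      Nat.card ((N ⊔ S').map (QuotientGroup.mk' N))) :
    ∀ n ∈ N, ∀ y ∈ Q, y * n = n * y := by
  have hcomm : ∀ n ∈ N, ∀ y ∈ Q, n * y * n⁻¹ * y⁻¹ ∈ ⁅N ⊔ S', N ⊔ S'⁆ :=
    fun n hn y hy => commutator_mem_of_pqDeg hpq h N Q S' hQ hS' hS'Q hidx B' hBp hBq hAn hcard
      n y hn hy
  set P : Subgroup G := N ⊔ S' with hPdef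
  have hNP : N ≤ P := le_sup_left
  have hSP : S' ≤ P := le_sup_right
  have hPp : IsPGroup p P := IsPGroup.to_sup_of_normal_left hNp hS'
  have hNQc : ⁅N, Q⁆ ≤ ⁅P, P⁆ := by
    rw [Subgroup.commutator_le]
    intro n hn y hy
    rw [commutatorElement_def]
    exact hcomm n hn y hy
  have hQN : Q ≤ Subgroup.normalizer (N : Set G) := by
    rw [Subgroup.normalizer_eq_top]; exact le_top
  obtain ⟨kN, hkN⟩ := IsPGroup.iff_card.mp hNp
  obtain ⟨kQ, hkQ⟩ := IsPGroup.iff_card.mp hQ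
  have hcopQN : (Nat.card Q).Coprime (Nat.card N) := by
    rw [hkN, hkQ]
    exact Nat.Coprime.pow _ _ ((Nat.coprime_primes hq.out hp.out).mpr hpq.symm)
  have hNle : N ≤ ⁅P, P⁆ ⊔ S' := by
    intro n hn
    obtain ⟨w, hw, c, hc, rfl⟩ := Helper35.exists_commutator_mul_fixed hQN hcopQN
      (Or.inl (isSolvable_of_isPGroup hQ)) hn
    apply Subgroup.mul_mem
    · exact Subgroup.mem_sup_left (hNQc hw)
    · apply Subgroup.mem_sup_right
      obtain ⟨hc1, hc2⟩ := Subgroup.mem_inf.mp hc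
      exact hCS c hc1 (fun y hy => Subgroup.mem_centralizer_iff.mp hc2 y hy)
  have hPle : P ≤ ⁅P, P⁆ ⊔ S' := sup_le hNle le_sup_right
  have hcomm_le : ⁅P, P⁆ ≤ P := by
    rw [Subgroup.commutator_le]
    intro a ha b hb
    rw [commutatorElement_def]
    exact P.mul_mem (P.mul_mem (P.mul_mem ha hb) (P.inv_mem ha)) (P.inv_mem hb)
  have hcsub : (⁅P, P⁆).subgroupOf P = commutator P := by
    have h1 : (commutator P).map P.subtype = ⁅P, P⁆ := by
      rw [commutator_def, Subgroup.map_commutator, ← MonoidHom.range_eq_map,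
        Subgroup.range_subtype]
    rw [← h1]
    exact Subgroup.comap_map_eq_self_of_injective P.subtype_injective _
  have hfr : S'.subgroupOf P ⊔ frattini P = ⊤ := by
    rw [eq_top_iff]
    intro x _
    have hx := hPle x.2
    have h1 : (⁅P, P⁆ ⊔ S').subgroupOf P = (⁅P, P⁆).subgroupOf P ⊔ S'.subgroupOf P :=
      Subgroup.subgroupOf_sup hcomm_le hSP
    have h3 : x ∈ (⁅P, P⁆ ⊔ S').subgroupOf P := Subgroup.mem_subgroupOf.mpr hx
    rw [h1, hcsub] at h3
    have hle : commutator P ⊔ S'.subgroupOf P ≤ S'.subgroupOf P ⊔ frattini P :=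
      sup_le (le_sup_of_le_right (Helper2.commutator_le_frattini_of_isPGroup hPp)) le_sup_left
    exact hle h3
  have hStop : S'.subgroupOf P = ⊤ := frattini_nongenerating hfr
  have hPS : P ≤ S' := by
    intro x hx
    have h1 : (⟨x, hx⟩ : P) ∈ S'.subgroupOf P := by rw [hStop]; trivial
    exact Subgroup.mem_subgroupOf.mp h1
  have hNQ : N ≤ Subgroup.normalizer (Q : Set G) := hNP.trans (hPS.trans hS'Q)
  have hbot : N ⊓ Q = ⊥ := disjoint_iff.mp (IsPGroup.disjoint_of_ne p q hpq N Q hNp hQ)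
  intro n hn y hy
  have h1 : n * y * n⁻¹ ∈ Q := (Subgroup.mem_normalizer_iff.mp (hNQ hn) y).mp hy
  have h2 : n * y * n⁻¹ * y⁻¹ ∈ N ⊓ Q := by
    refine ⟨?_, Q.mul_mem h1 (Q.inv_mem hy)⟩
    have e : n * y * n⁻¹ * y⁻¹ = n * (y * n⁻¹ * y⁻¹) := by group
    rw [e]; exact N.mul_mem hn (hN.conj_mem _ (N.inv_mem hn) y)
  rw [hbot, Subgroup.mem_bot] at h2
  calc y * n = (n * y * n⁻¹ * y⁻¹) * (y * n) := by rw [h2, one_mul]
    _ = n * y := by group

end final

end Cfsg.Agent.Helper76
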