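import Cfsg.Agent.Helper76.PQMin

/-!
# The `PQDeg` theorem (helper76)

`not_dvd_index_pPrimeCore_of_pqDeg`: if `G` is `p`-solvable and `q`-solvable (`p ≠ q`) and every
irreducible character of `G` of degree prime to `p` has degree prime to `q`, then `q` does not divide
`[G : O_{p'}(G)]`.
-/

set_option autoImplicit false
set_option linter.style.haveILetI false

namespace Cfsg.Agent.Helper76

open Cfsg
open scoped Pointwise commutatorElement

universe u

section key

variable {p q : ℕ} [hp : Fact p.Prime] [hq : Fact q.Prime]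

/-- The minimal configuration: `O_{p'}(G) = 1`. -/
theorem pqDeg_min {G : Type u} [Group G] [Finite G] (hpq : p ≠ q) (hps : IsPSolvable p G)
    (hqs : IsPSolvable q G) (h : PQDeg p q G) (hcore : pPrimeCore p G = ⊥)
    (IH : ∀ (H : Type u) [Group H] [Finite H], Nat.card H < Nat.card G → IsPSolvable p H →
      IsPSolvable q H → PQDeg p q H → ¬ q ∣ (pPrimeCore p H).index) :
    ¬ q ∣ Nat.card G := by
  intro hqG
  haveI hNn : (pCore p G).Normal := pCore_normal
  have hNp : IsPGroup p (pCore p G) := pCore_isPGroup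
  have hC : Subgroup.centralizer (pCore p G : Set G) ≤ pCore p G :=
    Helper32.centralizer_pCore_le_of_isPSolvable hps hcore
  set N : Subgroup G := pCore p G with hNdef
  have hNq : ¬ q ∣ Nat.card N := by
    obtain ⟨k, hk⟩ := IsPGroup.iff_card.mp hNp
    rw [hk]; intro hd
    exact hpq ((Nat.prime_dvd_prime_iff_eq hq.out hp.out).mp (hq.out.dvd_of_dvd_pow hd)).symm
  have hNne : N ≠ ⊥ := by
    intro h0
    have hall : ∀ g : G, g = 1 := by
      intro g
      have hg : g ∈ Subgroup.centralizer (N : Set G) := by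
        rw [Subgroup.mem_centralizer_iff]
        intro y hy
        have hy' : y ∈ N := hy
        rw [h0, Subgroup.mem_bot] at hy'
        rw [hy', one_mul, mul_one]
      have := hC hg
      rwa [h0, Subgroup.mem_bot] at this
    haveI : Subsingleton G := ⟨fun a b => by rw [hall a, hall b]⟩
    have hone : Nat.card G = 1 := Nat.card_of_subsingleton 1
    rw [hone] at hqG
    exact hq.out.one_lt.ne' (Nat.dvd_one.mp hqG)
  have hπs : Function.Surjective (QuotientGroup.mk' N) := QuotientGroup.mk'_surjective N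
  have hker : (QuotientGroup.mk' N).ker = N := QuotientGroup.ker_mk' N
  have hΓlt : Nat.card (G ⧸ N) < Nat.card G := Helper79.card_quotient_lt N hNne
  have hIHΓ := IH (G ⧸ N) hΓlt (Helper32.isPSolvable_quotient hp.out hps N)
    (Helper32.isPSolvable_quotient hq.out hqs N) (h.of_surjective _ hπs)
  haveI hA'n : (pPrimeCore p (G ⧸ N)).Normal := pPrimeCore_normal
  have hA'p : (Nat.card (pPrimeCore p (G ⧸ N))).Coprime p := pPrimeCore_coprime
  set A' : Subgroup (G ⧸ N) := pPrimeCore p (G ⧸ N) with hA'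
  set π := QuotientGroup.mk' N with hπ
  set R : Subgroup G := A'.comap π with hR
  haveI hRn : R.Normal := hA'n.comap π
  have hNR : N ≤ R := by
    have := MonoidHom.ker_le_comap π A'
    rwa [hker] at this
  have hRidx : R.index = A'.index := Subgroup.index_comap_of_surjective A' hπs
  have hRq : ¬ q ∣ R.index := by rw [hRidx]; exact hIHΓ
  have hqR : q ∣ Nat.card R := by
    have h1 := R.card_mul_index
    rw [← h1] at hqG
    rcases (Nat.Prime.dvd_mul hq.out).mp hqG with h2 | h2
    · exact h2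
    · exact absurd h2 hRq
  have hRN : ∀ S : Subgroup G, IsPGroup p S → R ⊓ S ≤ N := fun S hS x hx =>
    mem_of_mem_comap_pPrimeCore hS (Subgroup.mem_inf.mp hx).2 (Subgroup.mem_inf.mp hx).1
  have hA : ∀ (P : Sylow p G) (R₀ : Subgroup G), R₀.Normal → R₀ ⊔ (P : Subgroup G) ≠ ⊤ →
      ¬ q ∣ Nat.card R₀ := fun P R₀ hR₀ hne => by
    haveI := hR₀
    exact not_dvd_card_of_sup_ne_top hps hqs h hC IH P R₀ hne
  have hRtop : ∀ P : Sylow p G, R ⊔ (P : Subgroup G) = ⊤ := by
    intro P
    by_contra hne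
    exact hA P R hRn hne hqR
  obtain ⟨P₀⟩ : Nonempty (Sylow p G) := inferInstance
  have hRidxp : ∃ a : ℕ, R.index = p ^ a := by
    have h1 : R.index = R.relIndex (P₀ : Subgroup G) := by
      rw [← Subgroup.relIndex_top_right, ← hRtop P₀, Subgroup.relIndex_sup_left]
    obtain ⟨k, hk⟩ := IsPGroup.iff_card.mp P₀.isPGroup'
    have h2 : R.relIndex (P₀ : Subgroup G) ∣ p ^ k :=
      hk ▸ Subgroup.relIndex_dvd_card R (P₀ : Subgroup G)
    obtain ⟨a, -, ha⟩ := (Nat.dvd_prime_pow hp.out).mp h2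
    exact ⟨a, by rw [h1, ha]⟩
  have hmin : ∀ R₀ : Subgroup G, R₀.Normal → N ≤ R₀ → R₀ ≤ R → R₀ ≠ R →
      ¬ q ∣ Nat.card R₀ := by
    intro R₀ hR₀ hNR₀ hR₀R hne
    apply hA P₀ R₀ hR₀
    intro htop
    apply hne
    apply le_antisymm hR₀R
    intro x hx
    have hx' : x ∈ R₀ ⊔ (P₀ : Subgroup G) := by rw [htop]; trivial
    haveI := hR₀
    obtain ⟨r, hr, s, hs, rfl⟩ := Subgroup.mem_sup_of_normal_left.mp hx'
    have hsR : s ∈ R := by
      have e : s = r⁻¹ * (r * s) := by group
      rw [e]; exact R.mul_mem (R.inv_mem (hR₀R hr)) hx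
    have hsN : s ∈ N := hRN P₀ P₀.isPGroup' (Subgroup.mem_inf.mpr ⟨hsR, hs⟩)
    exact R₀.mul_mem hr (hNR₀ hsN)
  obtain ⟨B, hBn, hNB, hBR, hBq, m, hm⟩ := exists_max_normal_qprime hqs R N hNR hqR hNq hmin
  haveI := hBn
  obtain ⟨Q⟩ : Nonempty (Sylow q G) := inferInstance
  have hQR : (Q : Subgroup G) ≤ R := sylow_le_of_not_dvd_index_normal R Q hRq
  have hBQ : R = B ⊔ (Q : Subgroup G) := by
    apply le_antisymm _ (sup_le hBR hQR)
    rw [← Subgroup.relIndex_eq_one]
    have h1 : (B ⊔ (Q : Subgroup G)).relIndex R ∣ B.relIndex R :=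
      Subgroup.relIndex_dvd_of_le_left R le_sup_left
    have h2 : (B ⊔ (Q : Subgroup G)).relIndex R ∣ (Q : Subgroup G).relIndex R :=
      Subgroup.relIndex_dvd_of_le_left R le_sup_right
    have h3 : (Q : Subgroup G).relIndex R ∣ (Q : Subgroup G).index :=
      Subgroup.relIndex_dvd_index_of_le hQR
    rw [hm] at h1
    obtain ⟨i, -, hi⟩ := (Nat.dvd_prime_pow hq.out).mp h1
    by_contra hne1
    have hi0 : i ≠ 0 := by
      intro h0
      rw [h0, pow_zero] at hi
      exact hne1 hi
    have h4 : q ∣ (Q : Subgroup G).index :=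
      dvd_trans (dvd_trans (hi ▸ dvd_pow_self q hi0) h2) h3
    exact Q.not_dvd_index h4
  obtain ⟨S', hS'p, hS'Q, hidx, hRS, hCS⟩ := exists_sylow_sup N R hNp hRN hRidxp Q hQR
  have hPp : IsPGroup p (N ⊔ S' : Subgroup G) := IsPGroup.to_sup_of_normal_left hNp hS'p
  have hRP : R ⊔ (N ⊔ S') = ⊤ := by
    rw [eq_top_iff, ← hRS]
    exact sup_le le_sup_left (le_sup_of_le_right le_sup_right)
  obtain ⟨f1, f2, f3, f4⟩ := quotient_facts N A' hA'p B (Q : Subgroup G) (N ⊔ S') hBq
    Q.isPGroup' hPp hBQ hRP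
  haveI hB'n : (B.map π).Normal := Subgroup.Normal.map hBn π hπs
  have hAn : (B.map π ⊔ (Q : Subgroup G).map π).Normal := by rw [f3]; exact hA'n
  have hcent := centralizes_of_pqDeg hpq h N hNp (Q : Subgroup G) S' Q.isPGroup' hS'p hS'Q hidx
    hCS (B.map π) f1 f2 hAn f4
  have hQN : (Q : Subgroup G) ≤ N := by
    intro y hy
    apply hC
    rw [Subgroup.mem_centralizer_iff]
    intro n hn
    exact (hcent n hn y hy).symm
  have hQbot : (Q : Subgroup G) = ⊥ := by
    rw [eq_bot_iff]
    have hbot : N ⊓ (Q : Subgroup G) = ⊥ :=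
      disjoint_iff.mp (IsPGroup.disjoint_of_ne p q hpq N Q hNp Q.isPGroup')
    intro y hy
    have h1 : y ∈ N ⊓ (Q : Subgroup G) := Subgroup.mem_inf.mpr ⟨hQN hy, hy⟩
    rwa [hbot] at h1
  have hcardQ := Q.card_eq_multiplicity
  rw [hQbot, Subgroup.card_bot] at hcardQ
  have hfac : (Nat.card G).factorization q ≠ 0 :=
    (hq.out.factorization_pos_of_dvd Nat.card_pos.ne' hqG).ne'
  have h5 := Nat.one_lt_pow hfac hq.out.one_lt
  omega

theorem pqDeg_aux (hpq : p ≠ q) : ∀ (n : ℕ) (G : Type u) [Group G] [Finite G], Nat.card G = n →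
    IsPSolvable p G → IsPSolvable q G → PQDeg p q G → ¬ q ∣ (pPrimeCore p G).index := by
  intro n
  induction n using Nat.strong_induction_on with
  | _ n ih =>
    intro G _ _ hn hps hqs h
    have IH : ∀ (H : Type u) [Group H] [Finite H], Nat.card H < Nat.card G → IsPSolvable p H →
        IsPSolvable q H → PQDeg p q H → ¬ q ∣ (pPrimeCore p H).index :=
      fun H _ _ hlt hp' hq' h' => ih (Nat.card H) (hn ▸ hlt) H rfl hp' hq' h'
    by_cases hcore : pPrimeCore p G = ⊥
    · rw [hcore, Subgroup.index_bot]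
      exact pqDeg_min hpq hps hqs h hcore IH
    · haveI : (pPrimeCore p G).Normal := pPrimeCore_normal
      have hlt := Helper79.card_quotient_lt (pPrimeCore p G) hcore
      have h1 := IH (G ⧸ pPrimeCore p G) hlt (Helper32.isPSolvable_quotient hp.out hps _)
        (Helper32.isPSolvable_quotient hq.out hqs _)
        (h.of_surjective (QuotientGroup.mk' _) (QuotientGroup.mk'_surjective _))
      rw [Helper32.pPrimeCore_quotient_eq_bot' p G, Subgroup.index_bot,
        ← Subgroup.index_eq_card] at h1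
      exact h1

/-- If `G` is `p`-solvable and `q`-solvable (`p ≠ q`) and every irreducible character of `G` of
degree prime to `p` has degree prime to `q`, then `q ∤ [G : O_{p'}(G)]`. -/
theorem not_dvd_index_pPrimeCore_of_pqDeg {G : Type u} [Group G] [Finite G] (hpq : p ≠ q)
    (hps : IsPSolvable p G) (hqs : IsPSolvable q G) (h : PQDeg p q G) :
    ¬ q ∣ (pPrimeCore p G).index :=
  pqDeg_aux hpq (Nat.card G) G rfl hps hqs h

end key

end Cfsg.Agent.Helper76
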