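import Cfsg.Agent.Helper76.PQFinal
import Cfsg.Agent.Helper76.PSolvable
import Cfsg.Agent.Helper76.PGroup
import Cfsg.Agent.Helper32.PSolvable
import Cfsg.Agent.Helper32.PPrime
import Cfsg.Agent.Helper32.PConstrained
import Cfsg.Agent.Helper32.HallHigman

/-!
# Structure lemmas for the minimal counterexample in the `PQDeg` theorem (helper76)
-/

set_option autoImplicit false
set_option linter.style.haveILetI false

namespace Cfsg.Agent.Helper76

open Cfsg
open scoped Pointwise commutatorElement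

universe u

section structure_lemmas

variable {p q : ℕ} [hp : Fact p.Prime] [hq : Fact q.Prime] {G : Type u} [Group G] [Finite G]

omit hp hq [Finite G] in
/-- A normal `p`-subgroup lies in every Sylow `p`-subgroup. -/
theorem normal_le_sylow {N : Subgroup G} [N.Normal] (hN : IsPGroup p N) (P : Sylow p G) :
    N ≤ (P : Subgroup G) := by
  have h1 : IsPGroup p (N ⊔ (P : Subgroup G) : Subgroup G) :=
    IsPGroup.to_sup_of_normal_left hN P.isPGroup'
  have h2 := P.is_maximal' h1 le_sup_right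
  rw [← h2]; exact le_sup_left

omit hq in
/-- A `p`-element of the preimage of `O_{p'}(G/N)` lies in `N`. -/
theorem mem_of_mem_comap_pPrimeCore {N : Subgroup G} [N.Normal] {S : Subgroup G}
    (hS : IsPGroup p S) {x : G} (hxS : x ∈ S)
    (hxR : x ∈ (pPrimeCore p (G ⧸ N)).comap (QuotientGroup.mk' N)) : x ∈ N := by
  have h1 : (QuotientGroup.mk' N x) ∈ pPrimeCore p (G ⧸ N) := hxR
  have h2 : QuotientGroup.mk' N x ∈ S.map (QuotientGroup.mk' N) := Subgroup.mem_map_of_mem _ hxS
  have h3 := Helper32.eq_one_of_mem_pGroup_of_mem_pPrimeCore (hS.map _) h2 h1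
  exact (QuotientGroup.eq_one_iff x).mp h3

/-- Inheritance to `R₀ P`, and the induction hypothesis there. -/
theorem not_dvd_card_of_sup_ne_top (hps : IsPSolvable p G)
    (hqs : IsPSolvable q G) (h : PQDeg p q G)
    (hC : Subgroup.centralizer (pCore p G : Set G) ≤ pCore p G)
    (IH : ∀ (H : Type u) [Group H] [Finite H], Nat.card H < Nat.card G → IsPSolvable p H →
      IsPSolvable q H → PQDeg p q H → ¬ q ∣ (pPrimeCore p H).index)
    (P : Sylow p G) (R₀ : Subgroup G) [R₀.Normal] (hne : R₀ ⊔ (P : Subgroup G) ≠ ⊤) :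
    ¬ q ∣ Nat.card R₀ := by
  set X : Subgroup G := R₀ ⊔ (P : Subgroup G) with hX
  have hlt : Nat.card X < Nat.card G := by
    have := card_lt_of_lt (lt_top_iff_ne_top.mpr hne)
    rwa [Subgroup.card_top] at this
  have hXidx : ¬ p ∣ X.index := fun hd =>
    P.not_dvd_index (dvd_trans hd (Subgroup.index_dvd_of_le le_sup_right))
  have hrel : ∃ a : ℕ, R₀.relIndex X = p ^ a := by
    rw [hX, Subgroup.relIndex_sup_left]
    obtain ⟨k, hk⟩ := IsPGroup.iff_card.mp P.isPGroup'
    have h1 : R₀.relIndex (P : Subgroup G) ∣ p ^ k :=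
      hk ▸ Subgroup.relIndex_dvd_card R₀ (P : Subgroup G)
    obtain ⟨a, -, ha⟩ := (Nat.dvd_prime_pow hp.out).mp h1
    exact ⟨a, ha⟩
  have hXpq : PQDeg p q X := h.subgroup R₀ X le_sup_left hXidx hrel
  have hIH := IH X hlt (Helper32.isPSolvable_subgroup hp.out hps X)
    (Helper32.isPSolvable_subgroup hq.out hqs X) hXpq
  have hcore : pPrimeCore p X = ⊥ := by
    rw [eq_bot_iff]
    intro l hl
    haveI : (pCore p G).Normal := pCore_normal
    have hNp : IsPGroup p (pCore p G) := pCore_isPGroup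
    have hNX : pCore p G ≤ X := (normal_le_sylow hNp P).trans le_sup_right
    haveI hLn : (pPrimeCore p X).Normal := pPrimeCore_normal
    have htriv : ∀ x : X, x ∈ pPrimeCore p X → (x : G) ∈ pCore p G → x = 1 := by
      intro x hx hxN
      exact Helper32.eq_one_of_mem_pGroup_of_mem_pPrimeCore
        (R := (pCore p G).subgroupOf X) hNp.comap_subtype (Subgroup.mem_subgroupOf.mpr hxN) hx
    have hcent : (l : G) ∈ Subgroup.centralizer (pCore p G : Set G) := by
      rw [Subgroup.mem_centralizer_iff]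
      intro n hn
      have hmem : (⟨n, hNX hn⟩ : X) * l * (⟨n, hNX hn⟩ : X)⁻¹ * l⁻¹ ∈ pPrimeCore p X :=
        Subgroup.mul_mem _ (hLn.conj_mem l hl _) (Subgroup.inv_mem _ hl)
      have hval : (((⟨n, hNX hn⟩ : X) * l * (⟨n, hNX hn⟩ : X)⁻¹ * l⁻¹ : X) : G) ∈ pCore p G := by
        change n * (l : G) * n⁻¹ * (l : G)⁻¹ ∈ pCore p G
        have e : n * (l : G) * n⁻¹ * (l : G)⁻¹ = n * ((l : G) * n⁻¹ * (l : G)⁻¹) := by group
        rw [e]
        exact Subgroup.mul_mem _ hn
          (Subgroup.Normal.conj_mem inferInstance _ (Subgroup.inv_mem _ hn) _)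
      have hc := htriv _ hmem hval
      have hc' : n * (l : G) * n⁻¹ * (l : G)⁻¹ = 1 := congrArg Subtype.val hc
      calc n * (l : G) = (n * (l : G) * n⁻¹ * (l : G)⁻¹) * ((l : G) * n) := by group
        _ = (l : G) * n := by rw [hc', one_mul]
    rw [Subgroup.mem_bot]
    exact htriv l hl (hC hcent)
  rw [hcore, Subgroup.index_bot] at hIH
  exact fun hd => hIH (dvd_trans hd (Subgroup.card_dvd_of_le (le_sup_left : R₀ ≤ X)))

omit hp in
/-- A maximal normal subgroup `B` of `G` below `R` (above `N`) is a `q'`-group of `q`-power index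
in `R`, under the minimality hypothesis. -/
theorem exists_max_normal_qprime (hqs : IsPSolvable q G) (R N : Subgroup G) [hR : R.Normal]
    [hN : N.Normal] (hNR : N ≤ R) (hqR : q ∣ Nat.card R) (hNq : ¬ q ∣ Nat.card N)
    (hmin : ∀ R₀ : Subgroup G, R₀.Normal → N ≤ R₀ → R₀ ≤ R → R₀ ≠ R → ¬ q ∣ Nat.card R₀) :
    ∃ B : Subgroup G, B.Normal ∧ N ≤ B ∧ B ≤ R ∧ ¬ q ∣ Nat.card B ∧
      ∃ m : ℕ, B.relIndex R = q ^ m := by
  classical
  set S : Set (Subgroup G) := {B₀ | B₀.Normal ∧ N ≤ B₀ ∧ B₀ ≤ R ∧ B₀ ≠ R} with hS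
  have hNS : N ∈ S := ⟨hN, le_rfl, hNR, fun hEq => hNq (hEq ▸ hqR)⟩
  obtain ⟨B, ⟨hBn, hNB, hBR, hBne⟩, hmax⟩ :=
    Set.exists_max_image S (fun B₀ => Nat.card B₀) (Set.toFinite S) ⟨N, hNS⟩
  have hBq := hmin B hBn hNB hBR hBne
  refine ⟨B, hBn, hNB, hBR, hBq, ?_⟩
  haveI := hBn
  have hπBs : Function.Surjective (QuotientGroup.mk' B) := QuotientGroup.mk'_surjective B
  have hkerB : (QuotientGroup.mk' B).ker = B := QuotientGroup.ker_mk' B
  set πB := QuotientGroup.mk' B with hπB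
  have hMn : (R.map πB).Normal := Subgroup.Normal.map hR πB hπBs
  have hMne : R.map πB ≠ ⊥ := by
    intro h0
    rw [Subgroup.map_eq_bot_iff, hkerB] at h0
    exact hBne (le_antisymm hBR h0)
  obtain ⟨D, hDn, hDM, hDne, hD⟩ := Helper32.exists_normal_le_of_isPSolvable hq.out
    (Helper32.isPSolvable_quotient hq.out hqs B) (R.map πB) hMne
  set D' : Subgroup G := D.comap πB with hD'
  have hD'n : D'.Normal := hDn.comap πB
  have hBD' : B ≤ D' := by
    have := MonoidHom.ker_le_comap πB D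
    rwa [hkerB] at this
  have hD'R : D' ≤ R := by
    have h1 : D' ≤ (R.map πB).comap πB := Subgroup.comap_mono hDM
    rw [Subgroup.comap_map_eq, hkerB, sup_eq_left.mpr hBR] at h1
    exact h1
  have hcardD' : Nat.card D' = Nat.card B * Nat.card D := Helper32.card_comap_mk' B D
  have hDcard : 1 < Nat.card D := D.one_lt_card_iff_ne_bot.mpr hDne
  have hD'eq : D' = R := by
    by_contra hne
    have h1 := hmax D' ⟨hD'n, hNB.trans hBD', hD'R, hne⟩
    have h2 : Nat.card D' ≤ Nat.card B := h1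
    rw [hcardD'] at h2
    have hBpos : 0 < Nat.card B := Nat.card_pos
    nlinarith
  have hrel : B.relIndex R = Nat.card D := by
    have h1 := Helper35.card_mul_relIndex_of_le hBR
    rw [← hD'eq, hcardD'] at h1
    rw [← hD'eq]
    exact Nat.eq_of_mul_eq_mul_left Nat.card_pos h1
  rcases hD with hDq | hDcop
  · obtain ⟨m, hm⟩ := IsPGroup.iff_card.mp hDq
    exact ⟨m, by rw [hrel, hm]⟩
  · exfalso
    have h0 : q ∣ Nat.card B * Nat.card D := by rw [← hcardD', hD'eq]; exact hqR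
    rcases (Nat.Prime.dvd_mul hq.out).mp h0 with h1 | h1
    · exact hBq h1
    · have h3 : q ∣ Nat.gcd (Nat.card D) q := Nat.dvd_gcd h1 dvd_rfl
      rw [hDcop] at h3
      exact hq.out.one_lt.ne' (Nat.dvd_one.mp h3)

/-- Frattini argument: a `p`-subgroup `S'` normalizing the Sylow `q`-subgroup `Q ≤ R` with
`N S'` a Sylow `p`-subgroup of `G` and `C_N(Q) ≤ S'`. -/
theorem exists_sylow_sup (N R : Subgroup G) [hN : N.Normal] [hR : R.Normal] (hNp : IsPGroup p N)
    (hRN : ∀ S : Subgroup G, IsPGroup p S → R ⊓ S ≤ N)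
    (hRidx : ∃ a : ℕ, R.index = p ^ a)
    (Q : Sylow q G) (hQR : (Q : Subgroup G) ≤ R) :
    ∃ S' : Subgroup G, IsPGroup p S' ∧ S' ≤ Subgroup.normalizer ((Q : Subgroup G) : Set G) ∧
      ¬ p ∣ (N ⊔ S').index ∧ R ⊔ S' = ⊤ ∧
      (∀ c ∈ N, (∀ y ∈ (Q : Subgroup G), y * c = c * y) → c ∈ S') := by
  set T : Subgroup G := Subgroup.normalizer ((Q : Subgroup G) : Set G) with hT
  have hfr : T ⊔ R = ⊤ := Sylow.normalizer_sup_eq_top' Q hQR
  obtain ⟨S⟩ : Nonempty (Sylow p T) := inferInstance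
  set S' : Subgroup G := (S : Subgroup T).map T.subtype with hS'
  have hS'p : IsPGroup p S' := S.isPGroup'.map _
  have hS'T : S' ≤ T := Subgroup.map_subtype_le _
  have hRS : R ⊔ S' = ⊤ := by
    let ρ : T →* G ⧸ R := (QuotientGroup.mk' R).comp T.subtype
    have hρ : Function.Surjective ρ := by
      intro x
      obtain ⟨g, rfl⟩ := QuotientGroup.mk'_surjective R x
      have hg : g ∈ T ⊔ R := by rw [hfr]; trivial
      obtain ⟨t, ht, r, hr, rfl⟩ := Subgroup.mem_sup_of_normal_right.mp hg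
      refine ⟨⟨t, ht⟩, ?_⟩
      change QuotientGroup.mk' R t = QuotientGroup.mk' R (t * r)
      rw [map_mul]
      have : QuotientGroup.mk' R r = 1 := (QuotientGroup.eq_one_iff r).mpr hr
      rw [this, mul_one]
    obtain ⟨a, ha⟩ := hRidx
    have hcardQ : Nat.card (G ⧸ R) = p ^ a := by rw [← Subgroup.index_eq_card, ha]
    have hS₂top : ((S.mapSurjective hρ : Sylow p (G ⧸ R)) : Subgroup (G ⧸ R)) = ⊤ := by
      apply (Subgroup.card_eq_iff_eq_top _).mp
      rw [Sylow.card_eq_multiplicity, hcardQ, Nat.Prime.factorization_pow hp.out]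
      simp
    rw [eq_top_iff]
    intro g _
    have hg : (QuotientGroup.mk' R g) ∈ ((S.mapSurjective hρ : Sylow p (G ⧸ R)) :
        Subgroup (G ⧸ R)) := by rw [hS₂top]; trivial
    rw [Sylow.coe_mapSurjective] at hg
    obtain ⟨s, hs, hsg⟩ := hg
    have hsS' : (s : G) ∈ S' := ⟨s, hs, rfl⟩
    have hr : (s : G)⁻¹ * g ∈ R := by
      rw [← QuotientGroup.eq]
      exact hsg
    have e : g = (s : G) * ((s : G)⁻¹ * g) := by group
    rw [e]
    exact Subgroup.mul_mem _ (Subgroup.mem_sup_right hsS') (Subgroup.mem_sup_left hr)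
  obtain ⟨P₂, hP₂⟩ := hS'p.exists_le_sylow
  have hNP₂ : N ≤ P₂ := normal_le_sylow hNp P₂
  have hPeq : (P₂ : Subgroup G) = N ⊔ S' := by
    apply le_antisymm
    · intro x hx
      have hx' : x ∈ R ⊔ S' := by rw [hRS]; trivial
      obtain ⟨r, hr, s, hs, rfl⟩ := Subgroup.mem_sup_of_normal_left.mp hx'
      have hrP : r ∈ (P₂ : Subgroup G) := by
        have e : r = r * s * s⁻¹ := by group
        rw [e]; exact Subgroup.mul_mem _ hx (Subgroup.inv_mem _ (hP₂ hs))
      have hrN : r ∈ N := hRN P₂ P₂.isPGroup' ⟨hr, hrP⟩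
      exact Subgroup.mul_mem _ (Subgroup.mem_sup_left hrN) (Subgroup.mem_sup_right hs)
    · exact sup_le hNP₂ hP₂
  refine ⟨S', hS'p, hS'T, ?_, hRS, ?_⟩
  · rw [← hPeq]; exact P₂.not_dvd_index
  · intro c hcN hc
    set C : Subgroup G := N ⊓ Subgroup.centralizer ((Q : Subgroup G) : Set G) with hC
    have hcC : c ∈ C := ⟨hcN, Subgroup.mem_centralizer_iff.mpr hc⟩
    have hCT : C ≤ T := inf_le_right.trans (Subgroup.centralizer_le_normalizer _)
    have hCp : IsPGroup p C := hNp.to_le inf_le_left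
    have hconj : ∀ t ∈ T, ∀ x ∈ C, t * x * t⁻¹ ∈ C := by
      intro t ht x hx
      obtain ⟨hx1, hx2⟩ := Subgroup.mem_inf.mp hx
      refine Subgroup.mem_inf.mpr ⟨hN.conj_mem x hx1 t, ?_⟩
      rw [Subgroup.mem_centralizer_iff]
      intro y hy
      have hy' : t⁻¹ * y * t⁻¹⁻¹ ∈ (Q : Subgroup G) :=
        (Subgroup.mem_normalizer_iff.mp (T.inv_mem ht) y).mp hy
      have hcomm := Subgroup.mem_centralizer_iff.mp hx2 _ hy'
      calc y * (t * x * t⁻¹) = t * ((t⁻¹ * y * t⁻¹⁻¹) * x) * t⁻¹ := by group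
        _ = t * (x * (t⁻¹ * y * t⁻¹⁻¹)) * t⁻¹ := by rw [hcomm]
        _ = t * x * t⁻¹ * y := by group
    have hTC : T ≤ Subgroup.normalizer (C : Set G) := by
      intro t ht
      rw [Subgroup.mem_normalizer_iff]
      intro x
      constructor
      · exact hconj t ht x
      · intro hx
        have := hconj t⁻¹ (T.inv_mem ht) _ hx
        have e : t⁻¹ * (t * x * t⁻¹) * t⁻¹⁻¹ = x := by group
        rwa [e] at this
    exact Helper35.le_of_mem_sylowSet_of_le_normalizer (Helper35.sylow_map_mem_sylowSet S)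
      hCT hCp hTC hcC

/-- Facts in the quotient `G/N`. -/
theorem quotient_facts (N : Subgroup G) [hN : N.Normal] (A' : Subgroup (G ⧸ N)) [hA' : A'.Normal]
    (hA'p : (Nat.card A').Coprime p) (B Q P : Subgroup G) [hB : B.Normal]
    (hBq : ¬ q ∣ Nat.card B) (hQ : IsPGroup q Q) (hP : IsPGroup p P)
    (hBQ : A'.comap (QuotientGroup.mk' N) = B ⊔ Q)
    (hRP : A'.comap (QuotientGroup.mk' N) ⊔ P = ⊤) :
    (Nat.card (B.map (QuotientGroup.mk' N))).Coprime p ∧
    (Nat.card (B.map (QuotientGroup.mk' N))).Coprime q ∧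
    B.map (QuotientGroup.mk' N) ⊔ Q.map (QuotientGroup.mk' N) = A' ∧
    Nat.card (G ⧸ N) = Nat.card (B.map (QuotientGroup.mk' N)) *
      Nat.card (Q.map (QuotientGroup.mk' N)) * Nat.card (P.map (QuotientGroup.mk' N)) := by
  have hπs : Function.Surjective (QuotientGroup.mk' N) := QuotientGroup.mk'_surjective N
  set π := QuotientGroup.mk' N with hπ
  have hBA : B.map π ≤ A' := by
    rw [Subgroup.map_le_iff_le_comap, hBQ]; exact le_sup_left
  have hsup : B.map π ⊔ Q.map π = A' := by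
    rw [← Subgroup.map_sup, ← hBQ, Subgroup.map_comap_eq_self_of_surjective hπs]
  have h1 : (Nat.card (B.map π)).Coprime p :=
    Nat.Coprime.coprime_dvd_left (Subgroup.card_dvd_of_le hBA) hA'p
  have h2 : (Nat.card (B.map π)).Coprime q := by
    apply Nat.Coprime.coprime_dvd_left (Subgroup.card_map_dvd B π)
    exact ((Nat.Prime.coprime_iff_not_dvd hq.out).mpr hBq).symm
  refine ⟨h1, h2, hsup, ?_⟩
  haveI : (B.map π).Normal := Subgroup.Normal.map hB π hπs
  have hQb : IsPGroup q (Q.map π) := hQ.map π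
  have hPb : IsPGroup p (P.map π) := hP.map π
  have hQbB : Q.map π ≤ Subgroup.normalizer ((B.map π : Subgroup (G ⧸ N)) : Set (G ⧸ N)) := by
    rw [Subgroup.normalizer_eq_top]; exact le_top
  have hPbA : P.map π ≤ Subgroup.normalizer ((A' : Subgroup (G ⧸ N)) : Set (G ⧸ N)) := by
    rw [Subgroup.normalizer_eq_top]; exact le_top
  have c1 : Nat.card (B.map π ⊔ Q.map π : Subgroup (G ⧸ N)) =
      Nat.card (B.map π) * Nat.card (Q.map π) :=
    Helper35.card_sup_of_le_normalizer hQbB (inf_eq_bot_of_coprime_isPGroup h2 hQb)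
  have c2 : Nat.card (A' ⊔ P.map π : Subgroup (G ⧸ N)) = Nat.card A' * Nat.card (P.map π) :=
    Helper35.card_sup_of_le_normalizer hPbA (inf_eq_bot_of_coprime_isPGroup hA'p hPb)
  have htop : A' ⊔ P.map π = ⊤ := by
    have h3 : (A'.comap π ⊔ P).map π = ⊤ := by
      rw [hRP, Subgroup.map_top_of_surjective π hπs]
    rw [Subgroup.map_sup, Subgroup.map_comap_eq_self_of_surjective hπs] at h3
    exact h3
  rw [htop, Subgroup.card_top] at c2
  rw [c2, ← hsup, c1]

end structure_lemmas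

end Cfsg.Agent.Helper76
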