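import Cfsg.Agent.Helper76.PQKey
import Cfsg.Agent.Helper76.Fong

/-!
# Principal blocks of `{p,q}`-solvable groups and degrees (helper76)

* `not_dvd_index_pPrimeCore_of_principal`: if every irreducible character of `p'`-degree in the
  principal `p`-block of the `p`-solvable and `q`-solvable group `G` has `q'`-degree, then
  `q ∤ [G : O_{p'}(G)]`.
* `not_dvd_charDegree_of_principal`: if `q ∤ [G : O_{p'}(G)]` then every irreducible character in the
  principal `p`-block has degree prime to `q`.
-/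

set_option autoImplicit false
set_option linter.style.haveILetI false

namespace Cfsg.Agent.Helper76

open Cfsg

universe u

section principal

variable {G : Type u} [Group G] [Finite G] {p q : ℕ} [hp : Fact p.Prime] [hq : Fact q.Prime]
  {M : Ideal Cfsg.AlgInt}

theorem not_dvd_index_pPrimeCore_of_principal (hpq : p ≠ q) (hM : Cfsg.IsPModular p M)
    (hps : IsPSolvable p G) (hqs : IsPSolvable q G)
    (H : ∀ χ : IrrCharacter G, χ ∈ principalBlock M G → ¬ p ∣ charDegree (χ : G → ℂ) →
      ¬ q ∣ charDegree (χ : G → ℂ)) :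
    ¬ q ∣ (pPrimeCore p G).index := by
  haveI hKn : (pPrimeCore p G).Normal := pPrimeCore_normal
  have hπs : Function.Surjective (QuotientGroup.mk' (pPrimeCore p G)) :=
    QuotientGroup.mk'_surjective _
  have hpq' : PQDeg p q (G ⧸ pPrimeCore p G) := by
    intro ψ hψ
    have hirr := Helper79.isIrrCharacter_comp (QuotientGroup.mk' (pPrimeCore p G)) hπs ψ.2
    have hdeg : charDegree (fun x => (ψ : G ⧸ pPrimeCore p G → ℂ)
        (QuotientGroup.mk' (pPrimeCore p G) x)) = charDegree (ψ : G ⧸ pPrimeCore p G → ℂ) := by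
      unfold charDegree
      change ⌊((ψ : G ⧸ pPrimeCore p G → ℂ) (QuotientGroup.mk' (pPrimeCore p G) 1)).re⌋₊ = _
      rw [map_one]
    have hmem : (⟨_, hirr⟩ : IrrCharacter G) ∈ principalBlock M G := by
      apply mem_principalBlock_of_isPSolvableElt hM (isPSolvableElt_of_isPSolvable hps)
      intro n hn
      change (ψ : G ⧸ pPrimeCore p G → ℂ) (QuotientGroup.mk' (pPrimeCore p G) n) =
        (ψ : G ⧸ pPrimeCore p G → ℂ) (QuotientGroup.mk' (pPrimeCore p G) 1)
      have h1 : QuotientGroup.mk' (pPrimeCore p G) n = 1 := (QuotientGroup.eq_one_iff n).mpr hn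
      rw [h1, map_one]
    have h2 := H ⟨_, hirr⟩ hmem
    change ¬ p ∣ charDegree (fun x => (ψ : G ⧸ pPrimeCore p G → ℂ)
        (QuotientGroup.mk' (pPrimeCore p G) x)) →
      ¬ q ∣ charDegree (fun x => (ψ : G ⧸ pPrimeCore p G → ℂ)
        (QuotientGroup.mk' (pPrimeCore p G) x)) at h2
    rw [hdeg] at h2
    exact h2 hψ
  have h1 := not_dvd_index_pPrimeCore_of_pqDeg hpq (Helper32.isPSolvable_quotient hp.out hps _)
    (Helper32.isPSolvable_quotient hq.out hqs _) hpq'
  rw [Helper32.pPrimeCore_quotient_eq_bot' p G, Subgroup.index_bot,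
    ← Subgroup.index_eq_card] at h1
  exact h1

omit hq in
theorem not_dvd_charDegree_of_principal (hM : Cfsg.IsPModular p M)
    (hidx : ¬ q ∣ (pPrimeCore p G).index) (χ : IrrCharacter G) (hχ : χ ∈ principalBlock M G) :
    ¬ q ∣ charDegree (χ : G → ℂ) := by
  haveI hKn : (pPrimeCore p G).Normal := pPrimeCore_normal
  have hker := apply_eq_of_mem_principalBlock hM χ hχ
  obtain ⟨ψ, hψ, hψg⟩ := Helper79.exists_irr_deflation (pPrimeCore p G) χ.2 hker
  have hdeg : charDegree (χ : G → ℂ) = charDegree ψ := by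
    unfold charDegree
    rw [← hψg 1]
    rfl
  have hdvd : charDegree ψ ∣ Nat.card (G ⧸ pPrimeCore p G) :=
    Helper79.irr_charDegree_dvd_card ⟨ψ, hψ⟩
  rw [← Subgroup.index_eq_card] at hdvd
  rw [hdeg]
  exact fun hd => hidx (dvd_trans hd hdvd)

end principal

end Cfsg.Agent.Helper76
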