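import Cfsg.Agent.Helper76.PQOver
import Cfsg.Agent.Helper74.PDeg
import Cfsg.Agent.Helper75.InnerLin
import Cfsg.Agent.Helper79.Quotient

/-!
# Inheritance of `PQDeg` (helper76)

* `PQDeg.of_surjective`: `PQDeg` passes to quotients.
* `PQDeg.subgroup`: `PQDeg` passes to a subgroup `X` of `p'`-index containing a normal subgroup
  `R₀` of `G` with `[X : R₀]` a power of `p`.
-/

set_option autoImplicit false
set_option linter.style.haveILetI false

namespace Cfsg.Agent.Helper76

open Cfsg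

universe u

theorem PQDeg.of_surjective {p q : ℕ} {G H : Type*} [Group G] [Group H] (f : G →* H)
    (hf : Function.Surjective f) (h : PQDeg p q G) : PQDeg p q H := by
  intro χ hχ
  have hirr := Helper79.isIrrCharacter_comp f hf χ.2
  have hdeg : charDegree (fun x => (χ : H → ℂ) (f x)) = charDegree (χ : H → ℂ) := by
    unfold charDegree
    change ⌊((χ : H → ℂ) (f 1)).re⌋₊ = _
    rw [map_one]
  have h1 := h ⟨_, hirr⟩
  change ¬ p ∣ charDegree (fun x => (χ : H → ℂ) (f x)) →
    ¬ q ∣ charDegree (fun x => (χ : H → ℂ) (f x)) at h1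
  rw [hdeg] at h1
  exact h1 hχ

theorem PQDeg.subgroup {p q : ℕ} [Fact p.Prime] {G : Type u} [Group G] [Finite G]
    (h : PQDeg p q G) (R₀ : Subgroup G) [R₀.Normal] (X : Subgroup G) (hRX : R₀ ≤ X)
    (hX : ¬ p ∣ X.index) (hrel : ∃ a : ℕ, R₀.relIndex X = p ^ a) : PQDeg p q X := by
  classical
  letI : Fintype G := Fintype.ofFinite G
  letI : Fintype X := Fintype.ofFinite X
  letI : Fintype R₀ := Fintype.ofFinite R₀
  intro ψ hψ
  have hcop : (charDegree (ψ : X → ℂ)).Coprime (R₀.subgroupOf X).index := by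
    obtain ⟨a, ha⟩ := hrel
    have ha' : (R₀.subgroupOf X).index = p ^ a := ha
    rw [ha']
    exact Nat.Coprime.pow_right a ((Nat.Prime.coprime_iff_not_dvd Fact.out).mpr hψ).symm
  have hirr := Helper74.restrict_irr_of_coprime (R₀.subgroupOf X) ψ hcop
  set θ : R₀ → ℂ := Helper75.resTo hRX (ψ : X → ℂ) with hθ
  have hθirr : IsIrrCharacter R₀ θ :=
    (Helper79.isIrrCharacter_mulEquiv (Subgroup.subgroupOfEquivOfLe hRX) (χ := θ)).mp hirr
  have hne : classInner (Helper75.resTo hRX (ψ : X → ℂ)) θ ≠ 0 := by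
    have := Helper75.classInner_irr (⟨θ, hθirr⟩ : IrrCharacter R₀) ⟨θ, hθirr⟩
    rw [if_pos rfl] at this
    rw [← hθ, this]
    exact one_ne_zero
  have hdeg : ¬ p ∣ X.index * charDegree (ψ : X → ℂ) := by
    intro hd
    rcases (Nat.Prime.dvd_mul Fact.out).mp hd with h1 | h1
    · exact hX h1
    · exact hψ h1
  have hkey := h.not_dvd_of_over R₀ hRX ψ.2 hdeg hθirr hne
  have hdegθ : charDegree θ = charDegree (ψ : X → ℂ) := rfl
  rw [hdegθ] at hkey
  exact fun h3 => hkey (Dvd.dvd.mul_left h3 _)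

end Cfsg.Agent.Helper76
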