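import Cfsg.Agent.Helper76.PQCount
import Cfsg.Agent.Helper35.CoprimeSylow
import Cfsg.Agent.Helper35.CoprimeGen

/-!
# Uniqueness of the invariant Sylow `q`-subgroup (helper76)

* `sylow_unique_of_centralizer`: in `A = B Q` (`B` a normal `{p,q}'`-subgroup, `Q` a `q`-group
  normalized by the `p`-group `P`) with `C_B(P) ≤ C_B(Q)`, the subgroup `Q` is the only
  `P`-invariant subgroup of `A` of order `|Q|`.
-/

set_option autoImplicit false
set_option linter.style.haveILetI false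

namespace Cfsg.Agent.Helper76

open Cfsg
open scoped Pointwise

universe u

section sylow

variable {p q : ℕ} [hp : Fact p.Prime] [hq : Fact q.Prime] {Γ : Type u} [Group Γ] [Finite Γ]

omit hp in
theorem inf_eq_bot_of_coprime_isPGroup {B Q : Subgroup Γ} (hBq : (Nat.card B).Coprime q)
    (hQ : IsPGroup q Q) : B ⊓ Q = ⊥ := by
  obtain ⟨k, hk⟩ := IsPGroup.iff_card.mp hQ
  have hc : (Nat.card B).Coprime (Nat.card Q) := by rw [hk]; exact Nat.Coprime.pow_right k hBq
  exact disjoint_iff.mp (Subgroup.disjoint_of_coprime_natCard hc)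

omit hp in
theorem mem_sylowSet_sup {B Q : Subgroup Γ} [hB : B.Normal] (hBq : (Nat.card B).Coprime q)
    (hQ : IsPGroup q Q) : Q ∈ Helper35.sylowSet q (B ⊔ Q) := by
  refine ⟨le_sup_right, ?_⟩
  have hQB : Q ≤ Subgroup.normalizer (B : Set Γ) := by
    rw [Subgroup.normalizer_eq_top]; exact le_top
  have hcardA : Nat.card (B ⊔ Q : Subgroup Γ) = Nat.card B * Nat.card Q :=
    Helper35.card_sup_of_le_normalizer hQB (inf_eq_bot_of_coprime_isPGroup hBq hQ)
  obtain ⟨k, hk⟩ := IsPGroup.iff_card.mp hQ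
  rw [hcardA, hk, Nat.factorization_mul Nat.card_pos.ne' (pow_ne_zero k hq.out.ne_zero),
    Nat.Prime.factorization_pow hq.out]
  have h0 : (Nat.card B).factorization q = 0 := by
    apply Nat.factorization_eq_zero_of_not_dvd
    intro hd
    have h3 : q ∣ Nat.gcd (Nat.card B) q := Nat.dvd_gcd hd dvd_rfl
    rw [hBq] at h3
    exact hq.out.one_lt.ne' (Nat.dvd_one.mp h3)
  simp [h0]

theorem sylow_unique_of_centralizer (hpq : p ≠ q) (B P Q Q₁ : Subgroup Γ) [hB : B.Normal]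
    (hBp : (Nat.card B).Coprime p) (hBq : (Nat.card B).Coprime q)
    (hP : IsPGroup p P) (hQ : IsPGroup q Q) (hPQ : P ≤ Subgroup.normalizer (Q : Set Γ))
    (hE : ∀ c ∈ B, (∀ x ∈ P, x * c = c * x) → ∀ y ∈ Q, y * c = c * y)
    (hQ₁ : Q₁ ≤ B ⊔ Q) (hcard : Nat.card Q₁ = Nat.card Q)
    (hPQ₁ : P ≤ Subgroup.normalizer (Q₁ : Set Γ)) : Q₁ = Q := by
  have hPB : P ≤ Subgroup.normalizer (B : Set Γ) := by
    rw [Subgroup.normalizer_eq_top]; exact le_top
  have hQB : Q ≤ Subgroup.normalizer (B : Set Γ) := by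
    rw [Subgroup.normalizer_eq_top]; exact le_top
  have hPA : P ≤ Subgroup.normalizer ((B ⊔ Q : Subgroup Γ) : Set Γ) :=
    Helper35.le_normalizer_sup hPB hPQ
  have hbot : B ⊓ Q = ⊥ := inf_eq_bot_of_coprime_isPGroup hBq hQ
  have hcardA : Nat.card (B ⊔ Q : Subgroup Γ) = Nat.card B * Nat.card Q :=
    Helper35.card_sup_of_le_normalizer hQB hbot
  obtain ⟨kP, hkP⟩ := IsPGroup.iff_card.mp hP
  obtain ⟨kQ, hkQ⟩ := IsPGroup.iff_card.mp hQ
  have hcop : (Nat.card P).Coprime (Nat.card (B ⊔ Q : Subgroup Γ)) := by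
    rw [hcardA, hkP, hkQ]
    apply Nat.Coprime.pow_left
    apply Nat.Coprime.mul_right hBp.symm
    exact Nat.Coprime.pow_right kQ ((Nat.coprime_primes hp.out hq.out).mpr hpq)
  have hQmem : Q ∈ Helper35.sylowSet q (B ⊔ Q) := mem_sylowSet_sup hBq hQ
  have hQ₁mem : Q₁ ∈ Helper35.sylowSet q (B ⊔ Q) := ⟨hQ₁, by rw [hcard]; exact hQmem.2⟩
  obtain ⟨c, hc, hcQ⟩ := Helper35.exists_conj_invariant_sylow (p := q) hPA hcop
    (Or.inl (isSolvable_of_isPGroup hP)) hQmem hQ₁mem hPQ hPQ₁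
  obtain ⟨hcA, hcP⟩ := Subgroup.mem_inf.mp hc
  obtain ⟨b, hb, y, hy, rfl⟩ := Subgroup.mem_sup_of_normal_left.mp hcA
  rw [Subgroup.mem_centralizer_iff] at hcP
  have hbP : ∀ x ∈ P, x * b = b * x := by
    intro x hx
    have h1 : x * (b * y) = b * y * x := hcP x hx
    have hxy : x * y * x⁻¹ ∈ Q := (Subgroup.mem_normalizer_iff.mp (hPQ hx) y).mp hy
    have h2 : b⁻¹ * (x * b * x⁻¹) = y * (x * y * x⁻¹)⁻¹ := by
      have e1 : x * b * x⁻¹ = b * y * x * y⁻¹ * x⁻¹ := by
        rw [← h1]; group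
      rw [e1]; group
    have h3 : b⁻¹ * (x * b * x⁻¹) ∈ B ⊓ Q := by
      refine ⟨B.mul_mem (B.inv_mem hb) (hB.conj_mem b hb x), ?_⟩
      rw [h2]
      exact Q.mul_mem hy (Q.inv_mem hxy)
    rw [hbot, Subgroup.mem_bot] at h3
    have h4 : x * b * x⁻¹ = b := by
      have := congrArg (fun t => b * t) h3
      simpa using this
    calc x * b = x * b * x⁻¹ * x := by group
      _ = b * x := by rw [h4]
  have hbQ := hE b hb hbP
  have hbN : b ∈ Subgroup.normalizer (Q : Set Γ) := by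
    rw [Subgroup.mem_normalizer_iff]
    intro z
    constructor
    · intro hz
      have : b * z * b⁻¹ = z := by
        have := hbQ z hz
        calc b * z * b⁻¹ = z * b * b⁻¹ := by rw [this]
          _ = z := by group
      rw [this]; exact hz
    · intro hz
      have h1 := hbQ _ hz
      have : z = b * z * b⁻¹ := by
        have e1 : b * z * b⁻¹ * b = b * (b * z * b⁻¹) := h1
        have e2 : b * z = b * (b * z * b⁻¹) := by
          rw [← e1]; group
        exact mul_left_cancel e2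
      rw [this]; exact hz
  have hyN : y ∈ Subgroup.normalizer (Q : Set Γ) := Subgroup.le_normalizer hy
  have hcN : b * y ∈ Subgroup.normalizer (Q : Set Γ) := Subgroup.mul_mem _ hbN hyN
  rw [Helper35.conj_smul_eq_self_of_mem_normalizer hcN] at hcQ
  exact hcQ.symm

end sylow

end Cfsg.Agent.Helper76
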